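import Mathlib

set_option autoImplicit false

/-!
# Piece GT of CALL S2249 (helper70): transfer of the "unique maximal normalized elementary abelian
subgroup" property to an arbitrary Sylow subgroup (fixed-point count on `G ⧸ N(A₀)`).
-/

namespace Cfsg.Agent.Helper70.N2RGT

open scoped Pointwise

theorem gt_fixed_iff {G : Type*} [Group G] (P N : Subgroup G) (g : G) :
    (g : G ⧸ N) ∈ MulAction.fixedPoints P (G ⧸ N) ↔ ∀ s ∈ P, g⁻¹ * s * g ∈ N := by
  rw [MulAction.mem_fixedPoints]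
  constructor
  · intro h s hs
    have h1 := h ⟨s, hs⟩
    have h2 : ((s * g : G) : G ⧸ N) = (g : G ⧸ N) := h1
    have h3 := QuotientGroup.eq.mp h2.symm
    simpa [mul_assoc] using h3
  · rintro h ⟨s, hs⟩
    show ((s * g : G) : G ⧸ N) = (g : G ⧸ N)
    refine (QuotientGroup.eq.mpr ?_).symm
    simpa [mul_assoc] using h s hs

theorem gt_base {G : Type*} [Group G] [Finite G] {p : ℕ} [Fact p.Prime]
    (T A₀ : Subgroup G) (hT : IsPGroup p T)
    (hA₀c : ∀ a ∈ A₀, ∀ b ∈ A₀, a * b = b * a) (hA₀e : ∀ a ∈ A₀, a ^ p = 1)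
    (hTA₀ : ∀ t ∈ T, ∀ a ∈ A₀, t * a * t⁻¹ ∈ A₀)
    (h4 : ∀ A : Subgroup G, (∀ a ∈ A, ∀ b ∈ A, a * b = b * a) → (∀ a ∈ A, a ^ p = 1) →
      (∀ t ∈ T, ∀ a ∈ A, t * a * t⁻¹ ∈ A) → A ≤ A₀)
    (S : Sylow p G) (hTS : T ≤ S) :
    (∃ E : Subgroup ↥(S : Subgroup G), E.Normal ∧ (IsMulCommutative ↥E ∧ ∀ a ∈ E, a ^ p = 1) ∧
        Nat.card A₀ ≤ Nat.card ↥E) ∧
    ∀ E : Subgroup ↥(S : Subgroup G), E.Normal → (IsMulCommutative ↥E ∧ ∀ a ∈ E, a ^ p = 1) →
      Nat.card ↥E ≤ Nat.card A₀ := by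
  obtain ⟨N, hN⟩ : ∃ N : Subgroup G, N = Subgroup.normalizer (A₀ : Set G) := ⟨_, rfl⟩
  have hnorm_of : ∀ P : Subgroup G, (∀ s ∈ P, ∀ a ∈ A₀, s * a * s⁻¹ ∈ A₀) → P ≤ N := by
    intro P hP s hs
    rw [hN, Subgroup.mem_normalizer_iff]
    intro h
    constructor
    · exact hP s hs h
    · intro hh
      have h1 := hP s⁻¹ (P.inv_mem hs) _ hh
      simpa [mul_assoc] using h1
  have hTN : T ≤ N := hnorm_of T hTA₀
  have hconj : ∀ (P : Subgroup G) (g : G), (∀ s ∈ P, g⁻¹ * s * g ∈ N) →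
      ∀ s ∈ P, ∀ a ∈ A₀.map (MulAut.conj g).toMonoidHom,
        s * a * s⁻¹ ∈ A₀.map (MulAut.conj g).toMonoidHom := by
    intro P g hP s hs a ha
    obtain ⟨a0, ha0, rfl⟩ := ha
    refine ⟨(g⁻¹ * s * g) * a0 * (g⁻¹ * s * g)⁻¹, ?_, ?_⟩
    · have h1 := hP s hs
      rw [hN] at h1
      exact (Subgroup.mem_normalizer_iff.mp h1 a0).mp ha0
    · simp only [MulEquiv.coe_toMonoidHom, MulAut.conj_apply]
      group
  have hkey : ∀ g : G, (∀ t ∈ T, g⁻¹ * t * g ∈ N) →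
      A₀.map (MulAut.conj g).toMonoidHom = A₀ := by
    intro g hg
    have hle : A₀.map (MulAut.conj g).toMonoidHom ≤ A₀ := by
      apply h4
      · rintro a ⟨a0, ha0, rfl⟩ b ⟨b0, hb0, rfl⟩
        rw [← map_mul, ← map_mul, hA₀c a0 ha0 b0 hb0]
      · rintro a ⟨a0, ha0, rfl⟩
        rw [← map_pow, hA₀e a0 ha0, map_one]
      · exact hconj T g hg
    apply Subgroup.eq_of_le_of_card_ge hle
    rw [Subgroup.card_map_of_injective (MulAut.conj g).injective]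
  have hfixN : ∀ z : G ⧸ N, z ∈ MulAction.fixedPoints T (G ⧸ N) → z = ((1 : G) : G ⧸ N) := by
    intro z hz
    induction z using QuotientGroup.induction_on with
    | H g =>
      rw [gt_fixed_iff] at hz
      have h2 := hkey g hz
      have hgN : g ∈ N := by
        rw [hN, Subgroup.mem_normalizer_iff]
        intro h
        constructor
        · intro hh
          rw [← h2]
          exact ⟨h, hh, rfl⟩
        · intro hh
          rw [← h2] at hh
          obtain ⟨a, ha, hae⟩ := hh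
          have h3 : a = h := by simpa using hae
          rwa [← h3]
      refine QuotientGroup.eq.mpr ?_
      simpa using N.inv_mem hgN
  have hfix1 : Nat.card (MulAction.fixedPoints T (G ⧸ N)) = 1 := by
    rw [Nat.card_eq_one_iff_unique]
    constructor
    · constructor
      rintro ⟨x, hx⟩ ⟨y, hy⟩
      apply Subtype.ext
      show x = y
      rw [hfixN x hx, hfixN y hy]
    · refine ⟨⟨((1 : G) : G ⧸ N), ?_⟩⟩
      rw [gt_fixed_iff]
      intro t ht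
      simpa using hTN ht
  have hnd : ¬ p ∣ Nat.card (G ⧸ N) := by
    intro hdvd
    have hmod := hT.card_modEq_card_fixedPoints (G ⧸ N)
    rw [hfix1] at hmod
    have h1 : Nat.card (G ⧸ N) % p = 1 % p := hmod
    rw [Nat.mod_eq_zero_of_dvd hdvd, Nat.mod_eq_of_lt (Fact.out : p.Prime).one_lt] at h1
    exact absurd h1 (by norm_num)
  obtain ⟨x, hx⟩ := S.isPGroup'.nonempty_fixed_point_of_prime_not_dvd_card (G ⧸ N) hnd
  obtain ⟨g, rfl⟩ := QuotientGroup.mk_surjective x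
  rw [gt_fixed_iff] at hx
  have hgA : A₀.map (MulAut.conj g).toMonoidHom = A₀ := hkey g (fun t ht => hx t (hTS ht))
  have hSA : ∀ s ∈ (S : Subgroup G), ∀ a ∈ A₀, s * a * s⁻¹ ∈ A₀ := by
    have h1 := hconj S g hx
    rwa [hgA] at h1
  have hSN : (S : Subgroup G) ≤ N := hnorm_of S hSA
  have hA₀p : IsPGroup p A₀ := fun a =>
    ⟨1, by rw [pow_one]; exact Subtype.ext (by simpa using hA₀e a a.2)⟩
  have hA₀S : A₀ ≤ S := by
    have h1 : IsPGroup p ((S : Subgroup G) ⊔ A₀ : Subgroup G) :=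
      S.isPGroup'.to_sup_of_normal_right' hA₀p (hN ▸ hSN)
    have h2 := S.is_maximal' h1 le_sup_left
    exact le_sup_right.trans_eq h2
  constructor
  · refine ⟨A₀.subgroupOf S, ⟨?_⟩, ⟨⟨⟨?_⟩⟩, ?_⟩, ?_⟩
    · intro a ha s
      rw [Subgroup.mem_subgroupOf] at ha ⊢
      simpa using hSA s s.2 a ha
    · intro a b
      apply Subtype.ext; apply Subtype.ext
      exact hA₀c _ (Subgroup.mem_subgroupOf.mp a.2) _ (Subgroup.mem_subgroupOf.mp b.2)
    · intro a ha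
      apply Subtype.ext
      simpa using hA₀e _ (Subgroup.mem_subgroupOf.mp ha)
    · exact le_of_eq (Nat.card_congr (Subgroup.subgroupOfEquivOfLe hA₀S).toEquiv).symm
  · intro E hEn hE
    obtain ⟨hEc, hEe⟩ := hE
    have hle : E.map (S : Subgroup G).subtype ≤ A₀ := by
      apply h4
      · rintro a ⟨a', ha', rfl⟩ b ⟨b', hb', rfl⟩
        have h1 := mul_comm' (⟨a', ha'⟩ : E) ⟨b', hb'⟩
        have h2 := congrArg (fun x : E => (((x : E) : (S : Subgroup G)) : G)) h1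
        simpa using h2
      · rintro a ⟨a', ha', rfl⟩
        have h1 := hEe a' ha'
        simpa using congrArg (fun x : (S : Subgroup G) => (x : G)) h1
      · rintro t ht a ⟨a', ha', rfl⟩
        exact ⟨⟨t, hTS ht⟩ * a' * ⟨t, hTS ht⟩⁻¹, hEn.conj_mem a' ha' _, by simp⟩
    calc Nat.card E = Nat.card (E.map (S : Subgroup G).subtype) :=
          (Subgroup.card_map_of_injective (Subgroup.subtype_injective _)).symm
      _ ≤ Nat.card A₀ := Subgroup.card_le_of_le hle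

/-- GT -/
theorem gt_transfer {G H : Type*} [Group G] [Group H] [Finite H] {p : ℕ} [Fact p.Prime]
    (e : G ≃* H) (T A₀ : Subgroup G) (hT : IsPGroup p T)
    (hA₀c : ∀ a ∈ A₀, ∀ b ∈ A₀, a * b = b * a) (hA₀e : ∀ a ∈ A₀, a ^ p = 1)
    (hTA₀ : ∀ t ∈ T, ∀ a ∈ A₀, t * a * t⁻¹ ∈ A₀)
    (h4 : ∀ A : Subgroup G, (∀ a ∈ A, ∀ b ∈ A, a * b = b * a) → (∀ a ∈ A, a ^ p = 1) →
      (∀ t ∈ T, ∀ a ∈ A, t * a * t⁻¹ ∈ A) → A ≤ A₀)
    (S : Sylow p H) :
    (∃ E : Subgroup ↥(S : Subgroup H), E.Normal ∧ (IsMulCommutative ↥E ∧ ∀ a ∈ E, a ^ p = 1) ∧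
        Nat.card A₀ ≤ Nat.card ↥E) ∧
    ∀ E : Subgroup ↥(S : Subgroup H), E.Normal → (IsMulCommutative ↥E ∧ ∀ a ∈ E, a ^ p = 1) →
      Nat.card ↥E ≤ Nat.card A₀ := by
  obtain ⟨S₀, hS₀⟩ := (hT.map e.toMonoidHom).exists_le_sylow
  obtain ⟨g, hg⟩ := MulAction.exists_smul_eq H S₀ S
  obtain ⟨e', he'⟩ : ∃ e' : G ≃* H, ∀ x, e' x = g * e x * g⁻¹ :=
    ⟨e.trans (MulAut.conj g), fun x => by simp [MulAut.conj_apply]⟩
  have hTS : T.map e'.toMonoidHom ≤ S := by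
    rintro x ⟨t, ht, rfl⟩
    have h1 : e t ∈ (S₀ : Subgroup H) := hS₀ ⟨t, ht, rfl⟩
    have h2 : MulAut.conj g • (e t) ∈ MulAut.conj g • (S₀ : Subgroup H) :=
      Subgroup.smul_mem_pointwise_smul _ _ _ h1
    rw [← hg]
    have h3 : g * e t * g⁻¹ ∈ MulAut.conj g • (S₀ : Subgroup H) := by
      simpa [MulAut.smul_def, MulAut.conj_apply] using h2
    have h4 : e'.toMonoidHom t = g * e t * g⁻¹ := he' t
    rw [h4]
    exact h3
  have hcard : Nat.card (A₀.map e'.toMonoidHom) = Nat.card A₀ :=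
    Subgroup.card_map_of_injective e'.injective
  have hmain := gt_base (T.map e'.toMonoidHom) (A₀.map e'.toMonoidHom) (hT.map _) ?_ ?_ ?_ ?_ S hTS
  · rw [hcard] at hmain
    exact hmain
  · rintro a ⟨a0, ha0, rfl⟩ b ⟨b0, hb0, rfl⟩
    rw [← map_mul, ← map_mul, hA₀c a0 ha0 b0 hb0]
  · rintro a ⟨a0, ha0, rfl⟩
    rw [← map_pow, hA₀e a0 ha0, map_one]
  · rintro t ⟨t0, ht0, rfl⟩ a ⟨a0, ha0, rfl⟩
    exact ⟨t0 * a0 * t0⁻¹, hTA₀ t0 ht0 a0 ha0, by simp⟩
  · intro A hAc hAe hAT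
    have hle : A.comap e'.toMonoidHom ≤ A₀ := by
      apply h4
      · intro a ha b hb
        apply e'.injective
        rw [map_mul, map_mul]
        exact hAc _ ha _ hb
      · intro a ha
        apply e'.injective
        rw [map_pow, map_one]
        exact hAe _ ha
      · intro t ht a ha
        rw [Subgroup.mem_comap]
        have h1 := hAT (e' t) ⟨t, ht, rfl⟩ (e' a) ha
        simpa using h1
    intro x hx
    refine ⟨e'.symm x, hle ?_, by simp⟩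
    rw [Subgroup.mem_comap]
    simpa using hx

end Cfsg.Agent.Helper70.N2RGT
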