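import Cfsg.Agent.Helper40.DZDefs
import Cfsg.Agent.Helper91.DZC1

set_option autoImplicit false

/-!
# Piece C3 of S4538 (helper70), core: `U = uRad · U_α` and `|uRad| * q = |U|`,
with the description C1 of `uRad` as a hypothesis.
-/

namespace Cfsg.Agent.Helper70.DZ

open Cfsg.Agent.Helper40.DZ Cfsg.Agent.Helper44.PSLn Matrix

universe u

section Mat

variable {n : ℕ} {F : Type u} [Field F]

local notation "SLn" => Matrix.SpecialLinearGroup (Fin n) F

theorem c3_xel_add (j : ℕ) (hj : j + 1 < n) (c d : F) :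
    (xel j hj (c + d) : SLn) = xel j hj c * xel j hj d := by
  apply Subtype.ext
  rw [Matrix.SpecialLinearGroup.coe_mul]
  exact (Matrix.transvection_mul_transvection_same _ _ (ia_ne_ib j hj) c d).symm

theorem c3_xel_zero (j : ℕ) (hj : j + 1 < n) : (xel j hj (0 : F) : SLn) = 1 :=
  Matrix.SpecialLinearGroup.transvection_coeff_zero _

theorem c3_mul_xel_apply (j : ℕ) (hj : j + 1 < n) (u : SLn) (c : F) :
    ((u * xel j hj c : SLn) : Matrix (Fin n) (Fin n) F) (ia j hj) (ib j hj) =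
      (u : Matrix (Fin n) (Fin n) F) (ia j hj) (ib j hj) +
        (u : Matrix (Fin n) (Fin n) F) (ia j hj) (ia j hj) * c := by
  rw [Matrix.SpecialLinearGroup.coe_mul, xel, Matrix.SpecialLinearGroup.transvection_coe,
    Matrix.mul_add, Matrix.mul_one, Matrix.add_apply, Matrix.mul_single_apply_same]

variable [Fintype F]

theorem c3_xel_mem_UniS (j : ℕ) (hj : j + 1 < n) (c : F) : (xel j hj c : SLn) ∈ UniS n F := by
  have hlt : ia j hj < ib j hj := by
    rw [Fin.lt_def]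
    simp [ia, ib]
  exact transvection_mem_UniS hlt c

/-- C3a with C1 as a hypothesis. -/
theorem uni_factor_core (j : ℕ) (hj : j + 1 < n)
    (hC1 : ∀ g : SLn, g ∈ uRad n F j hj ↔
      g ∈ UniS n F ∧ (g : Matrix (Fin n) (Fin n) F) (ia j hj) (ib j hj) = 0) :
    ∀ u ∈ UniS n F, ∃ u' ∈ uRad n F j hj, ∃ c : F, u = u' * xel j hj c := by
  intro u hu
  refine ⟨u * xel j hj (-((u : Matrix (Fin n) (Fin n) F) (ia j hj) (ib j hj))), ?_,
    (u : Matrix (Fin n) (Fin n) F) (ia j hj) (ib j hj), ?_⟩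
  · rw [hC1]
    refine ⟨(UniS n F).mul_mem hu (c3_xel_mem_UniS j hj _), ?_⟩
    have h1 : (u : Matrix (Fin n) (Fin n) F) (ia j hj) (ia j hj) = 1 := hu.2 _
    rw [c3_mul_xel_apply, h1]
    ring
  · rw [mul_assoc, ← c3_xel_add, neg_add_cancel, c3_xel_zero, mul_one]

/-- C3b with C1 as a hypothesis. -/
theorem card_uRad_core (j : ℕ) (hj : j + 1 < n)
    (hC1 : ∀ g : SLn, g ∈ uRad n F j hj ↔
      g ∈ UniS n F ∧ (g : Matrix (Fin n) (Fin n) F) (ia j hj) (ib j hj) = 0) :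
    Nat.card (uRad n F j hj) * Fintype.card F = Nat.card (UniS n F) := by
  rw [← Nat.card_eq_fintype_card (α := F), ← Nat.card_prod]
  apply Nat.card_congr
  refine Equiv.ofBijective (fun p : (uRad n F j hj) × F =>
    (⟨(p.1 : SLn) * xel j hj p.2,
      (UniS n F).mul_mem ((hC1 _).1 p.1.2).1 (c3_xel_mem_UniS j hj p.2)⟩ : UniS n F)) ⟨?_, ?_⟩
  · rintro ⟨a, c⟩ ⟨b, d⟩ h
    have h' : (a : SLn) * xel j hj c = (b : SLn) * xel j hj d := congrArg Subtype.val h
    have hc : c = d := by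
      have h1 := congrArg (fun g : SLn => (g : Matrix (Fin n) (Fin n) F) (ia j hj) (ib j hj)) h'
      simp only [c3_mul_xel_apply] at h1
      have ha1 : ((a : SLn) : Matrix (Fin n) (Fin n) F) (ia j hj) (ia j hj) = 1 :=
        ((hC1 _).1 a.2).1.2 _
      have hb1 : ((b : SLn) : Matrix (Fin n) (Fin n) F) (ia j hj) (ia j hj) = 1 :=
        ((hC1 _).1 b.2).1.2 _
      rw [((hC1 _).1 a.2).2, ((hC1 _).1 b.2).2, ha1, hb1] at h1
      simpa using h1
    subst hc
    have hab : (a : SLn) = b := mul_right_cancel h'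
    exact Prod.ext (Subtype.ext hab) rfl
  · rintro ⟨u, hu⟩
    obtain ⟨u', hu', c, rfl⟩ := uni_factor_core j hj hC1 u hu
    exact ⟨(⟨u', hu'⟩, c), rfl⟩

/-- C3a: `U = uRad · U_α`. -/
theorem uni_factor (j : ℕ) (hj : j + 1 < n) :
    ∀ u ∈ UniS n F, ∃ u' ∈ uRad n F j hj, ∃ c : F, u = u' * xel j hj c :=
  uni_factor_core j hj (fun g => Cfsg.Agent.Helper91.DZ.mem_uRad_iff j hj g)

/-- C3b: `uRad` has index `q` in `U`. -/
theorem card_uRad (j : ℕ) (hj : j + 1 < n) :
    Nat.card (uRad n F j hj) * Fintype.card F = Nat.card (UniS n F) :=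
  card_uRad_core j hj (fun g => Cfsg.Agent.Helper91.DZ.mem_uRad_iff j hj g)

end Mat

end Cfsg.Agent.Helper70.DZ
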