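import Mathlib
import Cfsg.Prelude.Def_Solvable

set_option autoImplicit false

/-!
# Piece LA1 of S4538 (helper70): a `p`-subgroup normalized by `N_G(D)` lies in the radical
`p`-subgroup `D` (`D = O_p(N_G(D))`).
-/

namespace Cfsg.Agent.Helper70.DZ

/-- LA1: a `p`-subgroup normalized by `N_G(D)` lies in a radical `p`-subgroup `D`. -/
theorem LA1 {G : Type*} [Group G] [Finite G] (p : ℕ) [Fact p.Prime] (D : Subgroup G)
    (hrad : (Cfsg.pCore p (Subgroup.normalizer (D : Set G))).map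
      (Subgroup.normalizer (D : Set G)).subtype = D)
    (Q : Subgroup G) (hQ : IsPGroup p Q)
    (hnorm : ∀ g ∈ Subgroup.normalizer (D : Set G), ∀ x ∈ Q, g * x * g⁻¹ ∈ Q) : Q ≤ D := by
  have hDN : D ≤ Subgroup.normalizer (D : Set G) := Subgroup.le_normalizer
  have hcoreP : IsPGroup p (Cfsg.pCore p (Subgroup.normalizer (D : Set G))) :=
    Sylow.sSup_of_normal _ (fun _ h => h.2) (fun _ h => h.1)
  have hDp : IsPGroup p D := by
    rw [← hrad]
    exact hcoreP.map _
  have hDQ : D ≤ Subgroup.normalizer (Q : Set G) := by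
    intro d hd
    rw [Subgroup.mem_normalizer_iff]
    intro x
    constructor
    · intro hx
      exact hnorm d (hDN hd) x hx
    · intro hx
      have h1 := hnorm d⁻¹ (Subgroup.inv_mem _ (hDN hd)) _ hx
      simpa [mul_assoc] using h1
  have hRp : IsPGroup p (Q ⊔ D : Subgroup G) := hQ.to_sup_of_normal_left' hDp hDQ
  by_contra hQD
  have hDR : D ≤ Q ⊔ D := le_sup_right
  have hlt : D.subgroupOf (Q ⊔ D) < ⊤ := by
    rw [lt_top_iff_ne_top]
    intro h
    rw [Subgroup.subgroupOf_eq_top] at h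
    exact hQD (le_trans le_sup_left h)
  have hnil : Group.IsNilpotent ↥(Q ⊔ D) := hRp.isNilpotent
  have hnc := Group.normalizerCondition_of_isNilpotent (G := ↥(Q ⊔ D)) (D.subgroupOf (Q ⊔ D)) hlt
  obtain ⟨x, hxn, hxD⟩ := SetLike.exists_of_lt hnc
  rw [← Subgroup.subgroupOf_normalizer_eq hDR] at hxn
  have hxN : (x : G) ∈ Subgroup.normalizer (D : Set G) := hxn
  apply hxD
  rw [Subgroup.mem_subgroupOf]
  have hP_le : ((Q ⊔ D) ⊓ Subgroup.normalizer (D : Set G)).subgroupOf
      (Subgroup.normalizer (D : Set G)) ≤ Cfsg.pCore p (Subgroup.normalizer (D : Set G)) := by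
    apply le_sSup
    refine ⟨?_, ?_⟩
    · constructor
      intro y hy g
      rw [Subgroup.mem_subgroupOf] at hy ⊢
      refine ⟨?_, (g * y * g⁻¹).2⟩
      have hconj : (Q ⊔ D).map (MulAut.conj (g : G)).toMonoidHom ≤ Q ⊔ D := by
        rw [Subgroup.map_sup]
        apply sup_le_sup
        · rintro _ ⟨q, hq, rfl⟩
          exact hnorm g g.2 q hq
        · rintro _ ⟨d, hd, rfl⟩
          exact (Subgroup.mem_normalizer_iff.mp g.2 d).mp hd
      exact hconj ⟨(y : G), hy.1, rfl⟩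
    · exact (hRp.to_le inf_le_left).comap_subtype
  have hxP : (⟨(x : G), hxN⟩ : Subgroup.normalizer (D : Set G)) ∈
      ((Q ⊔ D) ⊓ Subgroup.normalizer (D : Set G)).subgroupOf
        (Subgroup.normalizer (D : Set G)) := by
    rw [Subgroup.mem_subgroupOf]
    exact ⟨x.2, hxN⟩
  have h2 := hP_le hxP
  have h3 : (x : G) ∈ (Cfsg.pCore p (Subgroup.normalizer (D : Set G))).map
      (Subgroup.normalizer (D : Set G)).subtype := ⟨⟨(x : G), hxN⟩, h2, rfl⟩
  rwa [hrad] at h3

end Cfsg.Agent.Helper70.DZ
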