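import Cfsg.Agent.Helper40.DZDefs
import Cfsg.Prelude.Def_Solvable

set_option autoImplicit false

/-!
# Piece LA2 of S4538 (helper70): a `p`-subgroup of `SL_n(F)` (characteristic `p`, `n > 0`)
fixes a nonzero vector.
-/

namespace Cfsg.Agent.Helper70.DZ

open Cfsg.Agent.Helper40.DZ Cfsg.Agent.Helper44.PSLn Matrix

universe u

section Mat

variable {n : ℕ} {F : Type u} [Field F]

local notation "SLn" => Matrix.SpecialLinearGroup (Fin n) F

variable [Fintype F]

/-- LA2: a `p`-subgroup of `SL_n(F)` (characteristic `p`) fixes a nonzero vector. -/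
theorem LA2 (p : ℕ) [Fact p.Prime] [CharP F p] (hn : 0 < n) (D : Subgroup SLn)
    (hD : IsPGroup p D) : fixVec D ≠ ⊥ := by
  have hpF : p ∣ Nat.card F := by
    obtain ⟨k, -, hk⟩ := FiniteField.card F p
    rw [Nat.card_eq_fintype_card, hk]
    exact dvd_pow_self p k.ne_zero
  have hcard : p ∣ Nat.card (Fin n → F) := by
    rw [Nat.card_fun, Nat.card_eq_fintype_card (α := Fin n), Fintype.card_fin]
    exact dvd_trans hpF (dvd_pow_self _ hn.ne')
  have h0 : (0 : Fin n → F) ∈ MulAction.fixedPoints ↥D (Fin n → F) := by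
    intro d
    exact smul_zero d
  obtain ⟨b, hb, hb0⟩ := hD.exists_fixed_point_of_prime_dvd_card_of_fixed_point (Fin n → F) hcard h0
  intro hbot
  have hmem : b ∈ fixVec D := by
    intro d hd
    have h1 := hb ⟨d, hd⟩
    exact h1
  rw [hbot, Submodule.mem_bot] at hmem
  exact hb0 hmem.symm

end Mat

end Cfsg.Agent.Helper70.DZ
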