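import Cfsg.Agent.Helper40.DZDefs
import Cfsg.Prelude.Def_Solvable

set_option autoImplicit false

/-!
# Piece LA3 of S4538 (helper70): `qSet W` is a `p`-subgroup of `SL_n(F)` (characteristic `p`),
and `qSet (fixVec D)` is normalized by `N(D)`.
-/

namespace Cfsg.Agent.Helper70.DZ

open Cfsg.Agent.Helper40.DZ Cfsg.Agent.Helper44.PSLn Matrix

universe u

section Mat

variable {n : ℕ} {F : Type u} [Field F]

local notation "SLn" => Matrix.SpecialLinearGroup (Fin n) F

theorem la3_mulVec_mul (a b : SLn) (v : Fin n → F) :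
    ((a * b : SLn) : Matrix (Fin n) (Fin n) F).mulVec v =
      (a : Matrix (Fin n) (Fin n) F).mulVec ((b : Matrix (Fin n) (Fin n) F).mulVec v) := by
  rw [Matrix.SpecialLinearGroup.coe_mul, Matrix.mulVec_mulVec]

theorem la3_one_mulVec (v : Fin n → F) :
    ((1 : SLn) : Matrix (Fin n) (Fin n) F).mulVec v = v := by
  rw [Matrix.SpecialLinearGroup.coe_one, Matrix.one_mulVec]

theorem la3_inv_mulVec (g : SLn) (v : Fin n → F) :
    ((g⁻¹ : SLn) : Matrix (Fin n) (Fin n) F).mulVec ((g : Matrix (Fin n) (Fin n) F).mulVec v) =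
      v := by
  rw [← la3_mulVec_mul, inv_mul_cancel, la3_one_mulVec]

theorem la3_mulVec_inv (g : SLn) (v : Fin n → F) :
    (g : Matrix (Fin n) (Fin n) F).mulVec (((g⁻¹ : SLn) : Matrix (Fin n) (Fin n) F).mulVec v) =
      v := by
  rw [← la3_mulVec_mul, mul_inv_cancel, la3_one_mulVec]

theorem la3_one_mem (W : Submodule F (Fin n → F)) : (1 : SLn) ∈ qSet W := by
  refine ⟨fun v => ?_, fun w _ => la3_one_mulVec w⟩
  rw [la3_one_mulVec, sub_self]
  exact W.zero_mem

theorem la3_mul_mem (W : Submodule F (Fin n → F)) {a b : SLn} (ha : a ∈ qSet W)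
    (hb : b ∈ qSet W) : a * b ∈ qSet W := by
  refine ⟨fun v => ?_, fun w hw => ?_⟩
  · rw [la3_mulVec_mul]
    have h1 : (a : Matrix (Fin n) (Fin n) F).mulVec ((b : Matrix (Fin n) (Fin n) F).mulVec v) - v =
        ((a : Matrix (Fin n) (Fin n) F).mulVec ((b : Matrix (Fin n) (Fin n) F).mulVec v) -
          (b : Matrix (Fin n) (Fin n) F).mulVec v) +
        ((b : Matrix (Fin n) (Fin n) F).mulVec v - v) := by abel
    rw [h1]
    exact W.add_mem (ha.1 _) (hb.1 _)
  · rw [la3_mulVec_mul, hb.2 w hw, ha.2 w hw]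

theorem la3_inv_mem (W : Submodule F (Fin n → F)) {a : SLn} (ha : a ∈ qSet W) :
    a⁻¹ ∈ qSet W := by
  refine ⟨fun v => ?_, fun w hw => ?_⟩
  · have h1 := ha.1 (((a⁻¹ : SLn) : Matrix (Fin n) (Fin n) F).mulVec v)
    rw [la3_mulVec_inv] at h1
    have h2 : ((a⁻¹ : SLn) : Matrix (Fin n) (Fin n) F).mulVec v - v =
        -(v - ((a⁻¹ : SLn) : Matrix (Fin n) (Fin n) F).mulVec v) := by abel
    rw [h2]
    exact W.neg_mem h1
  · have h1 := la3_inv_mulVec a w
    rw [ha.2 w hw] at h1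
    exact h1

/-- the subgroup with carrier `qSet W` -/
def qSub (W : Submodule F (Fin n → F)) : Subgroup SLn where
  carrier := qSet W
  mul_mem' := fun ha hb => la3_mul_mem W ha hb
  one_mem' := la3_one_mem W
  inv_mem' := fun ha => la3_inv_mem W ha

theorem la3_pow_of_sq_zero (N : Matrix (Fin n) (Fin n) F) (hN : N * N = 0) (k : ℕ) :
    (1 + N) ^ k = 1 + k • N := by
  induction k with
  | zero => simp
  | succ k ih =>
    rw [pow_succ, ih, add_mul, mul_add, mul_add, one_mul, mul_one, one_mul, smul_mul_assoc, hN,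
      smul_zero, add_zero, succ_nsmul]
    abel

theorem la3_sq_zero (W : Submodule F (Fin n → F)) {a : SLn} (ha : a ∈ qSet W) :
    ((a : Matrix (Fin n) (Fin n) F) - 1) * ((a : Matrix (Fin n) (Fin n) F) - 1) = 0 := by
  apply Matrix.toLin'.injective
  apply LinearMap.ext
  intro v
  rw [Matrix.toLin'_apply, map_zero, LinearMap.zero_apply, ← Matrix.mulVec_mulVec]
  have h1 : ((a : Matrix (Fin n) (Fin n) F) - 1).mulVec v =
      (a : Matrix (Fin n) (Fin n) F).mulVec v - v := by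
    rw [Matrix.sub_mulVec, Matrix.one_mulVec]
  rw [h1, Matrix.sub_mulVec, Matrix.one_mulVec, ha.2 _ (ha.1 v), sub_self]

variable [Fintype F]

/-- LA3: `qSet W` is a `p`-subgroup. -/
theorem LA3 (p : ℕ) [Fact p.Prime] [CharP F p] (W : Submodule F (Fin n → F)) :
    ∃ Q : Subgroup SLn, (Q : Set SLn) = qSet W ∧ IsPGroup p Q := by
  refine ⟨qSub W, rfl, ?_⟩
  intro g
  refine ⟨1, ?_⟩
  rw [pow_one]
  apply Subtype.ext
  apply Subtype.ext
  rw [Subgroup.coe_pow, Matrix.SpecialLinearGroup.coe_pow, Subgroup.coe_one,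
    Matrix.SpecialLinearGroup.coe_one]
  have h1 : ((g : SLn) : Matrix (Fin n) (Fin n) F) =
      1 + (((g : SLn) : Matrix (Fin n) (Fin n) F) - 1) := by abel
  rw [h1, la3_pow_of_sq_zero _ (la3_sq_zero W g.2), ← Nat.cast_smul_eq_nsmul F,
    CharP.cast_eq_zero F p, zero_smul, add_zero]

/-- LA3b: `qSet (fixVec D)` is normalized by the normalizer of `D`. -/
theorem LA3b (D : Subgroup SLn) :
    ∀ g ∈ Subgroup.normalizer (D : Set SLn), ∀ x ∈ qSet (fixVec D), g * x * g⁻¹ ∈ qSet (fixVec D) := by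
  intro g hg x hx
  have hfix : ∀ g' ∈ Subgroup.normalizer (D : Set SLn), ∀ w ∈ fixVec D,
      (g' : Matrix (Fin n) (Fin n) F).mulVec w ∈ fixVec D := by
    intro g' hg' w hw d hd
    have hd' : g'⁻¹ * d * g' ∈ D := by
      rw [Subgroup.mem_normalizer_iff] at hg'
      rw [hg' (g'⁻¹ * d * g')]
      simpa [mul_assoc] using hd
    have h1 := hw _ hd'
    rw [la3_mulVec_mul, la3_mulVec_mul] at h1
    have h2 : (g' : Matrix (Fin n) (Fin n) F).mulVec
        (((g'⁻¹ : SLn) : Matrix (Fin n) (Fin n) F).mulVec ((d : Matrix (Fin n) (Fin n) F).mulVec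
          ((g' : Matrix (Fin n) (Fin n) F).mulVec w))) =
        (g' : Matrix (Fin n) (Fin n) F).mulVec w :=
      congrArg (fun y => (g' : Matrix (Fin n) (Fin n) F).mulVec y) h1
    rw [la3_mulVec_inv] at h2
    exact h2
  have hginv : g⁻¹ ∈ Subgroup.normalizer (D : Set SLn) := Subgroup.inv_mem _ hg
  refine ⟨fun v => ?_, fun w hw => ?_⟩
  · rw [la3_mulVec_mul, la3_mulVec_mul]
    have h1 := hfix g hg _ (hx.1 (((g⁻¹ : SLn) : Matrix (Fin n) (Fin n) F).mulVec v))
    rw [Matrix.mulVec_sub, la3_mulVec_inv] at h1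
    exact h1
  · rw [la3_mulVec_mul, la3_mulVec_mul, hx.2 _ (hfix g⁻¹ hginv w hw), la3_mulVec_inv]

end Mat

end Cfsg.Agent.Helper70.DZ
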