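import Cfsg.Agent.Helper40.DZDefs
import Cfsg.Prelude.Def_Solvable
import Cfsg.Agent.Helper91.DZD2

set_option autoImplicit false

/-!
# Piece Q1 of S4538 (helper70): the Borel subgroup of `SL_n(F)` is generated by the unitriangular
subgroup and the elements `h_j(c)`.
-/

namespace Cfsg.Agent.Helper70.DZ

open Cfsg.Agent.Helper40.DZ Cfsg.Agent.Helper44.PSLn Matrix

universe u

section Mat

variable {n : ℕ} {F : Type u} [Field F]

local notation "SLn" => Matrix.SpecialLinearGroup (Fin n) F

variable [Fintype F]

theorem q1_mem_borel_iff (b : SLn) :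
    b ∈ borelSL n F ↔ (b : Matrix (Fin n) (Fin n) F).BlockTriangular id := by
  unfold borelSL
  rw [Subgroup.mem_comap]
  change ((Matrix.SpecialLinearGroup.toGL b : GL (Fin n) F) :
    Matrix (Fin n) (Fin n) F).BlockTriangular id ↔ _
  rw [Matrix.SpecialLinearGroup.coe_GL_coe_matrix]

theorem q1_diag_ne_zero (b : SLn) (hb : b ∈ borelSL n F) (i : Fin n) :
    (b : Matrix (Fin n) (Fin n) F) i i ≠ 0 := by
  intro h
  have hdet := Matrix.det_of_upperTriangular ((q1_mem_borel_iff b).1 hb)
  rw [b.2] at hdet
  have h0 : ∏ i : Fin n, (b : Matrix (Fin n) (Fin n) F) i i = 0 :=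
    Finset.prod_eq_zero (Finset.mem_univ i) h
  rw [h0] at hdet
  exact one_ne_zero hdet

theorem q1_aux (k : ℕ) : ∀ b ∈ borelSL n F,
    (∀ i : Fin n, k < i.val → (b : Matrix (Fin n) (Fin n) F) i i = 1) →
    b ∈ Subgroup.closure (((UniS n F : Subgroup SLn) : Set SLn) ∪
      {g | ∃ (j : ℕ) (hj : j + 1 < n) (c : F), c ≠ 0 ∧ g = hel j hj c}) := by
  induction k with
  | zero =>
    intro b hb h1
    apply Subgroup.subset_closure
    left
    have htri := (q1_mem_borel_iff b).1 hb
    refine ⟨fun i j hji => htri hji, fun i => ?_⟩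
    by_cases hi : 0 < i.val
    · exact h1 i hi
    · have hdet := Matrix.det_of_upperTriangular htri
      rw [b.2] at hdet
      rw [Finset.prod_eq_single i] at hdet
      · exact hdet.symm
      · intro a _ hai
        apply h1
        by_contra hcon
        apply hai
        apply Fin.ext
        omega
      · intro hni
        exact absurd (Finset.mem_univ i) hni
  | succ k ih =>
    intro b hb h1
    by_cases hk : k + 1 < n
    · have hc : (b : Matrix (Fin n) (Fin n) F) (ib k hk) (ib k hk) ≠ 0 := q1_diag_ne_zero b hb _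
      have hmem : b * hel k hk ((b : Matrix (Fin n) (Fin n) F) (ib k hk) (ib k hk)) ∈
          Subgroup.closure (((UniS n F : Subgroup SLn) : Set SLn) ∪
            {g | ∃ (j : ℕ) (hj : j + 1 < n) (c : F), c ≠ 0 ∧ g = hel j hj c}) := by
        apply ih
        · exact (borelSL n F).mul_mem hb (Cfsg.Agent.Helper91.DZ.hel_mem_borel k hk _ hc)
        · intro i hi
          rw [Matrix.SpecialLinearGroup.coe_mul, Cfsg.Agent.Helper91.DZ.hel_coe k hk _ hc,
            Matrix.mul_diagonal]
          have hia : i ≠ ia k hk := by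
            intro h
            rw [h] at hi
            simp [ia] at hi
          rw [if_neg hia]
          by_cases hib : i = ib k hk
          · rw [if_pos hib, hib, mul_inv_cancel₀ hc]
          · rw [if_neg hib, mul_one]
            apply h1
            have : i.val ≠ k + 1 := fun h => hib (Fin.ext h)
            omega
      have hh : hel k hk ((b : Matrix (Fin n) (Fin n) F) (ib k hk) (ib k hk)) ∈
          Subgroup.closure (((UniS n F : Subgroup SLn) : Set SLn) ∪
            {g | ∃ (j : ℕ) (hj : j + 1 < n) (c : F), c ≠ 0 ∧ g = hel j hj c}) :=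
        Subgroup.subset_closure (Or.inr ⟨k, hk, _, hc, rfl⟩)
      have := Subgroup.mul_mem _ hmem (Subgroup.inv_mem _ hh)
      rwa [mul_inv_cancel_right] at this
    · apply ih b hb
      intro i hi
      exfalso
      have := i.2
      omega

/-- Q1: the Borel subgroup is generated by `U` and the `h_j(c)`. -/
theorem borel_le_closure :
    borelSL n F ≤ Subgroup.closure (((UniS n F : Subgroup SLn) : Set SLn) ∪
      {g | ∃ (j : ℕ) (hj : j + 1 < n) (c : F), c ≠ 0 ∧ g = hel j hj c}) := by
  intro b hb
  apply q1_aux n b hb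
  intro i hi
  exfalso
  have := i.2
  omega

end Mat

end Cfsg.Agent.Helper70.DZ
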