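import Mathlib

set_option autoImplicit false

/-!
# Piece R4a of S4538 (helper70): abstract kernel computation (pure linear algebra).
-/

namespace Cfsg.Agent.Helper70.DZ

section General

variable {V : Type*} [AddCommGroup V] [Module ℂ V] [Module.Finite ℂ V]

/-- R4a: abstract kernel computation.  If `Y` has dimension `|ι| * dim E`, is spanned by `E` and
the `A c E`, and `∑ c, A c` preserves `E`, then every relation `x₀ + ∑ c, A c (f c) = 0` with
`x₀, f c ∈ E` has `f` constant. -/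
theorem R4a {ι : Type*} [Fintype ι] (E Y : Submodule ℂ V) (A : ι → V →ₗ[ℂ] V)
    (hdim : Module.finrank ℂ Y = Fintype.card ι * Module.finrank ℂ E)
    (hsurj : ∀ y ∈ Y, ∃ x₀ ∈ E, ∃ f : ι → V, (∀ c, f c ∈ E) ∧ y = x₀ + ∑ c, A c (f c))
    (hAY : ∀ c, ∀ x ∈ E, A c x ∈ Y) (hEY : E ≤ Y)
    (hT : ∀ x ∈ E, ∑ c, A c x ∈ E)
    (x₀ : V) (hx₀ : x₀ ∈ E) (f : ι → V) (hf : ∀ c, f c ∈ E)
    (h0 : x₀ + ∑ c, A c (f c) = 0) : ∀ c d, f c = f d := by
  classical
  intro c d
  let Ψ : (E × (ι → E)) →ₗ[ℂ] V :=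
    E.subtype.comp (LinearMap.fst ℂ E (ι → E)) +
      ∑ c : ι, (A c).comp (E.subtype.comp ((LinearMap.proj c).comp (LinearMap.snd ℂ E (ι → E))))
  have hΨ : ∀ z : E × (ι → E), Ψ z = (z.1 : V) + ∑ c, A c (z.2 c : V) := by
    intro z
    simp [Ψ, LinearMap.sum_apply]
  have hrange : LinearMap.range Ψ = Y := by
    apply le_antisymm
    · rintro _ ⟨z, rfl⟩
      rw [hΨ]
      exact Y.add_mem (hEY z.1.2) (Y.sum_mem fun c _ => hAY c _ (z.2 c).2)
    · intro y hy
      obtain ⟨x, hx, g, hg, rfl⟩ := hsurj y hy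
      exact ⟨(⟨x, hx⟩, fun c => ⟨g c, hg c⟩), by rw [hΨ]⟩
  have hrn := LinearMap.finrank_range_add_finrank_ker Ψ
  rw [hrange, hdim, Module.finrank_prod, Module.finrank_pi_fintype] at hrn
  simp only [Finset.sum_const, Finset.card_univ, smul_eq_mul] at hrn
  have hker : Module.finrank ℂ (LinearMap.ker Ψ) = Module.finrank ℂ E := by
    generalize Fintype.card ι * Module.finrank ℂ E = N at hrn
    omega
  have hT' : ∀ x ∈ E, (∑ c, A c) x ∈ E := by
    intro x hx
    rw [LinearMap.sum_apply]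
    exact hT x hx
  let T : E →ₗ[ℂ] E := (∑ c, A c).restrict hT'
  let κ : E →ₗ[ℂ] (E × (ι → E)) := (-T).prod (LinearMap.pi fun _ => LinearMap.id)
  have hκ : ∀ x : E, κ x = (-T x, fun _ => x) := fun x => rfl
  have hκinj : Function.Injective κ := by
    intro x y hxy
    have h1 := congrArg (fun z => z.2 c) hxy
    simpa [hκ] using h1
  have hle : LinearMap.range κ ≤ LinearMap.ker Ψ := by
    rintro _ ⟨x, rfl⟩
    rw [LinearMap.mem_ker, hΨ, hκ]
    simp [T, LinearMap.restrict_apply, LinearMap.sum_apply]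
  have heq : LinearMap.range κ = LinearMap.ker Ψ := by
    apply Submodule.eq_of_le_of_finrank_eq hle
    rw [LinearMap.finrank_range_of_inj hκinj, hker]
  have hmem : ((⟨x₀, hx₀⟩ : E), fun c => (⟨f c, hf c⟩ : E)) ∈ LinearMap.ker Ψ := by
    rw [LinearMap.mem_ker, hΨ]
    exact h0
  rw [← heq] at hmem
  obtain ⟨x, hx⟩ := hmem
  rw [hκ] at hx
  have h1 := congrArg (fun z => (z.2 c : V)) hx
  have h2 := congrArg (fun z => (z.2 d : V)) hx
  simp only at h1 h2
  rw [← h1, ← h2]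

end General

end Cfsg.Agent.Helper70.DZ
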