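import Mathlib

/-!
# Helper70: PIECE INT of CALL S0984 (helper82)

In a group of order 2520 with 70 Sylow 3-subgroups, every Sylow 3-subgroup `P` meets another
Sylow 3-subgroup in an element of order 3 (otherwise `P` acts semiregularly on the other 69).
-/

set_option autoImplicit false
set_option linter.style.haveILetI false

universe u

namespace Cfsg.Agent.Helper70

open MulAction in
/-- PIECE INT -/
theorem a7_inter {G : Type u} [Group G] [Finite G]
    (hG : Nat.card G = 2520) (h70 : Nat.card (Sylow 3 G) = 70) (P : Sylow 3 G) :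
    ∃ Q : Sylow 3 G, Q ≠ P ∧ ∃ x : G, x ∈ (P : Subgroup G) ∧ x ∈ (Q : Subgroup G) ∧
      orderOf x = 3 := by
  classical
  haveI : Fact (Nat.Prime 3) := ⟨by norm_num⟩
  by_contra hcon
  push Not at hcon
  have hP9 : Nat.card (P : Subgroup G) = 9 := by
    rw [Sylow.card_eq_multiplicity, hG]
    have h1 : (2520 : ℕ) = 3 ^ 2 * 280 := by norm_num
    rw [h1, Nat.factorization_mul (by norm_num) (by norm_num),
      Nat.Prime.factorization_pow (by norm_num), Finsupp.add_apply, Finsupp.single_eq_same,
      Nat.factorization_eq_zero_of_not_dvd (show ¬ 3 ∣ 280 by norm_num)]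
    norm_num
  -- trivial stabilizers
  have hfree : ∀ Q : Sylow 3 G, Q ≠ P → ∀ g : ↥(P : Subgroup G), g • Q = Q → g = 1 := by
    intro Q hQ g hg
    by_contra hg1
    have hgG : (g : G) • Q = Q := hg
    have hmem : (g : G) ∈ (Q : Subgroup G) := by
      have hH : IsPGroup 3 (Subgroup.zpowers (g : G)) :=
        P.2.to_le ((Subgroup.zpowers_le).mpr g.2)
      have hfix : Q ∈ fixedPoints (Subgroup.zpowers (g : G)) (Sylow 3 G) := by
        intro h
        have hle : Subgroup.zpowers (g : G) ≤ stabilizer G Q := (Subgroup.zpowers_le).mpr hgG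
        exact hle h.2
      exact (hH.sylow_mem_fixedPoints_iff.mp hfix) (Subgroup.mem_zpowers _)
    have hord : orderOf (g : G) ∣ 3 ^ 2 := by
      have h1 := orderOf_dvd_natCard g
      rw [hP9] at h1
      rwa [Subgroup.orderOf_coe]
    have hgne : (g : G) ≠ 1 := fun h => hg1 (Subtype.ext h)
    obtain ⟨k, hk, hk'⟩ := (Nat.dvd_prime_pow (by norm_num : Nat.Prime 3)).mp hord
    interval_cases k
    · exact hgne (orderOf_eq_one_iff.mp (by simpa using hk'))
    · exact hcon Q hQ g g.2 hmem (by simpa using hk')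
    · refine hcon Q hQ ((g : G) ^ 3) (pow_mem g.2 3) (pow_mem hmem 3) ?_
      rw [orderOf_pow' _ (by norm_num), hk']
      norm_num
  haveI : Fintype G := Fintype.ofFinite G
  haveI : Fintype (Sylow 3 G) := Fintype.ofFinite _
  haveI : Fintype (Quotient (orbitRel ↥(P : Subgroup G) (Sylow 3 G))) := Fintype.ofFinite _
  have hclass := MulAction.card_eq_sum_card_group_div_card_stabilizer ↥(P : Subgroup G)
    (Sylow 3 G)
  simp only [← Nat.card_eq_fintype_card] at hclass
  rw [h70, hP9] at hclass
  -- the orbit of `P`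
  obtain ⟨ω₀, hω₀⟩ : ∃ ω₀ : Quotient (orbitRel ↥(P : Subgroup G) (Sylow 3 G)),
      ω₀ = Quotient.mk'' P := ⟨_, rfl⟩
  have hPfix : ∀ g : ↥(P : Subgroup G), g • P = P := by
    intro g
    show (g : G) • P = P
    exact Sylow.smul_eq_iff_mem_normalizer.mpr (Subgroup.le_normalizer g.2)
  have hout : Quotient.out ω₀ = P := by
    have h1 : Quotient.mk'' (Quotient.out ω₀) = (Quotient.mk'' P :
        Quotient (orbitRel ↥(P : Subgroup G) (Sylow 3 G))) := by
      rw [← hω₀]
      exact Quotient.out_eq ω₀
    have h2 : Quotient.out ω₀ ∈ orbit ↥(P : Subgroup G) P := Quotient.exact h1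
    obtain ⟨g, hg⟩ := h2
    rw [← hg]
    exact hPfix g
  have hterm : ∀ ω : Quotient (orbitRel ↥(P : Subgroup G) (Sylow 3 G)),
      9 / Nat.card (stabilizer ↥(P : Subgroup G) (Quotient.out ω))
        = if ω = ω₀ then 1 else 9 := by
    intro ω
    by_cases h : ω = ω₀
    · rw [if_pos h, h, hout]
      have h1 : stabilizer ↥(P : Subgroup G) P = ⊤ := by
        ext g
        simp only [mem_stabilizer_iff, Subgroup.mem_top, iff_true]
        exact hPfix g
      rw [h1, Subgroup.card_top, hP9]
    · rw [if_neg h]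
      have hne : Quotient.out ω ≠ P := by
        intro h1
        apply h
        have h2 : Quotient.mk'' (Quotient.out ω) = ω := Quotient.out_eq ω
        rw [h1] at h2
        rw [hω₀]
        exact h2.symm
      have h1 : stabilizer ↥(P : Subgroup G) (Quotient.out ω) = ⊥ := by
        rw [Subgroup.eq_bot_iff_forall]
        intro g hg
        exact hfree _ hne g hg
      rw [h1, Subgroup.card_bot]
  simp_rw [hterm] at hclass
  have hsum : ∑ ω : Quotient (orbitRel ↥(P : Subgroup G) (Sylow 3 G)),
      (if ω = ω₀ then 1 else 9) + 8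
      = 9 * Fintype.card (Quotient (orbitRel ↥(P : Subgroup G) (Sylow 3 G))) := by
    have h1 : ∑ ω : Quotient (orbitRel ↥(P : Subgroup G) (Sylow 3 G)),
        (if ω = ω₀ then 8 else 0) = 8 := by
      rw [Finset.sum_ite_eq' Finset.univ ω₀, if_pos (Finset.mem_univ _)]
    rw [← h1, ← Finset.sum_add_distrib]
    have h2 : ∀ ω : Quotient (orbitRel ↥(P : Subgroup G) (Sylow 3 G)),
        (if ω = ω₀ then 1 else 9) + (if ω = ω₀ then 8 else 0) = 9 := by
      intro ω
      by_cases h : ω = ω₀
      · rw [if_pos h, if_pos h]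
      · rw [if_neg h, if_neg h]
    simp_rw [h2]
    rw [Finset.sum_const, Finset.card_univ, smul_eq_mul, mul_comm]
  rw [← hclass] at hsum
  omega

end Cfsg.Agent.Helper70
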