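import Mathlib

/-!
# Conjugacy class sizes: counting tools

Tools for the Cossey–Hawkes–Mann theorem (a group with the same class-size statistics as a
nilpotent group is nilpotent).
-/

namespace Cfsg.Agent.Helper70

open Subgroup

section ClassSize

variable {G : Type*} [Group G] [Finite G]

/-- The size of the conjugacy class of `x` is the index of its centralizer. -/
theorem card_carrier_eq_index_centralizer (x : G) :
    Nat.card (ConjClasses.mk x).carrier = (centralizer ({x} : Set G)).index := by
  have h1 : Nat.card (ConjClasses.mk x).carrier = Nat.card (MulAction.orbit (ConjAct G) x) := by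
    rw [ConjAct.orbit_eq_carrier_conjClasses]
  have h2 := Nat.card_congr (MulAction.orbitEquivQuotientStabilizer (ConjAct G) x)
  have h3 := Subgroup.card_eq_card_quotient_mul_card_subgroup (MulAction.stabilizer (ConjAct G) x)
  have h4 : Nat.card (MulAction.stabilizer (ConjAct G) x) =
      Nat.card (centralizer ({x} : Set G)) :=
    (Subgroup.nat_card_centralizer_nat_card_stabilizer x).symm
  have h5 : Nat.card (ConjAct G) = Nat.card G := Nat.card_congr ConjAct.ofConjAct.toEquiv
  have h6 := Subgroup.card_mul_index (centralizer ({x} : Set G))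
  rw [h1, h2]
  rw [h5, h4] at h3
  have hpos : 0 < Nat.card (centralizer ({x} : Set G)) := Nat.card_pos
  apply Nat.eq_of_mul_eq_mul_right hpos
  rw [← h3, mul_comm, h6]

/-- The number of elements with class size `k` is `k` times the number of classes of size `k`. -/
theorem card_classSize_eq (k : ℕ) :
    Nat.card {x : G // Nat.card (ConjClasses.mk x).carrier = k} =
      Nat.card {C : ConjClasses G // Nat.card C.carrier = k} * k := by
  classical
  have : Fintype {C : ConjClasses G // Nat.card C.carrier = k} := Fintype.ofFinite _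
  let e : {x : G // Nat.card (ConjClasses.mk x).carrier = k} ≃
      Σ C : {C : ConjClasses G // Nat.card C.carrier = k}, C.1.carrier :=
    { toFun := fun x => ⟨⟨ConjClasses.mk x.1, x.2⟩, ⟨x.1, ConjClasses.mem_carrier_mk⟩⟩
      invFun := fun p => ⟨p.2.1, by
        have h := ConjClasses.mem_carrier_iff_mk_eq.mp p.2.2
        rw [h]; exact p.1.2⟩
      left_inv := fun x => rfl
      right_inv := fun p => by
        obtain ⟨⟨C, hC⟩, ⟨y, hy⟩⟩ := p
        have h := ConjClasses.mem_carrier_iff_mk_eq.mp hy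
        subst h
        rfl }
  rw [Nat.card_congr e, Nat.card_sigma]
  rw [Finset.sum_congr rfl (fun C _ => C.2), Finset.sum_const, Finset.card_univ, smul_eq_mul,
    Nat.card_eq_fintype_card]

/-- Two finite groups with the same class-size statistics admit a bijection preserving the
class size of every element. -/
theorem exists_equiv_classSize {H : Type*} [Group H] [Finite H]
    (h : ∀ k : ℕ, Nat.card {C : ConjClasses G // Nat.card C.carrier = k} =
      Nat.card {C : ConjClasses H // Nat.card C.carrier = k}) :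
    ∃ e : G ≃ H, ∀ x,
      Nat.card (ConjClasses.mk (e x)).carrier = Nat.card (ConjClasses.mk x).carrier := by
  have hk : ∀ k, Nonempty ({x : G // Nat.card (ConjClasses.mk x).carrier = k} ≃
      {y : H // Nat.card (ConjClasses.mk y).carrier = k}) := fun k =>
    Finite.card_eq.mp (by rw [card_classSize_eq, card_classSize_eq, h k])
  have ek : ∀ k, ({x : G // Nat.card (ConjClasses.mk x).carrier = k} ≃
      {y : H // Nat.card (ConjClasses.mk y).carrier = k}) := fun k => (hk k).some
  refine ⟨(Equiv.sigmaFiberEquiv (fun x : G => Nat.card (ConjClasses.mk x).carrier)).symm.trans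
    ((Equiv.sigmaCongrRight ek).trans
      (Equiv.sigmaFiberEquiv (fun y : H => Nat.card (ConjClasses.mk y).carrier))), ?_⟩
  intro x
  exact (ek _ ⟨x, rfl⟩).2

/-- The elements whose class size is prime to `q`. -/
def primeToClass (G : Type*) [Group G] (q : ℕ) : Set G :=
  {x : G | ¬ q ∣ (centralizer ({x} : Set G)).index}

omit [Finite G] in
theorem mem_primeToClass {q : ℕ} {x : G} :
    x ∈ primeToClass G q ↔ ¬ q ∣ (centralizer ({x} : Set G)).index := Iff.rfl

omit [Finite G] in
theorem mem_center_iff_index_eq_one {x : G} :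
    x ∈ center G ↔ (centralizer ({x} : Set G)).index = 1 := by
  rw [Subgroup.index_eq_one, Subgroup.centralizer_eq_top_iff_subset, Set.singleton_subset_iff]
  rfl

theorem card_primeToClass_eq_of_equiv {H : Type*} [Group H] [Finite H] (e : G ≃ H)
    (he : ∀ x, Nat.card (ConjClasses.mk (e x)).carrier = Nat.card (ConjClasses.mk x).carrier)
    (q : ℕ) : Nat.card (primeToClass G q) = Nat.card (primeToClass H q) :=
  Nat.card_congr (e.subtypeEquiv (fun x => by
    rw [mem_primeToClass, mem_primeToClass, ← card_carrier_eq_index_centralizer,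
      ← card_carrier_eq_index_centralizer, he]))

theorem card_center_eq_of_equiv {H : Type*} [Group H] [Finite H] (e : G ≃ H)
    (he : ∀ x, Nat.card (ConjClasses.mk (e x)).carrier = Nat.card (ConjClasses.mk x).carrier) :
    Nat.card (center G) = Nat.card (center H) :=
  Nat.card_congr (e.subtypeEquiv (fun x => by
    rw [mem_center_iff_index_eq_one, mem_center_iff_index_eq_one,
      ← card_carrier_eq_index_centralizer, ← card_carrier_eq_index_centralizer, he]))

/-- The class-size condition is invariant under conjugation. -/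
theorem primeToClass_conj {q : ℕ} {x : G} (hx : x ∈ primeToClass G q) (g : G) :
    g * x * g⁻¹ ∈ primeToClass G q := by
  rw [mem_primeToClass, ← card_carrier_eq_index_centralizer] at hx ⊢
  have : ConjClasses.mk (g * x * g⁻¹) = ConjClasses.mk x := by
    rw [ConjClasses.mk_eq_mk_iff_isConj, isConj_iff]
    exact ⟨g⁻¹, by group⟩
  rw [this]; exact hx

omit [Finite G] in
/-- The class-size condition is invariant under multiplication by central elements. -/
theorem primeToClass_mul_central {q : ℕ} {x z : G} (hx : x ∈ primeToClass G q)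
    (hz : z ∈ center G) : x * z ∈ primeToClass G q := by
  rw [mem_primeToClass] at hx ⊢
  have : centralizer ({x * z} : Set G) = centralizer ({x} : Set G) := by
    ext k
    rw [mem_centralizer_singleton_iff, mem_centralizer_singleton_iff]
    have hkz : k * z = z * k := mem_center_iff.mp hz k
    constructor
    · intro h
      have h2 : k * x * z = x * k * z := by
        rw [mul_assoc x k z, hkz, ← mul_assoc x z k, ← h, mul_assoc]
      exact mul_right_cancel h2
    · intro h
      rw [← mul_assoc, h, mul_assoc, hkz, ← mul_assoc]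
  rw [this]; exact hx

end ClassSize

section Sylow

variable {G : Type*} [Group G] [Finite G] {q : ℕ} [Fact q.Prime]

/-- A subgroup of index prime to `q` contains a Sylow `q`-subgroup. -/
theorem exists_sylow_le_of_not_dvd_index (K : Subgroup G) (hK : ¬ q ∣ K.index) :
    ∃ S : Sylow q G, (S : Subgroup G) ≤ K := by
  have S₀ : Sylow q K := default
  have hcard : Nat.card ((S₀ : Subgroup K).map K.subtype) = q ^ (Nat.card G).factorization q := by
    rw [Subgroup.card_map_of_injective K.subtype_injective, S₀.card_eq_multiplicity]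
    congr 1
    rw [← K.card_mul_index, Nat.factorization_mul Nat.card_pos.ne' Subgroup.index_ne_zero_of_finite,
      Finsupp.add_apply, Nat.factorization_eq_zero_of_not_dvd hK, add_zero]
  refine ⟨Sylow.ofCard _ hcard, ?_⟩
  rintro x ⟨y, -, rfl⟩
  exact y.2

/-- If a Sylow `q`-subgroup centralizes `x`, the class size of `x` is prime to `q`. -/
theorem mem_primeToClass_of_mem_centralizer (Q : Sylow q G) {x : G}
    (hx : x ∈ centralizer ((Q : Subgroup G) : Set G)) : x ∈ primeToClass G q := by
  rw [mem_primeToClass]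
  have hle : (Q : Subgroup G) ≤ centralizer ({x} : Set G) := by
    intro h hh
    rw [mem_centralizer_singleton_iff]
    exact (mem_centralizer_iff.mp hx h hh)
  intro hdvd
  exact Q.not_dvd_index (hdvd.trans (Subgroup.index_dvd_of_le hle))

/-- An element whose class size is prime to `q` centralizes a Sylow `q`-subgroup. -/
theorem exists_sylow_mem_centralizer {x : G} (hx : x ∈ primeToClass G q) :
    ∃ S : Sylow q G, x ∈ centralizer ((S : Subgroup G) : Set G) := by
  obtain ⟨S, hS⟩ := exists_sylow_le_of_not_dvd_index _ hx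
  refine ⟨S, ?_⟩
  rw [mem_centralizer_iff]
  intro h hh
  exact mem_centralizer_singleton_iff.mp (hS hh)

/-- `|N : C ∩ N|` divides `|G : C|` for `N` normal. -/
theorem relIndex_dvd_index_right (C N : Subgroup G) [N.Normal] : C.relIndex N ∣ C.index := by
  have h1 : (N ⊓ C).relIndex N * N.relIndex (C ⊔ N) = (N ⊓ C).relIndex (C ⊔ N) :=
    Subgroup.relIndex_mul_relIndex _ _ _ inf_le_left le_sup_right
  have h2 : (N ⊓ C).relIndex C * C.relIndex (C ⊔ N) = (N ⊓ C).relIndex (C ⊔ N) :=
    Subgroup.relIndex_mul_relIndex _ _ _ inf_le_right le_sup_left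
  rw [Subgroup.inf_relIndex_left, Subgroup.relIndex_sup_right] at h1
  rw [Subgroup.inf_relIndex_right] at h2
  have hb : N.relIndex C ≠ 0 := by
    unfold Subgroup.relIndex
    exact Subgroup.index_ne_zero_of_finite
  have h3 : C.relIndex (C ⊔ N) = C.relIndex N := by
    apply Nat.eq_of_mul_eq_mul_left (Nat.pos_of_ne_zero hb)
    rw [h2, ← h1, mul_comm]
  rw [← h3]
  exact Dvd.intro _ (Subgroup.relIndex_mul_index le_sup_left)

omit [Finite G] [Fact q.Prime] in
/-- `|A ∩ B| · |B : A ∩ B| = |B|`. -/
theorem card_inf_mul_relIndex (A B : Subgroup G) :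
    Nat.card ↥(A ⊓ B) * A.relIndex B = Nat.card B := by
  have := Subgroup.relIndex_inf_mul_relIndex (⊥ : Subgroup G) A B
  rw [Subgroup.relIndex_bot_left, bot_inf_eq, Subgroup.relIndex_bot_left] at this
  exact this

/-- The `q`-part of the order of the centre is the order of `Z(G) ∩ Q`. -/
theorem card_center_inf_sylow (Q : Sylow q G) :
    ∃ a u : ℕ, Nat.card ↥(center G ⊓ (Q : Subgroup G)) = q ^ a ∧
      Nat.card (center G) = q ^ a * u ∧ ¬ q ∣ u := by
  have hp : IsPGroup q ↥(center G ⊓ (Q : Subgroup G)) := Q.isPGroup'.to_le inf_le_right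
  obtain ⟨a, ha⟩ := IsPGroup.iff_card.mp hp
  refine ⟨a, (Q : Subgroup G).relIndex (center G), ha, ?_, ?_⟩
  · have := card_inf_mul_relIndex (Q : Subgroup G) (center G)
    rw [inf_comm, ha] at this
    exact this.symm
  · intro hdvd
    exact Q.not_dvd_index (hdvd.trans (relIndex_dvd_index_right (Q : Subgroup G) (center G)))

end Sylow

section Coset

variable {G : Type*} [Group G] [Finite G]

omit [Finite G] in
/-- A set closed under right multiplication by a normal subgroup `Z'` has `|Z'|` times as many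
elements as its image in `G ⧸ Z'`. -/
theorem card_eq_card_image_mk_mul (Z' : Subgroup G) [Z'.Normal] (S : Set G)
    (hS : ∀ s ∈ S, ∀ z ∈ Z', s * z ∈ S) :
    Nat.card S = Nat.card ((QuotientGroup.mk : G → G ⧸ Z') '' S) * Nat.card Z' := by
  rw [← Nat.card_prod]
  apply Nat.card_congr
  refine
    { toFun := fun s => (⟨QuotientGroup.mk s.1, Set.mem_image_of_mem _ s.2⟩,
        ⟨(Quotient.out (QuotientGroup.mk s.1 : G ⧸ Z'))⁻¹ * s.1,
          QuotientGroup.eq.mp (QuotientGroup.out_eq' _)⟩)
      invFun := fun p => ⟨Quotient.out p.1.1 * p.2.1, ?_⟩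
      left_inv := ?_
      right_inv := ?_ }
  · obtain ⟨⟨y, hy⟩, ⟨z, hz⟩⟩ := p
    obtain ⟨s, hs, hsy⟩ := hy
    have h1 : (QuotientGroup.mk s : G ⧸ Z') = QuotientGroup.mk (Quotient.out y) := by
      rw [hsy, QuotientGroup.out_eq']
    have h2 : s⁻¹ * Quotient.out y ∈ Z' := QuotientGroup.eq.mp h1
    have h3 : Quotient.out y * z = s * ((s⁻¹ * Quotient.out y) * z) := by group
    show Quotient.out y * z ∈ S
    rw [h3]
    exact hS s hs _ (Z'.mul_mem h2 hz)
  · intro s
    apply Subtype.ext
    show Quotient.out (QuotientGroup.mk s.1 : G ⧸ Z') *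
      ((Quotient.out (QuotientGroup.mk s.1 : G ⧸ Z'))⁻¹ * s.1) = s.1
    rw [mul_inv_cancel_left]
  · rintro ⟨⟨y, hy⟩, ⟨z, hz⟩⟩
    have h : (QuotientGroup.mk (Quotient.out y * z) : G ⧸ Z') = y := by
      rw [QuotientGroup.mk_mul, (QuotientGroup.eq_one_iff z).mpr hz, mul_one,
        QuotientGroup.out_eq']
    apply Prod.ext
    · apply Subtype.ext
      exact h
    · apply Subtype.ext
      show (Quotient.out (QuotientGroup.mk (Quotient.out y * z) : G ⧸ Z'))⁻¹ *
        (Quotient.out y * z) = z
      rw [h, inv_mul_cancel_left]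

omit [Finite G] in
theorem conj_mul_central {c s w : G} (hw : w ∈ center G) :
    c * (s * w) * c⁻¹ = c * s * c⁻¹ * w := by
  have h := mem_center_iff.mp hw c⁻¹
  rw [mul_assoc c (s * w) c⁻¹, mul_assoc s w c⁻¹, ← h]
  group

variable {q : ℕ} [Fact q.Prime]

/-- If `x` has class size prime to `q` and a `q`-element `g` conjugates `x` to `x z` with `z`
central, then `z = 1`. -/
theorem eq_one_of_conj_eq_mul_central {x g z : G} (hx : x ∈ primeToClass G q)
    {k : ℕ} (hg : g ^ q ^ k = 1) (hz : z ∈ center G) (h : g * x * g⁻¹ = x * z) : z = 1 := by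
  by_contra hz1
  have hq : q.Prime := Fact.out
  have hpow : ∀ n : ℕ, g ^ n * x * (g ^ n)⁻¹ = x * z ^ n := by
    intro n
    induction n with
    | zero => simp
    | succ n ih =>
      have h1 : g ^ (n + 1) * x * (g ^ (n + 1))⁻¹ = g * (g ^ n * x * (g ^ n)⁻¹) * g⁻¹ := by
        rw [pow_succ']; group
      rw [h1, ih, conj_mul_central (pow_mem hz n), h, mul_assoc, ← pow_succ']
  have hzq : z ^ q ^ k = 1 := by
    have h1 := hpow (q ^ k)
    rw [hg] at h1
    simpa using h1.symm
  have hdvd : q ∣ orderOf z := by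
    have h1 : orderOf z ∣ q ^ k := orderOf_dvd_of_pow_eq_one hzq
    obtain ⟨j, -, hj⟩ := (Nat.dvd_prime_pow hq).mp h1
    have hj0 : j ≠ 0 := by
      rintro rfl
      rw [pow_zero, orderOf_eq_one_iff] at hj
      exact hz1 hj
    rw [hj]; exact dvd_pow_self q hj0
  have hZn : (zpowers z).Normal := by
    constructor
    intro n hn c
    have hnc : n ∈ center G := (zpowers_le.mpr hz) hn
    rw [mem_center_iff.mp hnc c, mul_inv_cancel_right]
    exact hn
  have hclosed : ∀ s ∈ (ConjClasses.mk x).carrier, ∀ y ∈ zpowers z,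
      s * y ∈ (ConjClasses.mk x).carrier := by
    intro s hs y hy
    rw [ConjClasses.mem_carrier_iff_mk_eq, ConjClasses.mk_eq_mk_iff_isConj, isConj_iff] at hs ⊢
    obtain ⟨c, hc⟩ := hs
    obtain ⟨n, rfl⟩ := (Submonoid.mem_powers_iff _ _).mp (mem_powers_iff_mem_zpowers.mpr hy)
    refine ⟨(g ^ n)⁻¹ * c, ?_⟩
    have hzn : z ^ n ∈ center G := pow_mem hz n
    have h1 : (g ^ n)⁻¹ * c * (s * z ^ n) * ((g ^ n)⁻¹ * c)⁻¹ =
        (g ^ n)⁻¹ * (c * s * c⁻¹) * g ^ n * z ^ n := by
      rw [conj_mul_central hzn]; group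
    have h2 : x = (g ^ n)⁻¹ * x * g ^ n * z ^ n := by
      have h3 := conj_mul_central (c := (g ^ n)⁻¹) (s := x) hzn
      rw [inv_inv] at h3
      rw [← h3, ← hpow n]; group
    rw [h1, hc, ← h2]
  have hcard := card_eq_card_image_mk_mul (zpowers z) _ hclosed
  apply hx
  rw [← card_carrier_eq_index_centralizer, hcard, Nat.card_zpowers]
  exact Dvd.dvd.mul_left hdvd _

end Coset

section Congruence

variable {G : Type*} [Group G] [Finite G] {q : ℕ} [Fact q.Prime]

omit [Finite G] [Fact q.Prime] in
/-- The conjugation action of a subgroup `Q` on a `Q`-invariant subset of a quotient group. -/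
abbrev conjMulActionOn (Q Z₀ : Subgroup G) [Z₀.Normal] (T : Set (G ⧸ Z₀))
    (hT : ∀ g ∈ Q, ∀ y ∈ T, (g : G ⧸ Z₀) * y * (g : G ⧸ Z₀)⁻¹ ∈ T) : MulAction Q T where
  smul g y := ⟨((g : G) : G ⧸ Z₀) * y.1 * ((g : G) : G ⧸ Z₀)⁻¹, hT g g.2 y.1 y.2⟩
  one_smul y := Subtype.ext (by
    show (((1 : Q) : G) : G ⧸ Z₀) * y.1 * (((1 : Q) : G) : G ⧸ Z₀)⁻¹ = y.1
    simp)
  mul_smul g h y := Subtype.ext (by
    show (((g * h : Q) : G) : G ⧸ Z₀) * y.1 * (((g * h : Q) : G) : G ⧸ Z₀)⁻¹ =
      ((g : G) : G ⧸ Z₀) * (((h : G) : G ⧸ Z₀) * y.1 * ((h : G) : G ⧸ Z₀)⁻¹) *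
        ((g : G) : G ⧸ Z₀)⁻¹
    simp [mul_assoc])

/-- The key congruence: modulo a central subgroup `Z₀`, the number of elements of class size
prime to `q` is congruent mod `q` to the order of the centralizer of a Sylow `q`-subgroup. -/
theorem card_image_primeToClass_modEq (Q : Sylow q G) (Z₀ : Subgroup G) [Z₀.Normal]
    (hZ₀ : Z₀ ≤ center G) :
    Nat.card ((QuotientGroup.mk : G → G ⧸ Z₀) '' primeToClass G q) ≡
      Nat.card ((QuotientGroup.mk : G → G ⧸ Z₀) ''
        (centralizer ((Q : Subgroup G) : Set G) : Set G)) [MOD q] := by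
  have hT : ∀ g ∈ (Q : Subgroup G), ∀ y ∈ (QuotientGroup.mk : G → G ⧸ Z₀) '' primeToClass G q,
      (g : G ⧸ Z₀) * y * (g : G ⧸ Z₀)⁻¹ ∈ (QuotientGroup.mk : G → G ⧸ Z₀) '' primeToClass G q := by
    rintro g - _ ⟨x, hx, rfl⟩
    exact ⟨g * x * g⁻¹, primeToClass_conj hx g, by simp⟩
  let _ := conjMulActionOn (Q : Subgroup G) Z₀ _ hT
  have hcong := Q.isPGroup'.card_modEq_card_fixedPoints
    (↥((QuotientGroup.mk : G → G ⧸ Z₀) '' primeToClass G q))
  have hfix : Nat.card (MulAction.fixedPoints (Q : Subgroup G)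
      (↥((QuotientGroup.mk : G → G ⧸ Z₀) '' primeToClass G q))) =
      Nat.card ((QuotientGroup.mk : G → G ⧸ Z₀) ''
        (centralizer ((Q : Subgroup G) : Set G) : Set G)) := by
    apply Nat.card_congr
    refine Equiv.ofBijective (fun t => ⟨t.1.1, ?_⟩) ⟨?_, ?_⟩
    · obtain ⟨x, hx, hxt⟩ := t.1.2
      refine ⟨x, ?_, hxt⟩
      rw [SetLike.mem_coe, mem_centralizer_iff]
      intro h hh
      have h1 : ((h : G) : G ⧸ Z₀) * t.1.1 * ((h : G) : G ⧸ Z₀)⁻¹ = t.1.1 :=
        congrArg Subtype.val (t.2 ⟨h, hh⟩)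
      rw [← hxt, ← QuotientGroup.mk_inv, ← QuotientGroup.mk_mul, ← QuotientGroup.mk_mul] at h1
      have h2 : x⁻¹ * (h * x * h⁻¹) ∈ Z₀ := QuotientGroup.eq.mp h1.symm
      have h3 : h * x * h⁻¹ = x * (x⁻¹ * (h * x * h⁻¹)) := by group
      obtain ⟨k, hk⟩ := Q.isPGroup' ⟨h, hh⟩
      have hk' : h ^ q ^ k = 1 := congrArg Subtype.val hk
      have h4 := eq_one_of_conj_eq_mul_central hx hk' (hZ₀ h2) h3
      rw [h4, mul_one] at h3
      have h5 : h * x = (h * x * h⁻¹) * h := by group
      rw [h5, h3]
    · intro t t' htt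
      have h := congrArg Subtype.val htt
      apply Subtype.ext
      apply Subtype.ext
      exact h
    · rintro ⟨y, c, hc, rfl⟩
      have hc' : c ∈ centralizer ((Q : Subgroup G) : Set G) := hc
      refine ⟨⟨⟨QuotientGroup.mk c, c, mem_primeToClass_of_mem_centralizer Q hc', rfl⟩, ?_⟩, rfl⟩
      intro m
      apply Subtype.ext
      show ((m : G) : G ⧸ Z₀) * (QuotientGroup.mk c) * ((m : G) : G ⧸ Z₀)⁻¹ = QuotientGroup.mk c
      rw [← QuotientGroup.mk_inv, ← QuotientGroup.mk_mul, ← QuotientGroup.mk_mul]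
      have h1 : (m : G) * c = c * (m : G) := mem_centralizer_iff.mp hc' m m.2
      rw [h1, mul_inv_cancel_right]
  rw [hfix] at hcong
  exact hcong

end Congruence

section Bound

variable {G : Type*} [Group G] [Finite G] {q : ℕ} [Fact q.Prime]

omit [Finite G] [Fact q.Prime] in
theorem mem_smul_sylow_iff' (g : G) (Q : Sylow q G) (h : G) :
    h ∈ ((g • Q : Sylow q G) : Subgroup G) ↔ g⁻¹ * h * g ∈ (Q : Subgroup G) := by
  rw [Sylow.smul_def, Sylow.pointwise_smul_def, Subgroup.mem_smul_pointwise_iff_exists]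
  constructor
  · rintro ⟨s, hs, rfl⟩
    have : g⁻¹ * (MulAut.conj g • s) * g = s := by simp [MulAut.smul_def, mul_assoc]
    rw [this]; exact hs
  · intro hh
    exact ⟨g⁻¹ * h * g, hh, by simp [MulAut.smul_def, mul_assoc]⟩

/-- The centralizers of two Sylow `q`-subgroups have the same order. -/
theorem card_centralizer_sylow_eq (Q S : Sylow q G) :
    Nat.card (centralizer ((S : Subgroup G) : Set G)) =
      Nat.card (centralizer ((Q : Subgroup G) : Set G)) := by
  obtain ⟨g, rfl⟩ := MulAction.exists_smul_eq G Q S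
  apply Nat.card_congr
  refine (MulAut.conj g⁻¹).toEquiv.subtypeEquiv ?_
  intro y
  show y ∈ centralizer (((g • Q : Sylow q G) : Subgroup G) : Set G) ↔
    g⁻¹ * y * g⁻¹⁻¹ ∈ centralizer ((Q : Subgroup G) : Set G)
  rw [inv_inv, mem_centralizer_iff, mem_centralizer_iff]
  constructor
  · intro hy h' hh'
    have h1 : g * h' * g⁻¹ ∈ ((g • Q : Sylow q G) : Subgroup G) := by
      rw [mem_smul_sylow_iff']
      have : g⁻¹ * (g * h' * g⁻¹) * g = h' := by group
      rw [this]; exact hh'
    have h2 := hy _ h1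
    calc h' * (g⁻¹ * y * g) = g⁻¹ * (g * h' * g⁻¹ * y) * g := by group
      _ = g⁻¹ * (y * (g * h' * g⁻¹)) * g := by rw [h2]
      _ = g⁻¹ * y * g * h' := by group
  · intro hy h hh
    have h1 : g⁻¹ * h * g ∈ (Q : Subgroup G) := (mem_smul_sylow_iff' g Q h).mp hh
    have h2 := hy _ h1
    calc h * y = g * (g⁻¹ * h * g * (g⁻¹ * y * g)) * g⁻¹ := by group
      _ = g * (g⁻¹ * y * g * (g⁻¹ * h * g)) * g⁻¹ := by rw [h2]
      _ = y * h := by group

/-- The union bound: the elements of class size prime to `q` lie in the union of the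
centralizers of the Sylow `q`-subgroups. -/
theorem card_primeToClass_le (Q : Sylow q G) :
    Nat.card (primeToClass G q) ≤
      1 + Nat.card (Sylow q G) * (Nat.card (centralizer ((Q : Subgroup G) : Set G)) - 1) := by
  classical
  have : Fintype G := Fintype.ofFinite G
  have : Fintype (Sylow q G) := Fintype.ofFinite _
  let F : Sylow q G → Finset G := fun S =>
    (Finset.univ.filter (fun x => x ∈ centralizer ((S : Subgroup G) : Set G))).erase 1
  have hsub : Finset.univ.filter (fun x => x ∈ primeToClass G q) ⊆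
      insert 1 (Finset.univ.biUnion F) := by
    intro x hx
    rw [Finset.mem_filter] at hx
    by_cases h1 : x = 1
    · rw [h1]; exact Finset.mem_insert_self _ _
    · apply Finset.mem_insert_of_mem
      obtain ⟨S, hS⟩ := exists_sylow_mem_centralizer hx.2
      rw [Finset.mem_biUnion]
      refine ⟨S, Finset.mem_univ _, ?_⟩
      rw [Finset.mem_erase, Finset.mem_filter]
      exact ⟨h1, Finset.mem_univ _, hS⟩
  have hF : ∀ S, (F S).card = Nat.card (centralizer ((Q : Subgroup G) : Set G)) - 1 := by
    intro S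
    have h1 : (1 : G) ∈ Finset.univ.filter (fun x => x ∈ centralizer ((S : Subgroup G) : Set G)) := by
      rw [Finset.mem_filter]; exact ⟨Finset.mem_univ _, one_mem _⟩
    rw [Finset.card_erase_of_mem h1, ← card_centralizer_sylow_eq Q S, Nat.card_eq_fintype_card]
    congr 1
    exact (Fintype.card_of_subtype _ (fun x => by rw [Finset.mem_filter]; simp)).symm
  have hX : Nat.card (primeToClass G q) =
      (Finset.univ.filter (fun x => x ∈ primeToClass G q)).card := by
    rw [Nat.card_eq_fintype_card]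
    exact Fintype.card_of_subtype _ (fun x => by rw [Finset.mem_filter]; simp)
  calc Nat.card (primeToClass G q)
      = (Finset.univ.filter (fun x => x ∈ primeToClass G q)).card := hX
    _ ≤ (insert 1 (Finset.univ.biUnion F)).card := Finset.card_le_card hsub
    _ ≤ (Finset.univ.biUnion F).card + 1 := Finset.card_insert_le _ _
    _ ≤ (∑ S, (F S).card) + 1 := Nat.add_le_add_right Finset.card_biUnion_le 1
    _ = 1 + Nat.card (Sylow q G) *
          (Nat.card (centralizer ((Q : Subgroup G) : Set G)) - 1) := by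
      rw [Finset.sum_congr rfl (fun S _ => hF S), Finset.sum_const, Finset.card_univ,
        smul_eq_mul, Nat.card_eq_fintype_card (α := Sylow q G), add_comm]

/-- `|Q| · |C_G(Q)| ≤ |N_G(Q)| · |Q ∩ C_G(Q)|`. -/
theorem card_mul_card_centralizer_le (Q : Subgroup G) :
    Nat.card Q * Nat.card (centralizer (Q : Set G)) ≤
      Nat.card (normalizer (Q : Set G)) * Nat.card ↥(centralizer (Q : Set G) ⊓ Q) := by
  have h1 := card_inf_mul_relIndex (centralizer (Q : Set G)) Q
  have h2 := card_inf_mul_relIndex (centralizer (Q : Set G)) (normalizer (Q : Set G))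
  have h3 : centralizer (Q : Set G) ⊓ normalizer (Q : Set G) = centralizer (Q : Set G) :=
    inf_eq_left.mpr (Subgroup.centralizer_le_normalizer _)
  rw [h3] at h2
  have hne : (centralizer (Q : Set G)).relIndex (normalizer (Q : Set G)) ≠ 0 := by
    unfold Subgroup.relIndex
    exact Subgroup.index_ne_zero_of_finite
  have h4 : (centralizer (Q : Set G)).relIndex Q ≤
      (centralizer (Q : Set G)).relIndex (normalizer (Q : Set G)) :=
    Subgroup.relIndex_le_of_le_right Subgroup.le_normalizer hne
  rw [← h1, ← h2]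
  calc Nat.card ↥(centralizer (Q : Set G) ⊓ Q) * (centralizer (Q : Set G)).relIndex Q *
        Nat.card (centralizer (Q : Set G))
      ≤ Nat.card ↥(centralizer (Q : Set G) ⊓ Q) *
        (centralizer (Q : Set G)).relIndex (normalizer (Q : Set G)) *
        Nat.card (centralizer (Q : Set G)) := by gcongr
    _ = _ := by ring

/-- For a normal Sylow `q`-subgroup `Q` with `G = Q C_G(Q)`, the number of elements of class
size prime to `q` is `|Z(G) ∩ Q| · |G : Q|`. -/
theorem card_primeToClass_of_normal (Q : Sylow q G) (hQ : (Q : Subgroup G).Normal)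
    (htop : (Q : Subgroup G) ⊔ centralizer ((Q : Subgroup G) : Set G) = ⊤) :
    Nat.card (primeToClass G q) =
      Nat.card ↥(center G ⊓ (Q : Subgroup G)) * (Q : Subgroup G).index := by
  have hset : primeToClass G q = (centralizer ((Q : Subgroup G) : Set G) : Set G) := by
    ext x
    constructor
    · intro hx
      obtain ⟨S, hS⟩ := exists_sylow_mem_centralizer hx
      have hu := Sylow.unique_of_normal Q hQ
      have : S = Q := Subsingleton.elim S Q
      rw [this] at hS
      exact hS
    · intro hx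
      exact mem_primeToClass_of_mem_centralizer Q hx
  have h1 := card_inf_mul_relIndex (Q : Subgroup G) (centralizer ((Q : Subgroup G) : Set G))
  have h2 : (Q : Subgroup G).relIndex (centralizer ((Q : Subgroup G) : Set G)) =
      (Q : Subgroup G).index := by
    rw [← Subgroup.relIndex_sup_left (centralizer ((Q : Subgroup G) : Set G)) (Q : Subgroup G),
      htop, Subgroup.relIndex_top_right]
  have h3 : (Q : Subgroup G) ⊓ centralizer ((Q : Subgroup G) : Set G) =
      center G ⊓ (Q : Subgroup G) := by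
    apply le_antisymm
    · intro u hu
      have hu1 := (Subgroup.mem_inf.mp hu).1
      have hu2 := (Subgroup.mem_inf.mp hu).2
      refine Subgroup.mem_inf.mpr ⟨?_, hu1⟩
      rw [mem_center_iff_index_eq_one, Subgroup.index_eq_one, eq_top_iff, ← htop]
      apply sup_le
      · intro h hh
        rw [mem_centralizer_singleton_iff]
        exact mem_centralizer_iff.mp hu2 h hh
      · intro c hc
        rw [mem_centralizer_singleton_iff]
        exact (mem_centralizer_iff.mp hc u hu1).symm
    · intro u hu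
      have hu1 := (Subgroup.mem_inf.mp hu).1
      have hu2 := (Subgroup.mem_inf.mp hu).2
      refine Subgroup.mem_inf.mpr ⟨hu2, ?_⟩
      rw [mem_centralizer_iff]
      intro h _
      exact mem_center_iff.mp hu1 h
  rw [hset]
  show Nat.card ↥(centralizer ((Q : Subgroup G) : Set G)) = _
  rw [← h1, h2, h3]

/-- In a nilpotent group, `G = Q C_G(Q)` for a Sylow subgroup `Q`. -/
theorem sylow_sup_centralizer_eq_top [Group.IsNilpotent G] (Q : Sylow q G) :
    (Q : Subgroup G) ⊔ centralizer ((Q : Subgroup G) : Set G) = ⊤ := by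
  have hnil : Group.IsNilpotent G := inferInstance
  have hnorm : ∀ (p : ℕ) (_hp : Fact p.Prime) (P : Sylow p G), (P : Subgroup G).Normal :=
    ((Group.isNilpotent_of_finite_tfae (G := G)).out 0 3).mp hnil
  by_contra hne
  have hidx : ((Q : Subgroup G) ⊔ centralizer ((Q : Subgroup G) : Set G)).index ≠ 1 := by
    rwa [Ne, Subgroup.index_eq_one]
  obtain ⟨r, hr, hrdvd⟩ := Nat.exists_prime_and_dvd hidx
  have : Fact r.Prime := ⟨hr⟩
  have R : Sylow r G := default
  have hRle : (R : Subgroup G) ≤ (Q : Subgroup G) ⊔ centralizer ((Q : Subgroup G) : Set G) := by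
    by_cases hrq : r = q
    · subst hrq
      have hu := Sylow.unique_of_normal Q (hnorm _ inferInstance Q)
      have : R = Q := Subsingleton.elim R Q
      rw [this]
      exact le_sup_left
    · refine le_trans ?_ le_sup_right
      intro x hx
      rw [mem_centralizer_iff]
      intro h hh
      have hdis : Disjoint (Q : Subgroup G) (R : Subgroup G) :=
        IsPGroup.disjoint_of_ne q r (Ne.symm hrq) _ _ Q.isPGroup' R.isPGroup'
      exact Subgroup.commute_of_normal_of_disjoint _ _ (hnorm _ inferInstance Q)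
        (hnorm _ inferInstance R) hdis h x hh hx
  exact R.not_dvd_index (hrdvd.trans (Subgroup.index_dvd_of_le hRle))

end Bound

section Main

variable {G : Type*} [Group G] [Finite G] {H : Type*} [Group H] [Finite H]

/-- If `G` has the same class-size statistics as a nilpotent group `H`, every Sylow subgroup
of `G` is normal. -/
theorem sylow_normal_of_classSize_eq [Group.IsNilpotent H]
    (h : ∀ k : ℕ, Nat.card {C : ConjClasses G // Nat.card C.carrier = k} =
      Nat.card {C : ConjClasses H // Nat.card C.carrier = k})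
    (q : ℕ) [Fact q.Prime] (Q : Sylow q G) : (Q : Subgroup G).Normal := by
  have hq : q.Prime := Fact.out
  obtain ⟨e, he⟩ := exists_equiv_classSize h
  have hGH : Nat.card G = Nat.card H := Nat.card_congr e
  have hZ := card_center_eq_of_equiv e he
  have hX := card_primeToClass_eq_of_equiv e he q
  -- the nilpotent side
  have Q' : Sylow q H := default
  have hnil : Group.IsNilpotent H := inferInstance
  have hall : ∀ (p : ℕ) (_hp : Fact p.Prime) (P : Sylow p H), (P : Subgroup H).Normal :=
    ((Group.isNilpotent_of_finite_tfae (G := H)).out 0 3).mp hnil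
  have hQ'n : (Q' : Subgroup H).Normal := hall q inferInstance Q'
  have hXH := card_primeToClass_of_normal Q' hQ'n (sylow_sup_centralizer_eq_top Q')
  obtain ⟨a, u, ha, hau, hu⟩ := card_center_inf_sylow Q
  obtain ⟨a', u', ha', hau', hu'⟩ := card_center_inf_sylow Q'
  have haa : a = a' := by
    have h1 : q ^ a * u = q ^ a' * u' := by rw [← hau, ← hau', hZ]
    have hu0 : u ≠ 0 := by rintro rfl; exact hu (dvd_zero q)
    have hu'0 : u' ≠ 0 := by rintro rfl; exact hu' (dvd_zero q)
    have h2 := congrArg (fun n => n.factorization q) h1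
    simp only [Nat.factorization_mul (pow_ne_zero _ hq.ne_zero) hu0,
      Nat.factorization_mul (pow_ne_zero _ hq.ne_zero) hu'0, Finsupp.add_apply,
      Nat.factorization_pow, Finsupp.smul_apply, hq.factorization_self,
      Nat.factorization_eq_zero_of_not_dvd hu, Nat.factorization_eq_zero_of_not_dvd hu',
      smul_eq_mul, mul_one, add_zero] at h2
    exact h2
  have hidx : (Q : Subgroup G).index = (Q' : Subgroup H).index := by
    have h1 := (Q : Subgroup G).card_mul_index
    have h2 := (Q' : Subgroup H).card_mul_index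
    rw [Q.card_eq_multiplicity] at h1
    rw [Q'.card_eq_multiplicity, ← hGH] at h2
    have hpos : 0 < q ^ (Nat.card G).factorization q := pow_pos hq.pos _
    exact Nat.eq_of_mul_eq_mul_left hpos (by rw [h1, h2])
  obtain ⟨m, hm⟩ : ∃ m : ℕ, m = (Q : Subgroup G).index := ⟨_, rfl⟩
  have hmq : ¬ q ∣ m := hm ▸ Q.not_dvd_index
  have hXG : Nat.card (primeToClass G q) = q ^ a * m := by
    rw [hX, hXH, ha', ← haa, ← hidx, hm]
  -- the central `q`-subgroup
  obtain ⟨Z₀, hZ₀def⟩ : ∃ Z₀ : Subgroup G, Z₀ = center G ⊓ (Q : Subgroup G) := ⟨_, rfl⟩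
  have hZ₀c : Z₀ ≤ center G := hZ₀def ▸ inf_le_left
  have hZ₀n : Z₀.Normal := by
    constructor
    intro n hn g
    rw [mem_center_iff.mp (hZ₀c hn) g, mul_inv_cancel_right]
    exact hn
  have hZ₀card : Nat.card Z₀ = q ^ a := by rw [hZ₀def]; exact ha
  have hA1 := card_eq_card_image_mk_mul Z₀ (primeToClass G q)
    (fun s hs z hz => primeToClass_mul_central hs (hZ₀c hz))
  have hA2 := card_eq_card_image_mk_mul Z₀ (centralizer ((Q : Subgroup G) : Set G) : Set G)
    (fun s hs z hz => by
      have hs' : s ∈ centralizer ((Q : Subgroup G) : Set G) := hs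
      have hz' : z ∈ centralizer ((Q : Subgroup G) : Set G) := by
        rw [mem_centralizer_iff]; intro h _; exact mem_center_iff.mp (hZ₀c hz) h
      exact mul_mem hs' hz')
  have hcong := card_image_primeToClass_modEq Q Z₀ hZ₀c
  rw [hZ₀card] at hA1 hA2
  have hqa : 0 < q ^ a := pow_pos hq.pos _
  have hX' : Nat.card ((QuotientGroup.mk : G → G ⧸ Z₀) '' primeToClass G q) = m := by
    apply Nat.eq_of_mul_eq_mul_right hqa
    rw [← hA1, hXG, mul_comm]
  rw [hX'] at hcong
  obtain ⟨c', hc'⟩ : ∃ c' : ℕ, c' = Nat.card ((QuotientGroup.mk : G → G ⧸ Z₀) ''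
      (centralizer ((Q : Subgroup G) : Set G) : Set G)) := ⟨_, rfl⟩
  rw [← hc'] at hcong hA2
  have hc'q : ¬ q ∣ c' := by
    intro hd
    apply hmq
    exact Nat.modEq_zero_iff_dvd.mp (hcong.trans (Nat.modEq_zero_iff_dvd.mpr hd))
  -- `|Q ∩ C_G(Q)| = q ^ a`
  have hζ : Nat.card ↥(centralizer ((Q : Subgroup G) : Set G) ⊓ (Q : Subgroup G)) = q ^ a := by
    have hp : IsPGroup q ↥(centralizer ((Q : Subgroup G) : Set G) ⊓ (Q : Subgroup G)) :=
      Q.isPGroup'.to_le inf_le_right
    obtain ⟨b, hb⟩ := IsPGroup.iff_card.mp hp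
    have hle : Z₀ ≤ centralizer ((Q : Subgroup G) : Set G) ⊓ (Q : Subgroup G) := by
      rw [hZ₀def]
      intro v hv
      refine Subgroup.mem_inf.mpr ⟨?_, (Subgroup.mem_inf.mp hv).2⟩
      rw [mem_centralizer_iff]
      intro h _
      exact mem_center_iff.mp (Subgroup.mem_inf.mp hv).1 h
    have h1 : q ^ a ∣ q ^ b := by
      rw [← hZ₀card, ← hb]; exact Subgroup.card_dvd_of_le hle
    have h2 : q ^ b ∣ c' * q ^ a := by
      rw [← hb, ← hA2]; exact Subgroup.card_dvd_of_le inf_le_left
    have hab : a ≤ b := (Nat.pow_dvd_pow_iff_le_right hq.one_lt).mp h1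
    rw [hb]
    congr 1
    by_contra hne
    have hlt : a < b := lt_of_le_of_ne hab (fun h => hne h.symm)
    have h3 : q ^ (a + 1) ∣ c' * q ^ a := (pow_dvd_pow q hlt).trans h2
    rw [pow_succ, mul_comm c'] at h3
    exact hc'q (Nat.dvd_of_mul_dvd_mul_left hqa h3)
  -- counting
  have hK3 := card_primeToClass_le Q
  have hK4 := card_mul_card_centralizer_le (Q : Subgroup G)
  rw [hζ] at hK4
  have hnidx : Nat.card (Sylow q G) = (normalizer ((Q : Subgroup G) : Set G)).index :=
    Q.card_eq_index_normalizer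
  rw [hXG, hnidx] at hK3
  have hN := (normalizer ((Q : Subgroup G) : Set G)).card_mul_index
  have hQm := (Q : Subgroup G).card_mul_index
  rw [← hm] at hQm
  obtain ⟨n, hn⟩ : ∃ n : ℕ, n = (normalizer ((Q : Subgroup G) : Set G)).index := ⟨_, rfl⟩
  obtain ⟨cC, hcC⟩ : ∃ cC : ℕ, cC = Nat.card (centralizer ((Q : Subgroup G) : Set G)) := ⟨_, rfl⟩
  obtain ⟨cQ, hcQ⟩ : ∃ cQ : ℕ, cQ = Nat.card (Q : Subgroup G) := ⟨_, rfl⟩
  obtain ⟨cN, hcN⟩ : ∃ cN : ℕ, cN = Nat.card (normalizer ((Q : Subgroup G) : Set G)) := ⟨_, rfl⟩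
  rw [← hn, ← hcC] at hK3
  rw [← hcQ, ← hcC, ← hcN] at hK4
  rw [← hn, ← hcN] at hN
  rw [← hcQ] at hQm
  have hcQpos : 0 < cQ := hcQ ▸ Nat.card_pos
  have hcCpos : 0 < cC := hcC ▸ Nat.card_pos
  have h1 : cQ * (n * cC) ≤ cQ * (m * q ^ a) := by
    calc cQ * (n * cC) = n * (cQ * cC) := by ring
      _ ≤ n * (cN * q ^ a) := Nat.mul_le_mul_left _ hK4
      _ = (cN * n) * q ^ a := by ring
      _ = (cQ * m) * q ^ a := by rw [hN, hQm]
      _ = cQ * (m * q ^ a) := by ring
  have h2 : n * cC ≤ m * q ^ a := Nat.le_of_mul_le_mul_left h1 hcQpos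
  have h3 : n * (cC - 1) + n = n * cC := by
    have h6 : cC - 1 + 1 = cC := Nat.sub_add_cancel hcCpos
    calc n * (cC - 1) + n = n * (cC - 1 + 1) := by ring
      _ = n * cC := by rw [h6]
  have h4 : n ≤ 1 := by
    have h5 : q ^ a * m = m * q ^ a := mul_comm _ _
    omega
  have hn0 : n ≠ 0 := hn ▸ Subgroup.index_ne_zero_of_finite
  have hn1 : (normalizer ((Q : Subgroup G) : Set G)).index = 1 := by
    rw [← hn]; omega
  exact Subgroup.normalizer_eq_top_iff.mp (Subgroup.index_eq_one.mp hn1)

/-- **Cossey–Hawkes–Mann.** A finite group with the same class-size statistics as a nilpotent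
group is nilpotent. -/
theorem isNilpotent_of_classSize_eq [Group.IsNilpotent H]
    (h : ∀ k : ℕ, Nat.card {C : ConjClasses G // Nat.card C.carrier = k} =
      Nat.card {C : ConjClasses H // Nat.card C.carrier = k}) : Group.IsNilpotent G :=
  ((Group.isNilpotent_of_finite_tfae (G := G)).out 0 3).mpr
    (fun q hq Q => by
      have := hq
      exact sylow_normal_of_classSize_eq h q Q)

end Main

end Cfsg.Agent.Helper70
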