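import Cfsg.Agent.Helper70.FrobPrime

set_option autoImplicit false

/-!
Helper70: failure of Frobenius' condition, normalised relative to a given Sylow subgroup `P`:
the failing `p`-subgroup `Q` lies in `P`, and `P` contains a Sylow `p`-subgroup of `C_G(Q)`
(every `p`-subgroup of `C_G(Q)` is `C_G(Q)`-conjugate into `P`).
-/

namespace Cfsg.Agent.Helper70

open Subgroup

universe u

variable {G : Type u} [Group G]

theorem conj_mem_centralizer_map_conj_iff (h : G) (Q₀ : Subgroup G) (c : G) :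
    h * c * h⁻¹ ∈ centralizer ((Q₀.map (MulAut.conj h).toMonoidHom : Subgroup G) : Set G) ↔
      c ∈ centralizer (Q₀ : Set G) := by
  rw [mem_centralizer_iff, mem_centralizer_iff]
  constructor
  · intro hc y hy
    have h1 := hc (h * y * h⁻¹) ⟨y, hy, rfl⟩
    have h2 : y * c = h⁻¹ * ((h * y * h⁻¹) * (h * c * h⁻¹)) * h := by group
    rw [h2, h1]; group
  · rintro hc _ ⟨y, hy, rfl⟩
    have h1 := hc y hy
    show (h * y * h⁻¹) * (h * c * h⁻¹) = (h * c * h⁻¹) * (h * y * h⁻¹)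
    have h2 : (h * y * h⁻¹) * (h * c * h⁻¹) = h * (y * c) * h⁻¹ := by group
    rw [h2, h1]; group

theorem mem_map_conj_iff (h : G) (Q₀ : Subgroup G) (x : G) :
    x ∈ Q₀.map (MulAut.conj h).toMonoidHom ↔ h⁻¹ * x * h ∈ Q₀ := by
  rw [Subgroup.mem_map_equiv, MulAut.conj_symm_apply]

/-- Failure of Frobenius' condition, normalised relative to a Sylow subgroup `P`. -/
theorem exists_prime_action_in_sylow [Finite G] {p : ℕ} [Fact p.Prime] (hF : ¬ FrobCond p G)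
    (P : Sylow p G) :
    ∃ (Q : Subgroup G) (g : G) (r : ℕ), Q ≤ (P : Subgroup G) ∧ r.Prime ∧ r ≠ p ∧
      g ∈ normalizer (Q : Set G) ∧ g ^ r ∈ centralizer (Q : Set G) ∧
      g ∉ centralizer (Q : Set G) ∧
      ∀ X : Subgroup G, X ≤ centralizer (Q : Set G) → IsPGroup p X →
        ∃ c ∈ centralizer (Q : Set G), ∀ x ∈ X, c * x * c⁻¹ ∈ (P : Subgroup G) := by
  obtain ⟨Q₀, g₀, r, hQ₀, hr, hrp, -, hgN, hgr, hgC⟩ := exists_prime_action_of_not_frobCond hF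
  obtain ⟨R'⟩ : Nonempty (Sylow p (centralizer (Q₀ : Set G))) := inferInstance
  set R'' : Subgroup G := (R' : Subgroup (centralizer (Q₀ : Set G))).map
    (centralizer (Q₀ : Set G)).subtype with hR''
  have hR''p : IsPGroup p R'' := R'.isPGroup'.map _
  have hR''C : R'' ≤ centralizer (Q₀ : Set G) := by
    rintro _ ⟨y, -, rfl⟩
    exact y.2
  have hsup : IsPGroup p (R'' ⊔ Q₀ : Subgroup G) :=
    hR''p.to_sup_of_normal_right' hQ₀ (hR''C.trans (Subgroup.centralizer_le_normalizer _))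
  obtain ⟨P₁, hP₁⟩ := hsup.exists_le_sylow
  obtain ⟨h, hh⟩ := MulAction.exists_smul_eq G P₁ P
  have hmemP : ∀ y ∈ (P₁ : Subgroup G), h * y * h⁻¹ ∈ (P : Subgroup G) := by
    intro y hy
    rw [← hh, sylow_mem_smul_iff]
    have : h⁻¹ * (h * y * h⁻¹) * h = y := by group
    rw [this]; exact hy
  refine ⟨Q₀.map (MulAut.conj h).toMonoidHom, h * g₀ * h⁻¹, r, ?_, hr, hrp, ?_, ?_, ?_, ?_⟩
  · rintro _ ⟨y, hy, rfl⟩
    exact hmemP y (hP₁ ((le_sup_right : Q₀ ≤ R'' ⊔ Q₀) hy))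
  · rw [mem_normalizer_iff]
    intro x
    rw [mem_map_conj_iff, mem_map_conj_iff, mem_normalizer_iff.mp hgN (h⁻¹ * x * h)]
    have : h⁻¹ * (h * g₀ * h⁻¹ * x * (h * g₀ * h⁻¹)⁻¹) * h = g₀ * (h⁻¹ * x * h) * g₀⁻¹ := by
      group
    rw [this]
  · rw [conj_pow, conj_mem_centralizer_map_conj_iff]
    exact hgr
  · rw [conj_mem_centralizer_map_conj_iff]
    exact hgC
  · intro X hXC hXp
    -- transport `X` back
    set X₀ : Subgroup G := X.map (MulAut.conj h⁻¹).toMonoidHom with hX₀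
    have hX₀p : IsPGroup p X₀ := hXp.map _
    have hX₀C : X₀ ≤ centralizer (Q₀ : Set G) := by
      rintro _ ⟨x, hx, rfl⟩
      have h1 := hXC hx
      have h2 : x = h * (h⁻¹ * x * h⁻¹⁻¹) * h⁻¹ := by group
      rw [h2, conj_mem_centralizer_map_conj_iff] at h1
      exact h1
    have hX₀p' : IsPGroup p (X₀.subgroupOf (centralizer (Q₀ : Set G))) := hX₀p.comap_subtype
    obtain ⟨S, hS⟩ := hX₀p'.exists_le_sylow
    obtain ⟨c₀, hc₀⟩ := MulAction.exists_smul_eq (centralizer (Q₀ : Set G)) S R'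
    refine ⟨h * (c₀ : G) * h⁻¹, (conj_mem_centralizer_map_conj_iff h Q₀ _).mpr c₀.2, ?_⟩
    intro x hx
    have hx₀ : h⁻¹ * x * h⁻¹⁻¹ ∈ X₀ := ⟨x, hx, rfl⟩
    have hx₀C : h⁻¹ * x * h⁻¹⁻¹ ∈ centralizer (Q₀ : Set G) := hX₀C hx₀
    have h1 : (⟨h⁻¹ * x * h⁻¹⁻¹, hx₀C⟩ : centralizer (Q₀ : Set G)) ∈
        (S : Subgroup (centralizer (Q₀ : Set G))) := hS (mem_subgroupOf.mpr hx₀)
    have h2 : c₀ * ⟨h⁻¹ * x * h⁻¹⁻¹, hx₀C⟩ * c₀⁻¹ ∈
        (R' : Subgroup (centralizer (Q₀ : Set G))) := by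
      rw [← hc₀, sylow_mem_smul_iff]
      have : c₀⁻¹ * (c₀ * ⟨h⁻¹ * x * h⁻¹⁻¹, hx₀C⟩ * c₀⁻¹) * c₀ =
          (⟨h⁻¹ * x * h⁻¹⁻¹, hx₀C⟩ : centralizer (Q₀ : Set G)) := by group
      rw [this]; exact h1
    have h3 : (c₀ : G) * (h⁻¹ * x * h⁻¹⁻¹) * (c₀ : G)⁻¹ ∈ R'' := ⟨_, h2, rfl⟩
    have h4 := hmemP _ (hP₁ ((le_sup_left : R'' ≤ R'' ⊔ Q₀) h3))
    have h5 : h * ((c₀ : G) * (h⁻¹ * x * h⁻¹⁻¹) * (c₀ : G)⁻¹) * h⁻¹ =
        h * (c₀ : G) * h⁻¹ * x * (h * (c₀ : G) * h⁻¹)⁻¹ := by group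
    rw [h5] at h4
    exact h4

end Cfsg.Agent.Helper70
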