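import Cfsg.Agent.Helper63.N14Defs

/-!
# Helper70: PIECE B1a of CALL S4414 (helper63): the hyperplane projections sum to `1`.
-/

set_option autoImplicit false

namespace Cfsg.Agent.Helper70.N14

open Cfsg.Agent.Helper63.N14

open Classical in
/-- The number of hyperplanes through `s` (case `|A| = p ^ 2`). -/
theorem b1a_count {S : Type*} [Group S] [Fintype S] [Fintype (Subgroup S)] (p : ℕ)
    (hp : p.Prime) (A : Subgroup S) (hAexp : ∀ a ∈ A, a ^ p = 1) (hAcard : Nat.card A = p ^ 2)
    (s : S) :
    (Finset.univ.filter (fun K : Subgroup S => IsHyp A p K ∧ s ∈ K)).card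
      = if s = 1 then (Finset.univ.filter (fun K : Subgroup S => IsHyp A p K)).card
        else if s ∈ A then 1 else 0 := by
  by_cases h1 : s = 1
  · subst h1
    rw [if_pos rfl]
    congr 1
    ext K
    simp [one_mem]
  · rw [if_neg h1]
    by_cases hA : s ∈ A
    · rw [if_pos hA, Finset.card_eq_one]
      refine ⟨Subgroup.zpowers s, ?_⟩
      ext K
      simp only [Finset.mem_filter, Finset.mem_univ, true_and, Finset.mem_singleton]
      have hord : orderOf s = p := by
        have h := orderOf_dvd_of_pow_eq_one (hAexp s hA)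
        rcases (Nat.dvd_prime hp).mp h with h | h
        · exact absurd (orderOf_eq_one_iff.mp h) h1
        · exact h
      have hcz : Nat.card (Subgroup.zpowers s) = p := by rw [Nat.card_zpowers, hord]
      constructor
      · rintro ⟨⟨hKA, hKc⟩, hsK⟩
        have hKp : Nat.card K = p := by
          rw [hAcard, pow_two] at hKc
          exact Nat.eq_of_mul_eq_mul_right hp.pos hKc
        symm
        apply Subgroup.eq_of_le_of_card_ge ((Subgroup.zpowers_le).mpr hsK)
        rw [hcz, hKp]
      · rintro rfl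
        refine ⟨⟨(Subgroup.zpowers_le).mpr hA, ?_⟩, Subgroup.mem_zpowers s⟩
        rw [hcz, hAcard, pow_two]
    · rw [if_neg hA, Finset.card_eq_zero, Finset.filter_eq_empty_iff]
      rintro K _ ⟨⟨hKA, _⟩, hsK⟩
      exact hA (hKA hsK)

open Classical in
/-- Double counting over the hyperplanes (case `|A| = p ^ 2`). -/
theorem b1a_dc {S : Type*} [Group S] [Fintype S] [Fintype (Subgroup S)] {M : Type*}
    [AddCommMonoid M] (p : ℕ) (hp : p.Prime) (A : Subgroup S) (hAexp : ∀ a ∈ A, a ^ p = 1)
    (hAcard : Nat.card A = p ^ 2) (f : S → M) :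
    ∑ K : Subgroup S, (if IsHyp A p K then ∑ s : S, (if s ∈ K then f s else 0) else 0)
      = (Finset.univ.filter (fun K : Subgroup S => IsHyp A p K)).card • f 1
        + ∑ s : S, (if s ∈ A ∧ s ≠ 1 then f s else 0) := by
  have h1 : ∀ K : Subgroup S,
      (if IsHyp A p K then ∑ s : S, (if s ∈ K then f s else 0) else 0)
      = ∑ s : S, (if IsHyp A p K ∧ s ∈ K then f s else 0) := by
    intro K
    by_cases h : IsHyp A p K
    · simp [h]
    · simp [h]
  simp_rw [h1]
  rw [Finset.sum_comm]
  have h2 : ∀ s : S, ∑ K : Subgroup S, (if IsHyp A p K ∧ s ∈ K then f s else 0)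
      = (Finset.univ.filter (fun K : Subgroup S => IsHyp A p K ∧ s ∈ K)).card • f s := by
    intro s
    rw [← Finset.sum_filter, Finset.sum_const]
  simp_rw [h2, b1a_count p hp A hAexp hAcard]
  rw [← Finset.add_sum_erase Finset.univ _ (Finset.mem_univ (1 : S))]
  rw [if_pos rfl]
  congr 1
  rw [← Finset.add_sum_erase Finset.univ (fun s => if s ∈ A ∧ s ≠ 1 then f s else 0)
    (Finset.mem_univ (1 : S))]
  simp only [ne_eq, not_true, and_false, if_false, zero_add]
  refine Finset.sum_congr rfl fun s hs => ?_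
  have hs1 : s ≠ 1 := Finset.ne_of_mem_erase hs
  rw [if_neg hs1]
  by_cases hA : s ∈ A
  · simp [hA, hs1]
  · simp [hA]

open Classical in
/-- `∑ s, [s ∈ K] = |K|`. -/
theorem b1a_card {S : Type*} [Group S] [Fintype S] (K : Subgroup S) :
    ∑ s : S, (if s ∈ K then 1 else 0) = Nat.card K := by
  rw [Finset.sum_boole, Nat.card_eq_fintype_card, Fintype.card_subtype]
  simp

open Classical in
/-- Splitting off the term of `1`. -/
theorem b1a_split {S : Type*} [Group S] [Fintype S] {M : Type*} [AddCommMonoid M]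
    (A : Subgroup S) (f : S → M) :
    ∑ s : S, (if s ∈ A then f s else 0)
      = f 1 + ∑ s : S, (if s ∈ A ∧ s ≠ 1 then f s else 0) := by
  rw [← Finset.add_sum_erase Finset.univ (fun s => if s ∈ A then f s else 0)
      (Finset.mem_univ (1 : S)),
    ← Finset.add_sum_erase Finset.univ (fun s => if s ∈ A ∧ s ≠ 1 then f s else 0)
      (Finset.mem_univ (1 : S))]
  simp only [ne_eq, not_true, and_false, if_false, zero_add, if_pos A.one_mem]
  congr 1
  refine Finset.sum_congr rfl fun s hs => ?_
  have hs1 : s ≠ 1 := Finset.ne_of_mem_erase hs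
  simp [hs1]

/-- B1a. The hyperplane projections sum to `1`. -/
theorem eH_sum {S : Type*} [Group S] [Finite S] {E : Type*} [AddCommGroup E] [Module (ZMod 2) E]
    (ρ : Representation (ZMod 2) S E) (p : ℕ) (hp : p.Prime) (hp2 : p ≠ 2)
    (A : Subgroup S) (hAab : ∀ a ∈ A, ∀ b ∈ A, a * b = b * a) (hAexp : ∀ a ∈ A, a ^ p = 1)
    (hAcard : Nat.card A = p ∨ Nat.card A = p ^ 2)
    (hfixA : ∀ v : E, (∀ a ∈ A, ρ a v = v) → v = 0) [Fintype (Subgroup S)] :
    ∑ K : Subgroup S, eH ρ A p K = 1 := by
  classical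
  let _ : Fintype S := Fintype.ofFinite S
  have heK : ∀ K : Subgroup S, eK ρ K = ∑ s : S, (if s ∈ K then ρ s else 0) := by
    intro K
    unfold eK
    rw [finsum_eq_sum_of_fintype, ← Finset.sum_filter]
    exact (Finset.sum_subtype (Finset.univ.filter (· ∈ K)) (by simp) (fun s => ρ s)).symm
  have hT : ∑ s : S, (if s ∈ A then ρ s else 0) = 0 := by
    apply LinearMap.ext
    intro v
    rw [LinearMap.zero_apply]
    apply hfixA
    intro b hb
    have key : ∀ s : S, ρ b ((if s ∈ A then ρ s else 0 : Module.End (ZMod 2) E) v)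
        = (if b * s ∈ A then ρ (b * s) else 0 : Module.End (ZMod 2) E) v := by
      intro s
      by_cases hs : s ∈ A
      · rw [if_pos hs, if_pos (A.mul_mem hb hs), map_mul]
        rfl
      · rw [if_neg hs, if_neg (fun h => hs (by simpa using A.mul_mem (A.inv_mem hb) h))]
        simp
    rw [LinearMap.sum_apply, map_sum]
    simp_rw [key]
    exact Equiv.sum_comp (Equiv.mulLeft b)
      (fun s => (if s ∈ A then ρ s else 0 : Module.End (ZMod 2) E) v)
  have h2 : ∀ x : Module.End (ZMod 2) E, x + x = 0 := by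
    intro x
    have h : (2 : ZMod 2) • x = 0 := by rw [show (2 : ZMod 2) = 0 from rfl, zero_smul]
    rwa [two_smul] at h
  have heH : ∀ K : Subgroup S, eH ρ A p K
      = if IsHyp A p K then ∑ s : S, (if s ∈ K then ρ s else 0) else 0 := by
    intro K
    unfold eH
    by_cases h : IsHyp A p K
    · rw [if_pos h, if_pos h, heK]
    · rw [if_neg h, if_neg h]
  simp_rw [heH]
  rcases hAcard with hc | hc
  · have hH : ∀ K : Subgroup S, IsHyp A p K ↔ K = ⊥ := by
      intro K
      constructor
      · rintro ⟨hKA, hKc⟩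
        rw [hc] at hKc
        have h1 : Nat.card K = 1 :=
          Nat.eq_of_mul_eq_mul_right hp.pos (by rw [hKc, one_mul] : Nat.card K * p = 1 * p)
        exact Subgroup.card_eq_one.mp h1
      · rintro rfl
        exact ⟨bot_le, by rw [Subgroup.card_bot, one_mul, hc]⟩
    simp_rw [hH]
    rw [Finset.sum_ite_eq' Finset.univ (⊥ : Subgroup S), if_pos (Finset.mem_univ _)]
    simp_rw [Subgroup.mem_bot]
    rw [Finset.sum_ite_eq' Finset.univ (1 : S), if_pos (Finset.mem_univ _), map_one]
  · rw [b1a_dc p hp A hAexp hc (fun s => ρ s)]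
    -- the number of hyperplanes is even
    obtain ⟨N, hN⟩ : ∃ N, N = (Finset.univ.filter (fun K : Subgroup S => IsHyp A p K)).card :=
      ⟨_, rfl⟩
    rw [← hN]
    have hcount := b1a_dc p hp A hAexp hc (fun _ : S => (1 : ℕ))
    rw [← hN] at hcount
    have hl : ∑ K : Subgroup S, (if IsHyp A p K then ∑ s : S, (if s ∈ K then 1 else 0) else 0)
        = N * p := by
      have h3 : ∀ K : Subgroup S,
          (if IsHyp A p K then ∑ s : S, (if s ∈ K then 1 else 0) else 0)
          = if IsHyp A p K then p else 0 := by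
        intro K
        by_cases h : IsHyp A p K
        · rw [if_pos h, if_pos h, b1a_card]
          have h4 := h.2
          rw [hc, pow_two] at h4
          exact Nat.eq_of_mul_eq_mul_right hp.pos h4
        · rw [if_neg h, if_neg h]
      simp_rw [h3]
      rw [← Finset.sum_filter, Finset.sum_const, smul_eq_mul, hN]
    have hr : (∑ s : S, (if s ∈ A ∧ s ≠ 1 then 1 else 0)) + 1 = p ^ 2 := by
      have h3 := b1a_split A (fun _ : S => (1 : ℕ))
      rw [b1a_card, hc] at h3
      rw [h3, add_comm]
    rw [hl, smul_eq_mul, mul_one] at hcount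
    have hNev : Even N := by
      obtain ⟨k, hk⟩ : ∃ k, p = 2 * k + 1 := by
        rcases hp.eq_two_or_odd' with h | h
        · exact absurd h hp2
        · exact h
      subst hk
      have hk0 : 0 < k := by
        rcases Nat.eq_zero_or_pos k with h | h
        · subst h
          exact absurd hp (by norm_num)
        · exact h
      have h5 : N * (2 * k) = (2 * k + 2) * (2 * k) := by nlinarith
      have h6 : N = 2 * k + 2 := Nat.eq_of_mul_eq_mul_right (by omega) h5
      exact ⟨k + 1, by omega⟩
    have hN0 : N • (ρ 1 : Module.End (ZMod 2) E) = 0 := by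
      obtain ⟨m, hm⟩ := hNev
      rw [hm, add_smul, h2]
    have hX : ρ 1 + ∑ s : S, (if s ∈ A ∧ s ≠ 1 then ρ s else 0) = 0 := by
      rw [← b1a_split A (fun s => ρ s)]
      exact hT
    rw [hN0, zero_add]
    have h7 := h2 (ρ 1)
    rw [map_one] at h7 hX
    have h8 : ∑ s : S, (if s ∈ A ∧ s ≠ 1 then ρ s else 0) = (1 : Module.End (ZMod 2) E) := by
      have h9 : (1 : Module.End (ZMod 2) E) + ∑ s : S, (if s ∈ A ∧ s ≠ 1 then ρ s else 0)
          = 1 + 1 := by rw [hX, h7]
      exact add_left_cancel h9
    exact h8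

end Cfsg.Agent.Helper70.N14
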