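import Mathlib
import Cfsg.Agent.Helper95.OTSDefs
import Cfsg.Agent.Helper53.TIMODC

set_option autoImplicit false

/-! # S5972 piece MODC (helper70): the multiplicity-free model with a symmetric form. -/

namespace Cfsg.Agent.Helper70.OTS

open Module Polynomial
open Cfsg.Agent.Helper13.TIsp Cfsg.Agent.Helper42.SpGroup Cfsg.Agent.Helper42.SpModels
open Cfsg.Agent.Helper95.OTS
open Cfsg.Agent.Helper42.SpForm Cfsg.Agent.Helper90.BG
open Cfsg.Agent.Helper58.TI5955 Cfsg.Agent.Helper41.TI5955 Cfsg.Agent.Helper3.TI5955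
open Cfsg.Agent.Helper70.TI5955 Cfsg.Agent.Helper53.TI5955

/-- a totally isotropic subspace of a nondegenerate symmetric space, inside a product -/
theorem modc_prod_ti {F : Type*} [Field F] {V₁ : Type*} [AddCommGroup V₁] [Module F V₁]
    {V₂ : Type*} [AddCommGroup V₂] [Module F V₂] [FiniteDimensional F V₁]
    [FiniteDimensional F V₂] (B₁ : LinearMap.BilinForm F V₁) (B₂ : LinearMap.BilinForm F V₂)
    (hsym₂ : ∀ u v, B₂ u v = B₂ v u) (hnd₂ : ∀ v, (∀ w, B₂ v w = 0) → v = 0)
    (W : Submodule F (V₁ × V₂)) (hW : TI (sumForm B₁ B₂) W) (h0 : ∀ w ∈ W, w.1 = 0) :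
    2 * finrank F W ≤ finrank F V₂ := by
  have hinj : Function.Injective ((LinearMap.snd F V₁ V₂).domRestrict W) := by
    intro a b hab
    apply Subtype.ext
    apply Prod.ext
    · rw [h0 _ a.2, h0 _ b.2]
    · exact hab
  have hfr : finrank F (LinearMap.range ((LinearMap.snd F V₁ V₂).domRestrict W)) = finrank F W :=
    LinearMap.finrank_range_of_inj hinj
  rw [← hfr]
  have hTI : ∀ x ∈ LinearMap.range ((LinearMap.snd F V₁ V₂).domRestrict W),
      ∀ y ∈ LinearMap.range ((LinearMap.snd F V₁ V₂).domRestrict W), B₂ x y = 0 := by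
    rintro _ ⟨a, rfl⟩ _ ⟨b, rfl⟩
    have h1 := hW a a.2 b b.2
    rw [sumForm_apply, h0 _ a.2, h0 _ b.2, map_zero, zero_add] at h1
    exact h1
  have hle : LinearMap.range ((LinearMap.snd F V₁ V₂).domRestrict W) ≤
      B₂.orthogonal (LinearMap.range ((LinearMap.snd F V₁ V₂).domRestrict W)) :=
    fun y hy => LinearMap.BilinForm.mem_orthogonal_iff.2 (fun n hn => hTI n hn y hy)
  have hrefl : B₂.IsRefl := fun x y h => by rw [hsym₂]; exact h
  have hker : LinearMap.range ((LinearMap.snd F V₁ V₂).domRestrict W) ⊓ B₂.orthogonal ⊤ = ⊥ := by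
    rw [eq_bot_iff]
    rintro v ⟨-, hv⟩
    rw [Submodule.mem_bot]
    apply hnd₂
    intro w
    rw [hsym₂]
    exact hv w Submodule.mem_top
  have h3 := LinearMap.BilinForm.finrank_add_finrank_orthogonal hrefl
    (LinearMap.range ((LinearMap.snd F V₁ V₂).domRestrict W))
  rw [hker, finrank_bot, add_zero] at h3
  have h4 := Submodule.finrank_mono hle
  omega

/-- the data of the symmetric unitary block -/
theorem modc_blk (F : Type*) [Field F] [Fintype F] (p : ℕ) [Fact p.Prime] [CharP F p] (e : ℕ)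
    [NeZero (2 * e)] (he : 1 ≤ e) (r : ℕ) [Fact r.Prime] (hr2 : 2 < r)
    (hr : r ∣ Fintype.card F ^ e + 1) :
    ∃ (σ : FiniteField.Extension F p (2 * e) ≃ₐ[F] FiniteField.Extension F p (2 * e))
      (ω : FiniteField.Extension F p (2 * e)),
      (∀ x, σ (σ x) = x) ∧ ω ^ r = 1 ∧ ω ≠ 1 ∧ ω * σ ω = 1 := by
  classical
  obtain ⟨σ, c, γ, hσ, hc, hc0, hγ, hord⟩ := exists_unit_data F p e he
  have hγ0 : γ ≠ 0 := by
    intro h
    rw [h] at hγ
    simp at hγ
  obtain ⟨u, hu⟩ : ∃ u : (FiniteField.Extension F p (2 * e))ˣ,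
      (u : FiniteField.Extension F p (2 * e)) = γ := ⟨Units.mk0 γ hγ0, rfl⟩
  have hm : 0 < orderOf u := orderOf_pos u
  have hγm : γ ^ orderOf u = 1 := by
    rw [← hu, ← Units.val_pow_eq_pow_val, pow_orderOf_eq_one, Units.val_one]
  have hrm : r ∣ orderOf u := dvd_trans hr (hord _ hγm)
  have hr1 : 1 < r := by omega
  refine ⟨σ, γ ^ (orderOf u / r), hσ, ?_, ?_, ?_⟩
  · rw [← pow_mul, Nat.div_mul_cancel hrm, hγm]
  · intro h
    have h1 : u ^ (orderOf u / r) = 1 := by
      apply Units.ext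
      rw [Units.val_pow_eq_pow_val, hu, h, Units.val_one]
    have h2 := orderOf_dvd_of_pow_eq_one h1
    have h3 : 0 < orderOf u / r := Nat.div_pos (Nat.le_of_dvd hm hrm) (by omega)
    have h4 := Nat.le_of_dvd h3 h2
    have h5 := Nat.div_lt_self hm hr1
    omega
  · rw [map_pow, ← mul_pow, hγ, one_pow]

/-- PIECE MODC: the multiplicity-free model (port of `Cfsg/Agent/Helper53/TIMODC.lean` with the
SYMMETRIC block form `unitForm F _ σ 1` (`Cfsg.Agent.Helper42.unitForm_symm` in `BCc`; redo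
`blk_even` of `Cfsg/Agent/Helper58/TIBLKE.lean` with `c = 1`, nondegeneracy by `unitForm_nondeg`)
and the dot product `dotForm F (2 * e' + 1)` (`BCc`) on the fixed part; `ti_multfree`, `ti_types`,
`pi_nondeg`, `pi_preserves`, `pi_pow` are form-free; final bound by the symmetric version of
`prod_ti` (`Cfsg/Agent/Helper70/TIGEN.lean`): a TI subspace of a nondegenerate symmetric space of
dimension `2e'+1` has dimension `≤ e'`). -/
theorem omod_c (F : Type*) [Field F] [Fintype F] (p : ℕ) [Fact p.Prime] [CharP F p]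
    (h2 : (2 : F) ≠ 0) (e : ℕ) [NeZero (2 * e)] (he : 1 ≤ e)
    (r : ℕ) [Fact r.Prime] (hr2 : 2 < r) (hrF : (r : F) ≠ 0) (hr : r ∣ Fintype.card F ^ e + 1)
    (hord : orderOf ((Fintype.card F : ℕ) : ZMod r) = 2 * e) (u e' : ℕ) (hu : 1 ≤ u)
    (hut : u ≤ (r - 1) / (2 * e)) :
    ∃ (B : LinearMap.BilinForm F
          ((Fin u → FiniteField.Extension F p (2 * e)) × (Fin (2 * e' + 1) → F)))
      (T : Module.End F ((Fin u → FiniteField.Extension F p (2 * e)) × (Fin (2 * e' + 1) → F))),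
      (∀ x y, B x y = B y x) ∧ (∀ v, (∀ w, B v w = 0) → v = 0) ∧ Preserves B T ∧ T ^ r = 1 ∧
        T ≠ 1 ∧
        ∀ W : Submodule F ((Fin u → FiniteField.Extension F p (2 * e)) × (Fin (2 * e' + 1) → F)),
          TI B W → W.map T ≤ W → finrank F W ≤ e' := by
  obtain ⟨σ, ω, hσ, hωr, hω1, hωσ⟩ := modc_blk F p e he r hr2 hr
  have hnd : ∀ x, (∀ y, unitForm F (FiniteField.Extension F p (2 * e)) σ 1 x y = 0) → x = 0 :=
    fun x hx => unitForm_nondeg F _ σ 1 hσ one_ne_zero x hx
  obtain ⟨s, hs1, hsdeg, hsne⟩ := ti_types (F := F) r hrF ω hωr hω1 u (by rw [hord]; exact hut)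
  refine ⟨sumForm (piForm (Fin u) (unitForm F (FiniteField.Extension F p (2 * e)) σ 1))
      (Cfsg.Agent.Helper42.BC.dotForm F (2 * e' + 1)),
    (piMap (fun j => LinearMap.mulLeft F (ω ^ s j))).prodMap
      (1 : Module.End F (Fin (2 * e' + 1) → F)), ?_, ?_, ?_, ?_, ?_, ?_⟩
  · intro x y
    rw [sumForm_apply, sumForm_apply, piForm_apply, piForm_apply,
      Cfsg.Agent.Helper42.BC.dotForm_symm]
    congr 1
    exact Finset.sum_congr rfl (fun j _ => Cfsg.Agent.Helper42.BC.unitForm_symm F _ σ hσ _ _)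
  · exact sumForm_nondeg _ _ (pi_nondeg _ hnd) (Cfsg.Agent.Helper42.BC.dotForm_nondeg F _)
  · refine preserves_prodMap (pi_preserves _ _ (fun j => preserves_mulLeft F _ σ 1 _ ?_))
      (preserves_one _)
    rw [map_pow, ← mul_pow, hωσ, one_pow]
  · rw [timodc_prodMap_pow, pi_pow, one_pow]
    have h1 : (fun j => LinearMap.mulLeft F (ω ^ s j) ^ r) =
        fun _ : Fin u => (1 : Module.End F (FiniteField.Extension F p (2 * e))) := by
      funext j
      rw [LinearMap.pow_mulLeft, pow_right_comm, hωr, one_pow, LinearMap.mulLeft_one]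
      rfl
    rw [h1, pi_one, LinearMap.prodMap_one]
  · intro h
    have hj := pi_ne_one (fun j => LinearMap.mulLeft F (ω ^ s j)) (⟨0, hu⟩ : Fin u) (by
      intro h1
      have h2 := congrArg (fun f => f (1 : FiniteField.Extension F p (2 * e))) h1
      simp only [LinearMap.mulLeft_apply, mul_one, Module.End.one_apply] at h2
      exact hs1 _ h2)
    apply hj
    apply LinearMap.ext
    intro x
    have h3 := congrArg (fun f => (f (x, (0 : Fin (2 * e' + 1) → F))).1) h
    simpa using h3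
  · intro W hTI hW
    have h0 := ti_multfree (unitForm F (FiniteField.Extension F p (2 * e)) σ 1)
      (Cfsg.Agent.Helper42.BC.dotForm F (2 * e' + 1)) hnd
      (fun j => ω ^ s j) hs1
      (fun j => by rw [hsdeg, hord, FiniteField.finrank_extension]) hsne W hTI hW
    have h2' := modc_prod_ti
      (piForm (Fin u) (unitForm F (FiniteField.Extension F p (2 * e)) σ 1))
      (Cfsg.Agent.Helper42.BC.dotForm F (2 * e' + 1))
      (Cfsg.Agent.Helper42.BC.dotForm_symm F _) (Cfsg.Agent.Helper42.BC.dotForm_nondeg F _) W hTI h0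
    have h3 : finrank F (Fin (2 * e' + 1) → F) = 2 * e' + 1 := by
      rw [Module.finrank_fintype_fun_eq_card, Fintype.card_fin]
    omega

end Cfsg.Agent.Helper70.OTS
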