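import Mathlib
import Cfsg.Agent.Helper70.FrobComp
import Cfsg.Agent.Helper70.Ito
import Cfsg.Agent.Helper70.Schmidt2

set_option autoImplicit false

namespace Cfsg.Agent.Helper70

open Subgroup

section PNilSection

universe u

theorem HasNPC.of_surjective {A B : Type u} [Group A] [Group B] [Finite A] {p : ℕ}
    [hp : Fact p.Prime] (f : A →* B) (hf : Function.Surjective f) (h : HasNPC p A) :
    HasNPC p B := by
  obtain ⟨K, hKn, hKc, k, hKi⟩ := h
  refine ⟨K.map f, hKn.map f hf, Nat.Coprime.coprime_dvd_left (K.card_map_dvd f) hKc, ?_⟩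
  have h2 : (K.map f).index ∣ p ^ k := by rw [← hKi]; exact K.index_map_dvd hf
  obtain ⟨j, -, hj⟩ := (Nat.dvd_prime_pow hp.1).mp h2
  exact ⟨j, hj⟩

theorem hasNPC_of_quotient_of_coprime {G : Type u} [Group G] [Finite G] {p : ℕ}
    [hp : Fact p.Prime] (M : Subgroup G) [M.Normal] (hM : (Nat.card M).Coprime p)
    (h : HasNPC p (G ⧸ M)) : HasNPC p G := by
  obtain ⟨L, hLn, hLc, k, hLi⟩ := h
  have hidx : (L.comap (QuotientGroup.mk' M)).index = L.index :=
    Subgroup.index_comap_of_surjective _ (QuotientGroup.mk'_surjective M)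
  refine ⟨L.comap (QuotientGroup.mk' M), hLn.comap _, ?_, k, ?_⟩
  · have h1 : Nat.card G = Nat.card (G ⧸ M) * Nat.card M :=
      Subgroup.card_eq_card_quotient_mul_card_subgroup M
    have h2 : Nat.card (L.comap (QuotientGroup.mk' M)) * L.index = Nat.card G := by
      rw [← hidx]; exact Subgroup.card_mul_index _
    have h3 : Nat.card L * L.index = Nat.card (G ⧸ M) := Subgroup.card_mul_index L
    have h4 : Nat.card (L.comap (QuotientGroup.mk' M)) = Nat.card L * Nat.card M := by
      have hpos : 0 < L.index := by rw [hLi]; exact pow_pos hp.1.pos k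
      apply Nat.eq_of_mul_eq_mul_right hpos
      rw [h2, h1, ← h3]; ring
    rw [h4]; exact Nat.Coprime.mul_left hLc hM
  · rw [hidx]; exact hLi

theorem exists_orderOf_eq_exponent_of_isPGroup {K : Type u} [Group K] [Finite K] {p : ℕ}
    [hp : Fact p.Prime] (hK : IsPGroup p K) : ∃ k : K, orderOf k = Monoid.exponent K := by
  obtain ⟨k, hk⟩ := Finite.exists_max (fun x : K => orderOf x)
  refine ⟨k, Nat.dvd_antisymm (Monoid.order_dvd_exponent k) ?_⟩
  apply Monoid.exponent_dvd_of_forall_pow_eq_one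
  intro y
  obtain ⟨a, ha⟩ := hK k
  obtain ⟨b, hb⟩ := hK y
  obtain ⟨a', -, ha'⟩ := (Nat.dvd_prime_pow hp.1).mp (orderOf_dvd_of_pow_eq_one ha)
  obtain ⟨b', -, hb'⟩ := (Nat.dvd_prime_pow hp.1).mp (orderOf_dvd_of_pow_eq_one hb)
  have hle : orderOf y ≤ orderOf k := hk y
  rw [ha', hb'] at hle
  have hba : b' ≤ a' := (Nat.pow_le_pow_iff_right hp.1.one_lt).mp hle
  have hdvd : orderOf y ∣ orderOf k := by rw [ha', hb']; exact pow_dvd_pow p hba
  exact orderOf_dvd_iff_pow_eq_one.mp hdvd

/-- A `p'`-element centralizing `M` and acting trivially modulo the `p`-group `M` on `x`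
commutes with `x`. -/
theorem commute_of_chain {G : Type u} [Group G] [Finite G] {p : ℕ} (M : Subgroup G)
    (hM : IsPGroup p M) (g x : G) (hcop : (orderOf g).Coprime p)
    (hgM : ∀ m ∈ M, g * m = m * g) (hx : x⁻¹ * (g * x * g⁻¹) ∈ M) : g * x = x * g := by
  set m := x⁻¹ * (g * x * g⁻¹) with hm
  have hgx : g * x * g⁻¹ = x * m := by rw [hm]; group
  have hgmi : ∀ i : ℕ, g * m ^ i * g⁻¹ = m ^ i := by
    intro i
    have := hgM (m ^ i) (M.pow_mem hx i)
    rw [this]; group
  have key : ∀ i : ℕ, g ^ i * x * (g ^ i)⁻¹ = x * m ^ i := by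
    intro i
    induction i with
    | zero => simp
    | succ i ih =>
      calc g ^ (i + 1) * x * (g ^ (i + 1))⁻¹ = g * (g ^ i * x * (g ^ i)⁻¹) * g⁻¹ := by
            rw [pow_succ']; group
        _ = g * (x * m ^ i) * g⁻¹ := by rw [ih]
        _ = (g * x * g⁻¹) * (g * m ^ i * g⁻¹) := by group
        _ = x * m * m ^ i := by rw [hgx, hgmi]
        _ = x * m ^ (i + 1) := by rw [pow_succ']; group
  have h1 := key (orderOf g)
  rw [pow_orderOf_eq_one] at h1
  have h2 : m ^ orderOf g = 1 := by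
    have : x * m ^ orderOf g = x * 1 := by rw [← h1]; group
    exact mul_left_cancel this
  obtain ⟨a, ha⟩ := hM ⟨m, hx⟩
  have h3 : orderOf m ∣ p ^ a := by
    apply orderOf_dvd_of_pow_eq_one
    have := congrArg Subtype.val ha
    simpa using this
  have h4 := Nat.dvd_gcd (orderOf_dvd_of_pow_eq_one h2) h3
  rw [Nat.Coprime.pow_right a hcop, Nat.dvd_one] at h4
  have hm1 : m = 1 := orderOf_eq_one_iff.mp h4
  rw [hm1, mul_one] at hgx
  calc g * x = (g * x * g⁻¹) * g := by group
    _ = x * g := by rw [hgx]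

theorem commute_of_mem_zpowers {K : Type u} [Group K] {g z z' : K} (hz : z ∈ zpowers g)
    (hz' : z' ∈ zpowers g) : z * z' = z' * z := by
  obtain ⟨i, rfl⟩ := mem_zpowers_iff.mp hz
  obtain ⟨j, rfl⟩ := mem_zpowers_iff.mp hz'
  rw [← zpow_add, ← zpow_add, add_comm]

end PNilSection

section MinSection

universe u

/-- A finite group that is not `p`-nilpotent, but all of whose proper subgroups and proper
quotients are, has no nontrivial normal `p'`-subgroup and no element whose order is the
exponent. -/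
theorem min_section_facts {K : Type u} [Group K] [Finite K] {p : ℕ} [hp : Fact p.Prime]
    (h1 : ¬ HasNPC p K) (h2 : ∀ L : Subgroup K, L ≠ ⊤ → HasNPC p L)
    (h3 : ∀ (M : Subgroup K) [M.Normal], M ≠ ⊥ → HasNPC p (K ⧸ M)) :
    (∀ M : Subgroup K, M.Normal → (Nat.card M).Coprime p → M = ⊥) ∧
    ∀ k : K, orderOf k ≠ Monoid.exponent K := by
  have hC2 : ∀ M : Subgroup K, M.Normal → (Nat.card M).Coprime p → M = ⊥ := by
    intro M hMn hMc
    by_contra hne
    exact h1 (hasNPC_of_quotient_of_coprime M hMc (h3 M hne))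
  refine ⟨hC2, ?_⟩
  have hF : ¬ FrobCond p K := fun hF => h1 hF.hasNPC
  unfold FrobCond at hF
  push Not at hF
  obtain ⟨Q, hQ, g, hg, hcop, hgC⟩ := hF
  have htop := sup_zpowers_eq_top_of_not_mem_centralizer h2 Q hQ g hg hcop hgC
  have hQn : Q.Normal := normal_of_sup_zpowers_eq_top Q g hg htop
  have hidx : Q.index.Coprime p :=
    Nat.Coprime.coprime_dvd_left (index_dvd_orderOf_of_sup_zpowers_eq_top Q g htop) hcop
  have hzord : ∀ z ∈ zpowers g, (orderOf z).Coprime p := by
    intro z hz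
    obtain ⟨i, rfl⟩ := mem_zpowers_iff.mp hz
    exact Nat.Coprime.coprime_dvd_left (orderOf_dvd_of_pow_eq_one
      (by rw [← zpow_natCast, ← zpow_mul, mul_comm, zpow_mul, zpow_natCast, pow_orderOf_eq_one,
        one_zpow])) hcop
  have hpp : ∀ z : K, z ∈ Q → (orderOf z).Coprime p → z = 1 := by
    intro z hzQ hzc
    obtain ⟨a, ha⟩ := hQ ⟨_, hzQ⟩
    have h1' : orderOf z ∣ p ^ a := by
      apply orderOf_dvd_of_pow_eq_one
      have := congrArg Subtype.val ha
      simpa using this
    have h3' := Nat.dvd_gcd dvd_rfl h1'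
    rw [Nat.Coprime.pow_right a hzc, Nat.dvd_one] at h3'
    exact orderOf_eq_one_iff.mp h3'
  have hdecomp : ∀ n : K, ∃ q ∈ Q, ∃ z ∈ zpowers g, n = q * z := by
    intro n
    have hn : n ∈ (↑(Q ⊔ zpowers g) : Set K) := by rw [htop]; trivial
    rw [Subgroup.normal_mul] at hn
    obtain ⟨q, hq, z, hz, hqz⟩ := hn
    exact ⟨q, hq, z, hz, hqz.symm⟩
  have hC3 : ∀ M : Subgroup K, M.Normal → M ≤ Q → M ≠ ⊥ → M = Q := by
    intro M hMn hMQ hMne
    by_contra hMneQ
    have hMp : IsPGroup p M := hQ.to_le hMQ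
    apply hgC
    have hgM : ∀ m ∈ M, g * m = m * g := by
      have hne : M ⊔ zpowers g ≠ ⊤ := by
        intro hN
        apply hMneQ
        apply le_antisymm hMQ
        intro x hx
        have hx' : x ∈ (↑(M ⊔ zpowers g) : Set K) := by rw [hN]; trivial
        rw [Subgroup.normal_mul] at hx'
        obtain ⟨d, hd, z, hz, hdz⟩ := hx'
        have hdz' : d * z = x := hdz
        have hzQ : z ∈ Q := by
          have : z = d⁻¹ * x := by rw [← hdz']; group
          rw [this]; exact Q.mul_mem (Q.inv_mem (hMQ hd)) hx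
        have hz1 := hpp z hzQ (hzord z hz)
        rw [← hdz', hz1, mul_one]; exact hd
      have hF' := (h2 _ hne).frobCond
      have hgm : g ∈ M ⊔ zpowers g := (le_sup_right : zpowers g ≤ M ⊔ zpowers g) (mem_zpowers g)
      have hmem := hF' (M.subgroupOf (M ⊔ zpowers g)) hMp.comap_subtype ⟨g, hgm⟩
        (by
          rw [Subgroup.mem_normalizer_iff]
          intro y
          rw [Subgroup.mem_subgroupOf, Subgroup.mem_subgroupOf]
          constructor
          · intro hy; exact hMn.conj_mem _ hy g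
          · intro hy
            have := hMn.conj_mem _ hy g⁻¹
            simpa [mul_assoc] using this)
        (by rw [Subgroup.orderOf_mk]; exact hcop)
      rw [Subgroup.mem_centralizer_iff] at hmem
      intro m hm
      have := hmem ⟨m, (le_sup_left : M ≤ M ⊔ zpowers g) hm⟩ (Subgroup.mem_subgroupOf.mpr hm)
      exact (congrArg Subtype.val this).symm
    have hgQM : ∀ x ∈ Q, x⁻¹ * (g * x * g⁻¹) ∈ M := by
      have hF' := (h3 M hMne).frobCond
      have hmem := hF' (Q.map (QuotientGroup.mk' M)) (hQ.map _) (QuotientGroup.mk' M g)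
        (by
          have hnn : (Q.map (QuotientGroup.mk' M)).Normal :=
            hQn.map _ (QuotientGroup.mk'_surjective M)
          have := Subgroup.normalizer_eq_top (H := Q.map (QuotientGroup.mk' M))
          rw [this]; trivial)
        (Nat.Coprime.coprime_dvd_left (orderOf_map_dvd _ g) hcop)
      rw [Subgroup.mem_centralizer_iff] at hmem
      intro x hx
      have := hmem (QuotientGroup.mk' M x) ⟨x, hx, rfl⟩
      rw [← map_mul, ← map_mul] at this
      have h5 : (x * g)⁻¹ * (g * x) ∈ M := QuotientGroup.eq.mp this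
      have h6 : x⁻¹ * (g * x * g⁻¹) = g * ((x * g)⁻¹ * (g * x)) * g⁻¹ := by group
      rw [h6]; exact hMn.conj_mem _ h5 g
    rw [Subgroup.mem_centralizer_iff]
    intro x hx
    exact (commute_of_chain M hMp g x hcop hgM (hgQM x hx)).symm
  have hQne : Q ≠ ⊥ := by
    intro hQb
    apply hgC
    rw [hQb, Subgroup.mem_centralizer_iff]
    intro x hx
    have : x = 1 := hx
    rw [this]; simp
  have hQab : ∀ x ∈ Q, ∀ y ∈ Q, x * y = y * x := by
    have hcomm : ⁅Q, Q⁆ = ⊥ := by
      by_contra hne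
      have hnorm : (⁅Q, Q⁆).Normal := inferInstance
      have := hC3 ⁅Q, Q⁆ hnorm (Subgroup.commutator_le_self Q) hne
      have htop' : commutator Q = ⊤ := by
        rw [← Subgroup.map_subtype_inj, Subgroup.map_subtype_commutator, ← MonoidHom.range_eq_map,
          Subgroup.range_subtype]
        exact this
      have : Nontrivial Q := (Subgroup.nontrivial_iff_ne_bot _).mpr hQne
      have : Group.IsNilpotent Q := hQ.isNilpotent
      exact (Group.IsSolvable.commutator_lt_top_of_nontrivial Q).ne htop'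
    rw [Subgroup.commutator_eq_bot_iff_le_centralizer] at hcomm
    intro x hx y hy
    have := hcomm hx
    rw [Subgroup.mem_centralizer_iff] at this
    exact (this y hy).symm
  intro k hk
  have hE0 : Monoid.exponent K ≠ 0 := Monoid.exponent_ne_zero_of_finite
  -- `p` divides the exponent
  have hpE : p ∣ Monoid.exponent K := by
    have hpQ : p ∣ Nat.card Q := by
      obtain ⟨a, ha⟩ := IsPGroup.iff_card.mp hQ
      have ha0 : a ≠ 0 := by
        intro h0
        rw [h0, pow_zero] at ha
        exact hQne (Subgroup.card_eq_one.mp ha)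
      rw [ha]; exact dvd_pow_self p ha0
    obtain ⟨x, hx⟩ := exists_prime_orderOf_dvd_card' p
      (dvd_trans hpQ (Subgroup.card_subgroup_dvd_card Q))
    rw [← hx]; exact Monoid.order_dvd_exponent x
  have hg1 : orderOf g ≠ 1 := by
    intro h
    rw [orderOf_eq_one_iff] at h
    apply hgC
    rw [h]; exact one_mem _
  obtain ⟨r, hr, hrg⟩ := Nat.exists_prime_and_dvd hg1
  have hrp : r ≠ p := by
    intro h
    rw [h] at hrg
    exact (Nat.Prime.coprime_iff_not_dvd hp.1).mp hcop.symm hrg
  have hrE : r ∣ Monoid.exponent K := dvd_trans hrg (Monoid.order_dvd_exponent g)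
  -- the two powers of `k`
  have hx₀ : orderOf (k ^ (Monoid.exponent K / p)) = p := by
    rw [orderOf_pow_of_dvd, hk, Nat.div_div_self hpE hE0]
    · intro h0
      exact hE0 (Nat.eq_zero_of_dvd_of_div_eq_zero hpE h0)
    · rw [hk]; exact Nat.div_dvd_of_dvd hpE
  have hy₀ : orderOf (k ^ (Monoid.exponent K / r)) = r := by
    rw [orderOf_pow_of_dvd, hk, Nat.div_div_self hrE hE0]
    · intro h0
      exact hE0 (Nat.eq_zero_of_dvd_of_div_eq_zero hrE h0)
    · rw [hk]; exact Nat.div_dvd_of_dvd hrE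
  set x₀ := k ^ (Monoid.exponent K / p) with hx₀def
  set y₀ := k ^ (Monoid.exponent K / r) with hy₀def
  have hxy : x₀ * y₀ = y₀ * x₀ := by
    rw [hx₀def, hy₀def, ← pow_add, ← pow_add, add_comm]
  have hx₀Q : x₀ ∈ Q := by
    obtain ⟨S⟩ : Nonempty (Sylow p K) := inferInstance
    have hSQ := sylow_eq_of_normal_of_coprime_index Q hQ hidx S
    rw [← hSQ]
    apply mem_sylow_of_pow_eq_one_of_normal S (by rw [hSQ]; exact hQn) x₀ 1
    rw [pow_one, ← hx₀]; exact pow_orderOf_eq_one x₀
  have hx₀1 : x₀ ≠ 1 := by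
    intro h
    rw [h, orderOf_one] at hx₀
    exact hp.1.one_lt.ne hx₀
  obtain ⟨q, hq, z, hz, hyqz⟩ := hdecomp y₀
  have hx₀z : z * x₀ = x₀ * z := by
    have h5 : x₀ * (q * z) = q * z * x₀ := by rw [← hyqz]; exact hxy
    have h6 : x₀ * q = q * x₀ := hQab x₀ hx₀Q q hq
    have h7 : q * (x₀ * z) = q * (z * x₀) := by
      calc q * (x₀ * z) = (q * x₀) * z := by group
        _ = (x₀ * q) * z := by rw [h6]
        _ = x₀ * (q * z) := by group
        _ = q * z * x₀ := h5
        _ = q * (z * x₀) := by group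
    exact (mul_left_cancel h7).symm
  -- the centralizer of `z` in `Q` is normal
  let Z : Subgroup K := Q ⊓ centralizer ({z} : Set K)
  have hZmem : ∀ t : K, t ∈ Z ↔ t ∈ Q ∧ z * t = t * z := by
    intro t
    show t ∈ Q ∧ t ∈ centralizer ({z} : Set K) ↔ _
    rw [Subgroup.mem_centralizer_iff]
    simp
  have hZn : Z.Normal := by
    constructor
    intro t ht n
    rw [hZmem] at ht ⊢
    obtain ⟨htQ, htz⟩ := ht
    refine ⟨hQn.conj_mem t htQ n, ?_⟩
    obtain ⟨q', hq', z', hz', rfl⟩ := hdecomp n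
    have hzz' : z * z' = z' * z := commute_of_mem_zpowers hz hz'
    have hconjQ : z' * t * z'⁻¹ ∈ Q := hQn.conj_mem t htQ z'
    have h8 : q' * z' * t * (q' * z')⁻¹ = z' * t * z'⁻¹ := by
      have h9 := hQab q' hq' (z' * t * z'⁻¹) hconjQ
      calc q' * z' * t * (q' * z')⁻¹ = (q' * (z' * t * z'⁻¹)) * q'⁻¹ := by group
        _ = ((z' * t * z'⁻¹) * q') * q'⁻¹ := by rw [h9]
        _ = z' * t * z'⁻¹ := by group
    rw [h8]
    calc z * (z' * t * z'⁻¹) = (z * z') * t * z'⁻¹ := by group
      _ = (z' * z) * t * z'⁻¹ := by rw [hzz']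
      _ = z' * (z * t) * z'⁻¹ := by group
      _ = z' * (t * z) * z'⁻¹ := by rw [htz]
      _ = z' * t * (z * z'⁻¹) := by group
      _ = z' * t * (z'⁻¹ * z) := by
          rw [commute_of_mem_zpowers hz ((zpowers g).inv_mem hz')]
      _ = z' * t * z'⁻¹ * z := by group
  have hZQ : Z = Q := by
    apply hC3 Z hZn inf_le_left
    intro hZb
    have : x₀ ∈ Z := (hZmem x₀).mpr ⟨hx₀Q, hx₀z⟩
    rw [hZb] at this
    exact hx₀1 this
  have hzQ : ∀ x ∈ Q, z * x = x * z := by
    intro x hx
    have : x ∈ Z := by rw [hZQ]; exact hx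
    exact ((hZmem x).mp this).2
  -- `⟨z⟩` is a normal `p'`-subgroup
  have hzn : (zpowers z).Normal := by
    constructor
    intro w hw n
    obtain ⟨i, rfl⟩ := mem_zpowers_iff.mp hw
    obtain ⟨q', hq', z', hz', rfl⟩ := hdecomp n
    have hzz' : z * z' = z' * z := commute_of_mem_zpowers hz hz'
    have h10 : q' * z' * z * (q' * z')⁻¹ = z := by
      have h11 := hzQ q' hq'
      calc q' * z' * z * (q' * z')⁻¹ = q' * (z' * z) * z'⁻¹ * q'⁻¹ := by group
        _ = q' * (z * z') * z'⁻¹ * q'⁻¹ := by rw [hzz']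
        _ = (q' * z) * q'⁻¹ := by group
        _ = (z * q') * q'⁻¹ := by rw [h11]
        _ = z := by group
    have h12 : q' * z' * z ^ i * (q' * z')⁻¹ = z ^ i := by
      rw [← conj_zpow, h10]
    rw [h12]
    exact Subgroup.zpow_mem _ (mem_zpowers z) i
  have hz1 : z = 1 := by
    have := hC2 (zpowers z) hzn (by rw [Nat.card_zpowers]; exact hzord z hz)
    exact zpowers_eq_bot.mp this
  have hy₀Q : y₀ ∈ Q := by rw [hyqz, hz1, mul_one]; exact hq
  have hy₀1 : y₀ = 1 := by
    apply hpp y₀ hy₀Q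
    rw [hy₀]
    exact (Nat.coprime_primes hr hp.1).mpr hrp
  rw [hy₀1, orderOf_one] at hy₀
  exact hr.one_lt.ne hy₀

end MinSection

section ExistsMinSection

universe u

/-- A finite group without normal `p`-complement has a section that is not `p`-nilpotent
while all proper subgroups and proper quotients of the section are. -/
theorem exists_min_section {G : Type u} [Group G] [Finite G] {p : ℕ} [hp : Fact p.Prime]
    (h : ¬ HasNPC p G) :
    ∃ (H : Subgroup G) (N : Subgroup H) (_ : N.Normal), ¬ HasNPC p (H ⧸ N) ∧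
      (∀ L : Subgroup (H ⧸ N), L ≠ ⊤ → HasNPC p L) ∧
      (∀ (M : Subgroup (H ⧸ N)) [M.Normal], M ≠ ⊥ → HasNPC p ((H ⧸ N) ⧸ M)) := by
  classical
  have hexA : ∃ n : ℕ, ∃ H : Subgroup G, ¬ HasNPC p H ∧ Nat.card H = n := by
    refine ⟨_, ⊤, ?_, rfl⟩
    intro hT
    exact h (HasNPC.of_surjective (Subgroup.topEquiv : (⊤ : Subgroup G) ≃* G).toMonoidHom
      Subgroup.topEquiv.surjective hT)
  obtain ⟨H, hH, hHn⟩ := Nat.find_spec hexA
  have hHmin : ∀ L : Subgroup H, L ≠ ⊤ → HasNPC p L := by
    intro L hL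
    by_contra hcon
    have hlt : Nat.card (L.map H.subtype) < Nat.find hexA := by
      rw [← hHn, Subgroup.card_map_of_injective (Subgroup.subtype_injective H)]
      exact lt_of_le_of_ne (Subgroup.card_le_card_group L)
        (fun heq => hL (Subgroup.eq_top_of_card_eq L heq))
    apply Nat.find_min hexA hlt
    refine ⟨L.map H.subtype, ?_, rfl⟩
    intro hT
    apply hcon
    exact HasNPC.of_surjective
      (L.equivMapOfInjective H.subtype (Subgroup.subtype_injective H)).symm.toMonoidHom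
      (MulEquiv.surjective _) hT
  have hexB : ∃ n : ℕ, ∃ N : Subgroup H, ∃ _ : N.Normal,
      ¬ HasNPC p (H ⧸ N) ∧ Nat.card (H ⧸ N) = n := by
    refine ⟨_, ⊥, inferInstance, ?_, rfl⟩
    intro hT
    exact hH (HasNPC.of_surjective
      (QuotientGroup.quotientBot : H ⧸ (⊥ : Subgroup H) ≃* H).toMonoidHom
      (MulEquiv.surjective _) hT)
  obtain ⟨N, hNn, hN, hNc⟩ := Nat.find_spec hexB
  refine ⟨H, N, hNn, hN, ?_, ?_⟩
  · intro L hL
    have hcomap : L.comap (QuotientGroup.mk' N) ≠ ⊤ := by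
      intro htop
      apply hL
      rw [eq_top_iff]
      intro x _
      obtain ⟨a, rfl⟩ := QuotientGroup.mk'_surjective N x
      have : a ∈ L.comap (QuotientGroup.mk' N) := by rw [htop]; trivial
      exact this
    have h1 := hHmin _ hcomap
    apply HasNPC.of_surjective ((QuotientGroup.mk' N).subgroupComap L) _ h1
    rintro ⟨y, hy⟩
    obtain ⟨a, rfl⟩ := QuotientGroup.mk'_surjective N y
    exact ⟨⟨a, hy⟩, rfl⟩
  · intro M hMn hM
    by_contra hcon
    have hM'n : (M.comap (QuotientGroup.mk' N)).Normal := inferInstance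
    have hφ : Function.Surjective
        (QuotientGroup.map (M.comap (QuotientGroup.mk' N)) M (QuotientGroup.mk' N) le_rfl) := by
      intro y
      obtain ⟨x, rfl⟩ := QuotientGroup.mk'_surjective M y
      obtain ⟨a, rfl⟩ := QuotientGroup.mk'_surjective N x
      exact ⟨QuotientGroup.mk' (M.comap (QuotientGroup.mk' N)) a, rfl⟩
    have hnot : ¬ HasNPC p (H ⧸ M.comap (QuotientGroup.mk' N)) :=
      fun hT => hcon (HasNPC.of_surjective _ hφ hT)
    have hlt : Nat.card (H ⧸ M.comap (QuotientGroup.mk' N)) < Nat.find hexB := by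
      rw [← hNc, ← Subgroup.index_eq_card,
        Subgroup.index_comap_of_surjective _ (QuotientGroup.mk'_surjective N)]
      have h1 : Nat.card M * M.index = Nat.card (H ⧸ N) := Subgroup.card_mul_index M
      have h2 : 1 < Nat.card M := by
        rw [Finite.one_lt_card_iff_nontrivial]; exact (Subgroup.nontrivial_iff_ne_bot _).mpr hM
      have h3 : 0 < M.index := Nat.pos_of_ne_zero Subgroup.index_ne_zero_of_finite
      rw [← h1]
      nlinarith
    exact Nat.find_min hexB hlt ⟨M.comap (QuotientGroup.mk' N), hM'n, hnot, rfl⟩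

end ExistsMinSection

end Cfsg.Agent.Helper70
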