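import Mathlib
import Cfsg.Agent.Helper2.PGroup
import Cfsg.Agent.Helper47.Coprime

/-!
# Frattini index of finite `2`-groups: subadditivity lemmas

`fi P := (frattini P).index`.  For finite `2`-groups:
* `frattini_le_of_sq_mem`: a normal subgroup containing all squares contains the Frattini subgroup;
* `fi_le_index_mul`: `fi P ≤ [P : H] * fi H`;
* `fi_le_mul_quot`: `fi P ≤ fi K * fi (P ⧸ K)`;
* `fi_le_two_of_isCyclic`, `fi_le_four_of_inj`, `fi_le_eight`.
-/

set_option autoImplicit false

namespace Cfsg.Agent.Helper70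

open Subgroup

/-- A normal subgroup containing all squares contains the Frattini subgroup. -/
theorem frattini_le_of_sq_mem {Q : Type*} [Group Q] [Finite Q] (N : Subgroup Q) [N.Normal]
    (h : ∀ x : Q, x * x ∈ N) : frattini Q ≤ N := by
  have hsq : ∀ a : Q ⧸ N, a * a = 1 := by
    intro a
    obtain ⟨x, rfl⟩ := QuotientGroup.mk_surjective a
    rw [← QuotientGroup.mk_mul, QuotientGroup.eq_one_iff]
    exact h x
  have hc : ∀ a b : Q ⧸ N, a * b = b * a := by
    intro a b
    have inv_eq : ∀ x : Q ⧸ N, x⁻¹ = x := fun x => inv_eq_of_mul_eq_one_left (hsq x)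
    calc a * b = (a * b)⁻¹ := (inv_eq (a * b)).symm
      _ = b⁻¹ * a⁻¹ := mul_inv_rev a b
      _ = b * a := by rw [inv_eq, inv_eq]
  let _inst : CommGroup (Q ⧸ N) :=
    { (inferInstance : Group (Q ⧸ N)) with mul_comm := hc }
  have : Fact (Nat.Prime 2) := ⟨Nat.prime_two⟩
  have key := Cfsg.Agent.Helper47.frattini_le_ker 2 (QuotientGroup.mk' N) (fun x => by
    rw [pow_two]; exact hsq _)
  rwa [QuotientGroup.ker_mk'] at key

/-- Squares lie in the Frattini subgroup of a finite `2`-group. -/
theorem sq_mem_frattini_two {P : Type*} [Group P] [Finite P] (hP : IsPGroup 2 P) (x : P) :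
    x * x ∈ frattini P := by
  have : Fact (Nat.Prime 2) := ⟨Nat.prime_two⟩
  have := Cfsg.Agent.Helper2.pow_mem_frattini_of_isPGroup hP x
  rwa [pow_two] at this

/-- `Φ(H) ≤ Φ(P) ∩ H` for a subgroup `H` of a finite `2`-group. -/
theorem frattini_le_subgroupOf {P : Type*} [Group P] [Finite P] (hP : IsPGroup 2 P)
    (H : Subgroup P) : frattini H ≤ (frattini P).subgroupOf H := by
  apply frattini_le_of_sq_mem
  intro x
  rw [mem_subgroupOf]
  exact sq_mem_frattini_two hP (x : P)

/-- `[P : Φ(P)] ≤ [P : H] [H : Φ(H)]` for a subgroup `H` of a finite `2`-group. -/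
theorem fi_le_index_mul {P : Type*} [Group P] [Finite P] (hP : IsPGroup 2 P) (H : Subgroup P) :
    (frattini P).index ≤ H.index * (frattini H).index := by
  have h1 := frattini_le_subgroupOf hP H
  have h2 : (frattini P).relIndex (H ⊔ frattini P) * (H ⊔ frattini P).index =
      (frattini P).index := relIndex_mul_index le_sup_right
  have h3 : (frattini P).relIndex (H ⊔ frattini P) = (frattini P).relIndex H :=
    relIndex_sup_right H (frattini P)
  have h4 : (frattini P).relIndex H ≤ (frattini H).index :=
    Nat.le_of_dvd (Nat.pos_of_ne_zero Subgroup.index_ne_zero_of_finite) (index_dvd_of_le h1)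
  have h5 : (H ⊔ frattini P).index ≤ H.index :=
    Nat.le_of_dvd (Nat.pos_of_ne_zero Subgroup.index_ne_zero_of_finite)
      (index_dvd_of_le le_sup_left)
  rw [← h2, h3, mul_comm]
  exact Nat.mul_le_mul h5 h4

/-- `[P : Φ(P)] ≤ [K : Φ(K)] [P/K : Φ(P/K)]` for a normal subgroup `K` of a finite `2`-group. -/
theorem fi_le_mul_quot {P : Type*} [Group P] [Finite P] (hP : IsPGroup 2 P) (K : Subgroup P)
    [K.Normal] : (frattini P).index ≤ (frattini K).index * (frattini (P ⧸ K)).index := by
  have h1 := frattini_le_subgroupOf hP K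
  have h2 : (frattini P).relIndex (K ⊔ frattini P) * (K ⊔ frattini P).index =
      (frattini P).index := relIndex_mul_index le_sup_right
  have h3 : (frattini P).relIndex (K ⊔ frattini P) = (frattini P).relIndex K :=
    relIndex_sup_right K (frattini P)
  have h4 : (frattini P).relIndex K ≤ (frattini K).index :=
    Nat.le_of_dvd (Nat.pos_of_ne_zero Subgroup.index_ne_zero_of_finite) (index_dvd_of_le h1)
  have hn : ((K ⊔ frattini P).map (QuotientGroup.mk' K)).Normal :=
    Subgroup.Normal.map inferInstance _ (QuotientGroup.mk'_surjective K)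
  have h6 : frattini (P ⧸ K) ≤ (K ⊔ frattini P).map (QuotientGroup.mk' K) := by
    apply frattini_le_of_sq_mem
    intro y
    obtain ⟨x, rfl⟩ := QuotientGroup.mk_surjective y
    exact ⟨x * x, le_sup_right (a := K) (sq_mem_frattini_two hP x), by simp⟩
  have h7 : ((K ⊔ frattini P).map (QuotientGroup.mk' K)).index = (K ⊔ frattini P).index := by
    rw [index_map, QuotientGroup.ker_mk',
      MonoidHom.range_eq_top.mpr (QuotientGroup.mk'_surjective K), index_top, mul_one]
    congr 1
    rw [sup_comm K, sup_assoc, sup_idem]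
  have h5 : (K ⊔ frattini P).index ≤ (frattini (P ⧸ K)).index := by
    rw [← h7]
    exact Nat.le_of_dvd (Nat.pos_of_ne_zero Subgroup.index_ne_zero_of_finite) (index_dvd_of_le h6)
  rw [← h2, h3]
  exact Nat.mul_le_mul h4 h5

/-- A cyclic finite `2`-group has Frattini index at most `2`. -/
theorem fi_le_two_of_isCyclic {P : Type*} [Group P] [Finite P] (hP : IsPGroup 2 P)
    [IsCyclic P] : (frattini P).index ≤ 2 := by
  have : (frattini P).Normal := inferInstance
  rw [index_eq_card]
  have hcyc : IsCyclic (P ⧸ frattini P) :=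
    isCyclic_of_surjective (QuotientGroup.mk' (frattini P)) (QuotientGroup.mk'_surjective _)
  rw [← IsCyclic.exponent_eq_card]
  apply Nat.le_of_dvd (by norm_num)
  apply Monoid.exponent_dvd_of_forall_pow_eq_one
  intro a
  obtain ⟨x, rfl⟩ := QuotientGroup.mk_surjective a
  rw [← QuotientGroup.mk_pow, QuotientGroup.eq_one_iff, pow_two]
  exact sq_mem_frattini_two hP x

/-- A finite `2`-group of order at most `2` has Frattini index at most `2`. -/
theorem fi_le_card {P : Type*} [Group P] [Finite P] : (frattini P).index ≤ Nat.card P :=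
  Nat.le_of_dvd Nat.card_pos (index_dvd_card _)

/-- A finite `2`-group embedded in a commutative group with a cyclic subgroup of index at most
`2` has Frattini index at most `4`. -/
theorem fi_le_four_of_inj {Q : Type*} [Group Q] [Finite Q] (hQ : IsPGroup 2 Q) {U : Type*}
    [CommGroup U] (j : Q →* U) (hj : Function.Injective j) (C : Subgroup U) [IsCyclic C]
    (hC : C.index ≤ 2) (hC0 : C.index ≠ 0) : (frattini Q).index ≤ 4 := by
  have hK : (C.comap j).Normal := inferInstance
  have hcyc : IsCyclic (C.comap j) := by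
    apply isCyclic_of_injective (j.subgroupComap C)
    intro a b hab
    apply Subtype.ext
    apply hj
    exact congrArg Subtype.val hab
  have h1 := fi_le_mul_quot hQ (C.comap j)
  have h2 : (frattini (C.comap j)).index ≤ 2 := fi_le_two_of_isCyclic (hQ.to_subgroup _)
  have h3 : (frattini (Q ⧸ C.comap j)).index ≤ 2 := by
    refine le_trans fi_le_card ?_
    rw [← index_eq_card, index_comap]
    exact le_trans (Nat.le_of_dvd (Nat.pos_of_ne_zero hC0) (relIndex_dvd_index_of_normal C _)) hC
  calc (frattini Q).index ≤ (frattini (C.comap j)).index * (frattini (Q ⧸ C.comap j)).index := h1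
    _ ≤ 2 * 2 := Nat.mul_le_mul h2 h3
    _ = 4 := by norm_num

/-- A finite `2`-group with a homomorphism with cyclic kernel into a commutative group with a
cyclic subgroup of index at most `2` has Frattini index at most `8`. -/
theorem fi_le_eight {P : Type*} [Group P] [Finite P] (hP : IsPGroup 2 P) {U : Type*}
    [CommGroup U] (f : P →* U) (C : Subgroup U) [IsCyclic C]
    (hC : C.index ≤ 2) (hC0 : C.index ≠ 0) (hker : IsCyclic f.ker) : (frattini P).index ≤ 8 := by
  have h1 := fi_le_mul_quot hP f.ker
  have h2 : (frattini f.ker).index ≤ 2 := fi_le_two_of_isCyclic (hP.to_subgroup _)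
  have h3 : (frattini (P ⧸ f.ker)).index ≤ 4 :=
    fi_le_four_of_inj (hP.to_quotient _) (QuotientGroup.kerLift f)
      (QuotientGroup.kerLift_injective f) C hC hC0
  calc (frattini P).index ≤ (frattini f.ker).index * (frattini (P ⧸ f.ker)).index := h1
    _ ≤ 2 * 4 := Nat.mul_le_mul h2 h3
    _ = 8 := by norm_num

/-- The unit group of `ZMod (2 ^ m)` has a cyclic subgroup of index at most `2`. -/
theorem exists_cyclic_index_le_two (N : ℕ) (h : ∃ m, N = 2 ^ m) :
    ∃ C : Subgroup (ZMod N)ˣ, IsCyclic C ∧ C.index ≤ 2 ∧ C.index ≠ 0 := by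
  obtain ⟨m, rfl⟩ := h
  have hne : NeZero (2 ^ m) := ⟨by positivity⟩
  have hcard : Nat.card (ZMod (2 ^ m))ˣ = (2 ^ m).totient := by
    rw [Nat.card_eq_fintype_card, ZMod.card_units_eq_totient]
  rcases Nat.lt_or_ge m 2 with hm | hm
  · refine ⟨⊥, inferInstance, ?_, Subgroup.index_ne_zero_of_finite⟩
    rw [index_bot, hcard]
    interval_cases m <;> simp
  · obtain ⟨n, rfl⟩ : ∃ n, m = n + 2 := ⟨m - 2, by omega⟩
    have hcop : Nat.Coprime 5 (2 ^ (n + 2)) := Nat.Coprime.pow_right _ (by norm_num)
    let u : (ZMod (2 ^ (n + 2)))ˣ := ZMod.unitOfCoprime 5 hcop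
    have hu : orderOf u = 2 ^ n := by
      rw [← orderOf_units, ZMod.coe_unitOfCoprime]
      have := ZMod.orderOf_five n
      exact_mod_cast this
    refine ⟨zpowers u, inferInstance, ?_, Subgroup.index_ne_zero_of_finite⟩
    have h1 := card_mul_index (zpowers u)
    rw [Nat.card_zpowers, hu, hcard, Nat.totient_prime_pow Nat.prime_two (by omega)] at h1
    have h2 : 2 ^ (n + 2 - 1) * (2 - 1) = 2 ^ n * 2 := by
      have : n + 2 - 1 = n + 1 := by omega
      rw [this, pow_succ]; norm_num
    rw [h2] at h1
    exact le_of_eq (Nat.eq_of_mul_eq_mul_left (by positivity) h1)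

end Cfsg.Agent.Helper70
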