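import Mathlib
import Cfsg.Agent.Helper70.TwoGenA

/-!
# Actions of finite `2`-groups on abelian groups of odd order: basic tools

An action is a monoid homomorphism `ρ : P →* AddMonoid.End V`.  We provide the restriction to an
invariant subgroup (`resHom`), the induced action on the quotient (`quotHom`), the stability
lemma (`stab_trivial`) and the bookkeeping predicates `TT`, `Good` used in the induction bounding
the Frattini index of a `2`-group acting faithfully on a group of order `r ^ n`.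
-/

set_option autoImplicit false

namespace Cfsg.Agent.Helper70

universe u v

section Basic

variable {P : Type*} [Group P] {V : Type*} [AddCommGroup V]

/-- View an endomorphism as an additive homomorphism. -/
def endHom (f : AddMonoid.End V) : V →+ V := f

@[simp] theorem endHom_apply (f : AddMonoid.End V) (v : V) : endHom f v = f v := rfl

theorem rho_mul_apply (ρ : P →* AddMonoid.End V) (g h : P) (v : V) :
    ρ (g * h) v = ρ g (ρ h v) := by
  rw [map_mul]; rfl

theorem rho_one_apply (ρ : P →* AddMonoid.End V) (v : V) : ρ 1 v = v := by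
  rw [map_one]; rfl

theorem rho_inv_apply (ρ : P →* AddMonoid.End V) (g : P) (v : V) : ρ g⁻¹ (ρ g v) = v := by
  rw [← rho_mul_apply, inv_mul_cancel, rho_one_apply]

theorem rho_apply_inv (ρ : P →* AddMonoid.End V) (g : P) (v : V) : ρ g (ρ g⁻¹ v) = v := by
  rw [← rho_mul_apply, mul_inv_cancel, rho_one_apply]

theorem rho_injective (ρ : P →* AddMonoid.End V) (g : P) : Function.Injective (ρ g) := by
  intro a b hab
  have := congrArg (ρ g⁻¹) hab
  rwa [rho_inv_apply, rho_inv_apply] at this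

theorem rho_eq_one_of_forall (ρ : P →* AddMonoid.End V) (hinj : Function.Injective ρ) (g : P)
    (h : ∀ v, ρ g v = v) : g = 1 := by
  apply hinj
  rw [map_one]
  ext v
  exact h v

/-- Restriction of an action to an invariant subgroup. -/
def resHom (ρ : P →* AddMonoid.End V) (W : AddSubgroup V) (hW : ∀ g, ∀ w ∈ W, ρ g w ∈ W) :
    P →* AddMonoid.End W where
  toFun g := ((endHom (ρ g)).comp W.subtype).codRestrict W (fun w => hW g w w.2)
  map_one' := by
    ext w
    show ρ 1 (w : V) = w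
    rw [rho_one_apply]
  map_mul' g h := by
    ext w
    show ρ (g * h) (w : V) = ρ g (ρ h (w : V))
    rw [rho_mul_apply]

theorem resHom_apply (ρ : P →* AddMonoid.End V) (W : AddSubgroup V)
    (hW : ∀ g, ∀ w ∈ W, ρ g w ∈ W) (g : P) (w : W) : ((resHom ρ W hW g) w : V) = ρ g w := rfl

theorem le_comap_endHom (ρ : P →* AddMonoid.End V) (W : AddSubgroup V)
    (hW : ∀ g, ∀ w ∈ W, ρ g w ∈ W) (g : P) : W ≤ AddSubgroup.comap (endHom (ρ g)) W :=
  fun w hw => hW g w hw

/-- The induced action on the quotient by an invariant subgroup. -/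
def quotHom (ρ : P →* AddMonoid.End V) (W : AddSubgroup V) (hW : ∀ g, ∀ w ∈ W, ρ g w ∈ W) :
    P →* AddMonoid.End (V ⧸ W) where
  toFun g := QuotientAddGroup.map W W (endHom (ρ g)) (le_comap_endHom ρ W hW g)
  map_one' := by
    ext x
    induction x using QuotientAddGroup.induction_on with
    | _ z =>
      show QuotientAddGroup.map W W (endHom (ρ 1)) (le_comap_endHom ρ W hW _) (z : V ⧸ W) =
        (z : V ⧸ W)
      rw [QuotientAddGroup.map_mk, endHom_apply, rho_one_apply]
  map_mul' g h := by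
    ext x
    induction x using QuotientAddGroup.induction_on with
    | _ z =>
      show QuotientAddGroup.map W W (endHom (ρ (g * h))) (le_comap_endHom ρ W hW _) (z : V ⧸ W) =
        QuotientAddGroup.map W W (endHom (ρ g)) (le_comap_endHom ρ W hW _)
          (QuotientAddGroup.map W W (endHom (ρ h)) (le_comap_endHom ρ W hW _) (z : V ⧸ W))
      rw [QuotientAddGroup.map_mk, QuotientAddGroup.map_mk, QuotientAddGroup.map_mk,
        endHom_apply, endHom_apply, endHom_apply, rho_mul_apply]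

theorem quotHom_apply_mk (ρ : P →* AddMonoid.End V) (W : AddSubgroup V)
    (hW : ∀ g, ∀ w ∈ W, ρ g w ∈ W) (g : P) (v : V) :
    (quotHom ρ W hW g) (v : V ⧸ W) = ((ρ g v : V) : V ⧸ W) := rfl

/-- In a group of odd order, `2 ^ m • w = 0` forces `w = 0`. -/
theorem eq_zero_of_two_pow_nsmul [Finite V] (hodd : Odd (Nat.card V)) (w : V) (m : ℕ)
    (h : 2 ^ m • w = 0) : w = 0 := by
  have h1 := addOrderOf_dvd_of_nsmul_eq_zero h
  have h2 := addOrderOf_dvd_natCard w
  have h3 : Nat.Coprime (2 ^ m) (Nat.card V) :=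
    Nat.Coprime.pow_left _ (Nat.coprime_two_left.mpr hodd)
  have h4 : addOrderOf w = 1 := Nat.eq_one_of_dvd_coprimes h3 h1 h2
  exact AddMonoid.addOrderOf_eq_one_iff.mp h4

/-- The stability lemma: an element of a `2`-group acting trivially on `W` and on `V / W`
acts trivially on `V`, if `V` has odd order. -/
theorem stab_trivial [Finite V] (hodd : Odd (Nat.card V)) [Finite P] (hP : IsPGroup 2 P)
    (ρ : P →* AddMonoid.End V) (W : AddSubgroup V) (g : P) (h1 : ∀ w ∈ W, ρ g w = w)
    (h2 : ∀ v, ρ g v - v ∈ W) (v : V) : ρ g v = v := by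
  have key : ∀ k : ℕ, ρ (g ^ k) v = v + k • (ρ g v - v) := by
    intro k
    induction k with
    | zero => simp
    | succ k ih =>
      rw [pow_succ', rho_mul_apply, ih, map_add, map_nsmul, h1 _ (h2 v), succ_nsmul]
      abel
  obtain ⟨m, hm⟩ := hP g
  have h3 := key (2 ^ m)
  rw [hm, rho_one_apply] at h3
  have h4 : 2 ^ m • (ρ g v - v) = 0 := by
    have : v + 0 = v + 2 ^ m • (ρ g v - v) := by rw [add_zero]; exact h3
    exact (add_left_cancel this).symm
  have h5 := eq_zero_of_two_pow_nsmul hodd _ m h4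
  exact sub_eq_zero.mp h5

end Basic

/-- The bound predicate: `x ≤ 2` if `n = 1`, and `4 x² ≤ c ^ n` if `n ≥ 2`. -/
def TT (c n x : ℕ) : Prop := (n = 1 → x ≤ 2) ∧ (2 ≤ n → 4 * x ^ 2 ≤ c ^ n)

/-- `Good c r n`: every finite `2`-group acting faithfully on an abelian group of order `r ^ n`
has Frattini index bounded as in `TT c n`. -/
def Good (c r n : ℕ) : Prop :=
  ∀ (P : Type u) [Group P] [Finite P] (V : Type v) [AddCommGroup V] [Finite V]
    (ρ : P →* AddMonoid.End V), IsPGroup 2 P → Function.Injective ρ → Nat.card V = r ^ n →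
    TT c n (frattini P).index

theorem tt_mul {c a b x y z : ℕ} (hc : 8 ≤ c) (ha : 1 ≤ a) (hb : 1 ≤ b) (hx : TT c a x)
    (hy : TT c b y) (hz : z ≤ x * y) : TT c (a + b) z := by
  refine ⟨fun h => by omega, fun _ => ?_⟩
  have hz2 : z ^ 2 ≤ x ^ 2 * y ^ 2 := by
    calc z ^ 2 ≤ (x * y) ^ 2 := Nat.pow_le_pow_left hz 2
      _ = x ^ 2 * y ^ 2 := by ring
  rw [pow_add]
  rcases Nat.lt_or_ge a 2 with ha2 | ha2
  · have ha1 : a = 1 := by omega
    have hx2 := hx.1 ha1
    subst ha1
    rcases Nat.lt_or_ge b 2 with hb2 | hb2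
    · have hb1 : b = 1 := by omega
      have hy2 := hy.1 hb1
      subst hb1
      have h1 : x ^ 2 ≤ 4 := by nlinarith
      have h2 : y ^ 2 ≤ 4 := by nlinarith
      have h3 : 64 ≤ c ^ 1 * c ^ 1 := by nlinarith
      nlinarith
    · have hy2 := hy.2 hb2
      have h1 : x ^ 2 ≤ 4 := by nlinarith
      have h3 : 0 < c ^ b := by positivity
      rw [pow_one]
      nlinarith
  · have hx2 := hx.2 ha2
    rcases Nat.lt_or_ge b 2 with hb2 | hb2
    · have hb1 : b = 1 := by omega
      have hy2 := hy.1 hb1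
      subst hb1
      have h2 : y ^ 2 ≤ 4 := by nlinarith
      have h3 : 0 < c ^ a := by positivity
      rw [pow_one]
      nlinarith
    · have hy2 := hy.2 hb2
      have := Nat.mul_le_mul hx2 hy2
      nlinarith

theorem tt_alpha {c m x y z : ℕ} (hc : 8 ≤ c) (hm : 1 ≤ m) (hx : TT c m x) (hy : TT c m y)
    (hz : z ≤ 2 * (x * y)) (hsp : 16 ≤ c ∨ (m = 1 → z ≤ 4)) : TT c (2 * m) z := by
  refine ⟨fun h => by omega, fun _ => ?_⟩
  rw [two_mul, pow_add]
  rcases Nat.lt_or_ge m 2 with hm2 | hm2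
  · have hm1 : m = 1 := by omega
    have hx2 := hx.1 hm1
    have hy2 := hy.1 hm1
    subst hm1
    rw [pow_one]
    rcases hsp with h16 | h4
    · have h1 : z ≤ 8 := by nlinarith
      nlinarith
    · have h1 := h4 rfl
      nlinarith
  · have hx2 := hx.2 hm2
    have hy2 := hy.2 hm2
    have h1 := Nat.mul_le_mul hx2 hy2
    have hz2 : z ^ 2 ≤ (2 * (x * y)) ^ 2 := Nat.pow_le_pow_left hz 2
    nlinarith

theorem tt_small {c n z : ℕ} (hc : 8 ≤ c) (hz : z ≤ 2) : TT c n z := by
  refine ⟨fun _ => hz, fun hn => ?_⟩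
  have h1 : c ^ 2 ≤ c ^ n := Nat.pow_le_pow_right (by omega) hn
  nlinarith

theorem tt_beta {c n z : ℕ} (hc : 8 ≤ c) (hn : 2 ≤ n) (hz : z ≤ 8)
    (hsp : 16 ≤ c ∨ 3 ≤ n ∨ z ≤ 4) : TT c n z := by
  refine ⟨fun h => by omega, fun _ => ?_⟩
  have h1 : c ^ 2 ≤ c ^ n := Nat.pow_le_pow_right (by omega) hn
  rcases hsp with h | h | h
  · nlinarith
  · have h2 : c ^ 3 ≤ c ^ n := Nat.pow_le_pow_right (by omega) h
    have h3 : 512 ≤ c ^ 3 := by
      calc 512 = 8 ^ 3 := by norm_num
        _ ≤ c ^ 3 := Nat.pow_le_pow_left hc 3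
    nlinarith
  · nlinarith

/-- The final numerical consequence of `TT`. -/
theorem tt_final {c r n x : ℕ} (hn : 1 ≤ n) (hr : 3 ≤ r) (hcr : c ≤ r ^ 2) (h : TT c n x) :
    x ≤ r ^ n - 1 := by
  rcases Nat.lt_or_ge n 2 with hn2 | hn2
  · have hn1 : n = 1 := by omega
    have := h.1 hn1
    subst hn1
    rw [pow_one]
    omega
  · have h1 := h.2 hn2
    have h2 : c ^ n ≤ (r ^ 2) ^ n := Nat.pow_le_pow_left hcr n
    have h3 : (r ^ 2) ^ n = (r ^ n) ^ 2 := by rw [← pow_mul, ← pow_mul, mul_comm]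
    have h4 : 0 < r ^ n := by positivity
    have h5 : x < r ^ n := by
      by_contra hcon
      push Not at hcon
      have : (r ^ n) ^ 2 ≤ x ^ 2 := Nat.pow_le_pow_left hcon 2
      nlinarith
    omega

end Cfsg.Agent.Helper70
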