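import Mathlib
import Cfsg.Agent.Helper70.TwoGenB

/-!
# The reducible step and the "induced" step of the Frattini index bound
-/

set_option autoImplicit false

namespace Cfsg.Agent.Helper70

universe u v

/-- The homomorphism induced on the quotient by the kernel is injective (monoid target). -/
theorem lift_ker_injective {G M : Type*} [Group G] [Monoid M] (φ : G →* M) :
    Function.Injective (QuotientGroup.lift φ.ker φ le_rfl) := by
  intro x y hxy
  induction x using QuotientGroup.induction_on with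
  | _ a =>
    induction y using QuotientGroup.induction_on with
    | _ b =>
      rw [QuotientGroup.lift_mk, QuotientGroup.lift_mk] at hxy
      rw [QuotientGroup.eq, MonoidHom.mem_ker, map_mul, ← hxy, ← map_mul, inv_mul_cancel,
        map_one]

/-- The reducible step: an invariant proper nontrivial subgroup. -/
theorem good_reducible {c r n : ℕ} (hc : 8 ≤ c) (hr : r.Prime) (hr2 : r ≠ 2)
    (IH : ∀ m, 1 ≤ m → m < n → Good.{u, v} c r m)
    {P : Type u} [Group P] [Finite P] {V : Type v} [AddCommGroup V] [Finite V]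
    (ρ : P →* AddMonoid.End V) (hP : IsPGroup 2 P) (hinj : Function.Injective ρ)
    (hcard : Nat.card V = r ^ n) (W : AddSubgroup V) (hW : ∀ g, ∀ w ∈ W, ρ g w ∈ W)
    (hbot : W ≠ ⊥) (htop : W ≠ ⊤) : TT c n (frattini P).index := by
  have hodd : Odd (Nat.card V) := by
    rw [hcard]; exact (hr.odd_of_ne_two hr2).pow
  obtain ⟨a, ha, hWa⟩ : ∃ a ≤ n, Nat.card W = r ^ a :=
    (Nat.dvd_prime_pow hr).mp (hcard ▸ W.card_addSubgroup_dvd_card)
  have h1 : Nat.card W * Nat.card (V ⧸ W) = Nat.card V := by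
    rw [← AddSubgroup.index_eq_card]; exact W.card_mul_index
  have ha1 : 1 ≤ a := by
    by_contra hcon
    have ha0 : a = 0 := by omega
    rw [ha0, pow_zero] at hWa
    exact hbot ((AddSubgroup.eq_bot_iff_card W).mpr hWa)
  have han : a < n := by
    by_contra hcon
    have : a = n := by omega
    rw [this, ← hcard] at hWa
    exact htop ((AddSubgroup.card_eq_iff_eq_top W).mp hWa)
  have hQ : Nat.card (V ⧸ W) = r ^ (n - a) := by
    have h2 : r ^ a * r ^ (n - a) = r ^ n := by
      rw [← pow_add]; congr 1; omega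
    rw [hWa, hcard, ← h2] at h1
    exact Nat.eq_of_mul_eq_mul_left (pow_pos hr.pos a) h1
  let K : Subgroup P := (resHom ρ W hW).ker
  have hj1 : Function.Injective (QuotientGroup.lift K (resHom ρ W hW) le_rfl) :=
    lift_ker_injective _
  have hj2 : Function.Injective ((quotHom ρ W hW).comp K.subtype) := by
    rw [injective_iff_map_eq_one]
    intro k hk
    apply Subtype.ext
    apply rho_eq_one_of_forall ρ hinj
    apply stab_trivial hodd hP ρ W (k : P)
    · intro w hw
      have h3 : resHom ρ W hW (k : P) = 1 := k.2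
      have h4 := congrArg (fun f : AddMonoid.End W => ((f ⟨w, hw⟩ : W) : V)) h3
      exact h4
    · intro v
      have h3 := congrArg (fun f : AddMonoid.End (V ⧸ W) => f (v : V ⧸ W)) hk
      have h4 : ((ρ (k : P) v : V) : V ⧸ W) = (v : V ⧸ W) := h3
      rw [QuotientAddGroup.eq] at h4
      have h5 : ρ (k : P) v - v = -(-(ρ (k : P) v) + v) := by abel
      rw [h5]
      exact W.neg_mem h4
  have t1 := IH a ha1 han (P ⧸ K) W (QuotientGroup.lift K (resHom ρ W hW) le_rfl)
    (hP.to_quotient K) hj1 hWa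
  have t2 := IH (n - a) (by omega) (by omega) K (V ⧸ W) ((quotHom ρ W hW).comp K.subtype)
    (hP.to_subgroup K) hj2 hQ
  have h6 := fi_le_mul_quot hP K
  have h7 := tt_mul hc (by omega : 1 ≤ n - a) ha1 t2 t1 h6
  have h8 : n - a + a = n := by omega
  rwa [h8] at h7

section Irr

variable {P : Type u} [Group P] {V : Type v} [AddCommGroup V]

/-- A central involution acts as `-1` in an irreducible faithful action. -/
theorem central_invol_neg (ρ : P →* AddMonoid.End V) (hinj : Function.Injective ρ)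
    (hirr : ∀ W : AddSubgroup V, (∀ g, ∀ w ∈ W, ρ g w ∈ W) → W = ⊥ ∨ W = ⊤)
    (z : P) (hzc : ∀ g, g * z = z * g) (hz2 : z * z = 1) (hz1 : z ≠ 1) (v : V) :
    ρ z v = -v := by
  let W : AddSubgroup V := (endHom (ρ z) - AddMonoidHom.id V).ker
  have hmem : ∀ w, w ∈ W ↔ ρ z w = w := by
    intro w
    show (endHom (ρ z) - AddMonoidHom.id V) w = 0 ↔ _
    rw [AddMonoidHom.sub_apply, endHom_apply, AddMonoidHom.id_apply, sub_eq_zero]
  have hinv : ∀ g, ∀ w ∈ W, ρ g w ∈ W := by
    intro g w hw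
    rw [hmem] at hw ⊢
    rw [← rho_mul_apply, ← hzc g, rho_mul_apply, hw]
  rcases hirr W hinv with h | h
  · have h1 : v + ρ z v ∈ W := by
      rw [hmem, map_add, ← rho_mul_apply, hz2, rho_one_apply, add_comm]
    rw [h, AddSubgroup.mem_bot] at h1
    exact (neg_eq_of_add_eq_zero_right h1).symm
  · exfalso
    apply hz1
    apply rho_eq_one_of_forall ρ hinj
    intro w
    exact (hmem w).mp (h ▸ AddSubgroup.mem_top w)

/-- The eigenspace decomposition attached to a noncentral involution `e` whose conjugates are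
`e` and `e z`, with `z` acting as `-1`. -/
theorem alpha_struct [Finite P] [Finite V] (hodd : Odd (Nat.card V))
    (ρ : P →* AddMonoid.End V) (hinj : Function.Injective ρ)
    (z : P) (hz : ∀ v, ρ z v = -v) (hzc : ∀ g, g * z = z * g) (hz2 : z * z = 1)
    (e : P) (he2 : e * e = 1) (hez : ∀ g, e * g = g * e ∨ e * g = g * e * z)
    (g₀ : P) (hg₀ : e * g₀ ≠ g₀ * e) :
    ∃ (M : Subgroup P) (Wp Wm : AddSubgroup V), M.index = 2 ∧
      (∀ g ∈ M, ∀ w ∈ Wp, ρ g w ∈ Wp) ∧ (∀ g ∈ M, ∀ w ∈ Wm, ρ g w ∈ Wm) ∧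
      Nat.card Wp = Nat.card Wm ∧ Nat.card Wp * Nat.card Wm = Nat.card V ∧
      (∀ g : P, (∀ w ∈ Wp, ρ g w = w) → (∀ w ∈ Wm, ρ g w = w) → g = 1) ∧
      (∃ a b : P, a * b ≠ b * a) := by
  let M : Subgroup P := Subgroup.centralizer {e}
  have hM : ∀ g, g ∈ M ↔ e * g = g * e := by
    intro g
    show g ∈ Subgroup.centralizer {e} ↔ _
    rw [Subgroup.mem_centralizer_iff]
    constructor
    · intro h; exact h e rfl
    · intro h x hx; rw [Set.mem_singleton_iff.mp hx]; exact h
  let Wp : AddSubgroup V := (endHom (ρ e) - AddMonoidHom.id V).ker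
  let Wm : AddSubgroup V := (endHom (ρ e) + AddMonoidHom.id V).ker
  have hp : ∀ w, w ∈ Wp ↔ ρ e w = w := by
    intro w
    show (endHom (ρ e) - AddMonoidHom.id V) w = 0 ↔ _
    rw [AddMonoidHom.sub_apply, endHom_apply, AddMonoidHom.id_apply, sub_eq_zero]
  have hm : ∀ w, w ∈ Wm ↔ ρ e w = -w := by
    intro w
    show (endHom (ρ e) + AddMonoidHom.id V) w = 0 ↔ _
    rw [AddMonoidHom.add_apply, endHom_apply, AddMonoidHom.id_apply, add_eq_zero_iff_eq_neg]
  have hg₀' : e * g₀ = g₀ * e * z := (hez g₀).resolve_left hg₀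
  -- swapping
  have hswap1 : ∀ w ∈ Wp, ρ g₀ w ∈ Wm := by
    intro w hw
    rw [hp] at hw
    rw [hm, ← rho_mul_apply, hg₀', rho_mul_apply, rho_mul_apply, hz, map_neg, hw, map_neg]
  have hswap2 : ∀ w ∈ Wm, ρ g₀ w ∈ Wp := by
    intro w hw
    rw [hm] at hw
    rw [hp, ← rho_mul_apply, hg₀', rho_mul_apply, rho_mul_apply, hz, map_neg, hw, neg_neg]
  have hdisj : ∀ x, x ∈ Wp → x ∈ Wm → x = 0 := by
    intro x h1 h2
    rw [hp] at h1
    rw [hm, h1] at h2
    have h3 : 2 ^ 1 • x = 0 := by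
      rw [pow_one, two_nsmul]
      nth_rw 1 [h2]
      exact neg_add_cancel x
    exact eq_zero_of_two_pow_nsmul hodd x 1 h3
  obtain ⟨k, hk⟩ := hodd
  have hdecomp : ∀ v : V, ∃ a ∈ Wp, ∃ b ∈ Wm, v = a + b := by
    intro v
    have h1 : v + ρ e v ∈ Wp := by
      rw [hp, map_add, ← rho_mul_apply, he2, rho_one_apply, add_comm]
    have h2 : v - ρ e v ∈ Wm := by
      rw [hm, map_sub, ← rho_mul_apply, he2, rho_one_apply, neg_sub]
    refine ⟨(k + 1) • (v + ρ e v), Wp.nsmul_mem h1 _, (k + 1) • (v - ρ e v), Wm.nsmul_mem h2 _, ?_⟩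
    have h3 : (2 * k + 1) • v = 0 := by rw [← hk]; exact card_nsmul_eq_zero'
    have h4 : (k + 1) • (v + ρ e v) + (k + 1) • (v - ρ e v) = (2 * k + 1) • v + v := by
      rw [← nsmul_add]
      have : v + ρ e v + (v - ρ e v) = 2 • v := by rw [two_nsmul]; abel
      rw [this, ← mul_nsmul, show (2 * k + 1) • v + v = (2 * k + 1 + 1) • v from by
        rw [add_nsmul v (2 * k + 1) 1, one_nsmul]]
      have h5 : 2 * (k + 1) = 2 * k + 1 + 1 := by ring
      rw [h5]
    rw [h4, h3, zero_add]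
  refine ⟨M, Wp, Wm, ?_, ?_, ?_, ?_, ?_, ?_, ⟨e, g₀, hg₀⟩⟩
  · rw [Subgroup.index_eq_two_iff]
    refine ⟨g₀, fun b => ?_⟩
    by_cases hb : b ∈ M
    · refine Or.inr ⟨hb, ?_⟩
      intro hcon
      rw [hM] at hb hcon
      apply hg₀
      have h1 : b * (e * g₀) = b * (g₀ * e) := by
        rw [← mul_assoc, ← hb, mul_assoc, hcon, mul_assoc]
      exact mul_left_cancel h1
    · refine Or.inl ⟨?_, hb⟩
      rw [hM] at hb ⊢
      have hb' : e * b = b * e * z := (hez b).resolve_left hb
      calc e * (b * g₀) = (e * b) * g₀ := by rw [mul_assoc]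
        _ = b * e * z * g₀ := by rw [hb']
        _ = b * (e * g₀) * z := by
          rw [mul_assoc (b * e), ← hzc g₀, ← mul_assoc, mul_assoc b e g₀]
        _ = b * (g₀ * e * z) * z := by rw [hg₀']
        _ = b * g₀ * e * (z * z) := by simp only [mul_assoc]
        _ = b * g₀ * e := by rw [hz2, mul_one]
  · intro g hg w hw
    rw [hM] at hg
    rw [hp] at hw ⊢
    rw [← rho_mul_apply, hg, rho_mul_apply, hw]
  · intro g hg w hw
    rw [hM] at hg
    rw [hm] at hw ⊢
    rw [← rho_mul_apply, hg, rho_mul_apply, hw, map_neg]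
  · apply le_antisymm
    · apply Nat.card_le_card_of_injective (fun w : Wp => (⟨ρ g₀ w, hswap1 w w.2⟩ : Wm))
      intro a b hab
      apply Subtype.ext
      exact rho_injective ρ g₀ (congrArg Subtype.val hab)
    · apply Nat.card_le_card_of_injective (fun w : Wm => (⟨ρ g₀ w, hswap2 w w.2⟩ : Wp))
      intro a b hab
      apply Subtype.ext
      exact rho_injective ρ g₀ (congrArg Subtype.val hab)
  · rw [← Nat.card_prod]
    apply Nat.card_congr
    refine Equiv.ofBijective (fun x : Wp × Wm => (x.1 : V) + (x.2 : V)) ⟨?_, ?_⟩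
    · rintro ⟨a, b⟩ ⟨a', b'⟩ hab
      have hab' : (a : V) + b = a' + b' := hab
      have h1 : (a : V) - a' = b' - b := by
        rw [sub_eq_sub_iff_add_eq_add, hab', add_comm]
      have h2 : (a : V) - a' = 0 :=
        hdisj _ (Wp.sub_mem a.2 a'.2) (h1 ▸ Wm.sub_mem b'.2 b.2)
      have h3 : (b' : V) - b = 0 := by rw [← h1, h2]
      have h4 : a = a' := Subtype.ext (sub_eq_zero.mp h2)
      have h5 : b = b' := Subtype.ext (sub_eq_zero.mp h3).symm
      rw [h4, h5]
    · intro v
      obtain ⟨a, ha, b, hb, hv⟩ := hdecomp v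
      exact ⟨(⟨a, ha⟩, ⟨b, hb⟩), hv.symm⟩
  · intro g h1 h2
    apply rho_eq_one_of_forall ρ hinj
    intro v
    obtain ⟨a, ha, b, hb, hv⟩ := hdecomp v
    rw [hv, map_add, h1 a ha, h2 b hb]

end Irr

end Cfsg.Agent.Helper70
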