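import Mathlib
import Cfsg.Agent.Helper70.TwoGenC
import Cfsg.Agent.Helper53.Quat

/-!
# Frattini index bound: small cases, the cyclic self-centralizing case, and the induced step
-/

set_option autoImplicit false

namespace Cfsg.Agent.Helper70

universe u v

open Subgroup
open scoped commutatorElement

theorem card_nonzero_subtype (X : Type*) [AddGroup X] [Finite X] :
    Nat.card {y : X // y ≠ 0} = Nat.card X - 1 := by
  classical
  have := Fintype.ofFinite X
  rw [Nat.card_eq_fintype_card, Nat.card_eq_fintype_card,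
    Fintype.card_subtype_compl (fun y : X => y = 0), Fintype.card_subtype_eq]

/-- A group acting faithfully on a group of order `3` has order at most `2`. -/
theorem card_le_two_of_faithful_three {Q : Type*} [Group Q] [Finite Q] {X : Type*}
    [AddCommGroup X] [Finite X] (j : Q →* AddMonoid.End X) (hj : Function.Injective j)
    (hX : Nat.card X = 3) : Nat.card Q ≤ 2 := by
  have : Fact (Nat.Prime 3) := ⟨Nat.prime_three⟩
  have hnt : Nontrivial X := Finite.one_lt_card_iff_nontrivial.mp (by rw [hX]; norm_num)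
  obtain ⟨x, hx⟩ := exists_ne (0 : X)
  have htop : AddSubgroup.zmultiples x = ⊤ := zmultiples_eq_top_of_prime_card hX hx
  have hgen : ∀ y : X, ∃ k : ℤ, k • x = y := fun y =>
    AddSubgroup.mem_zmultiples_iff.mp (htop ▸ AddSubgroup.mem_top y)
  have hne : ∀ q : Q, j q x ≠ 0 := by
    intro q h0
    apply hx
    apply rho_injective j q
    rw [h0, map_zero]
  have h2 : Nat.card {y : X // y ≠ 0} = 2 := by rw [card_nonzero_subtype, hX]
  rw [← h2]
  apply Nat.card_le_card_of_injective (fun q : Q => (⟨j q x, hne q⟩ : {y : X // y ≠ 0}))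
  intro q q' hqq
  have h3 : j q x = j q' x := congrArg Subtype.val hqq
  apply hj
  ext y
  obtain ⟨k, rfl⟩ := hgen y
  rw [map_zsmul, map_zsmul, h3]

/-- A faithful action on a group of prime order is by a commutative group. -/
theorem comm_of_prime_card {P : Type*} [Group P] {V : Type*} [AddCommGroup V] [Finite V]
    (ρ : P →* AddMonoid.End V) (hinj : Function.Injective ρ) {r : ℕ} (hr : r.Prime)
    (hcard : Nat.card V = r) (g h : P) : g * h = h * g := by
  have : Fact (Nat.Prime r) := ⟨hr⟩
  have hnt : Nontrivial V := Finite.one_lt_card_iff_nontrivial.mp (by rw [hcard]; exact hr.one_lt)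
  obtain ⟨x, hx⟩ := exists_ne (0 : V)
  have htop : AddSubgroup.zmultiples x = ⊤ := zmultiples_eq_top_of_prime_card hcard hx
  have hgen : ∀ y : V, ∃ k : ℤ, k • x = y := fun y =>
    AddSubgroup.mem_zmultiples_iff.mp (htop ▸ AddSubgroup.mem_top y)
  obtain ⟨a, ha⟩ := hgen (ρ g x)
  obtain ⟨b, hb⟩ := hgen (ρ h x)
  apply hinj
  ext y
  obtain ⟨k, rfl⟩ := hgen y
  rw [rho_mul_apply, rho_mul_apply, map_zsmul, map_zsmul, map_zsmul, map_zsmul, ← hb, ← ha,
    map_zsmul, map_zsmul, ← ha, ← hb, smul_comm a b x]

/-- Orbit-stabilizer inequality for the orbit of a nonzero vector. -/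
theorem card_le_stab_mul {P : Type*} [Group P] [Finite P] {V : Type*} [AddCommGroup V] [Finite V]
    (ρ : P →* AddMonoid.End V) (v : V) (hv : v ≠ 0) (H : Subgroup P)
    (hH : ∀ g, g ∈ H ↔ ρ g v = v) : Nat.card P ≤ Nat.card H * (Nat.card V - 1) := by
  have hne : ∀ g : P, ρ g v ≠ 0 := by
    intro g h0
    apply hv
    apply rho_injective ρ g
    rw [h0, map_zero]
  rw [← card_mul_index H, ← card_nonzero_subtype V, index_eq_card]
  apply Nat.mul_le_mul_left
  let f : P ⧸ H → {y : V // y ≠ 0} := fun q =>
    Quotient.liftOn' q (fun g => (⟨ρ g v, hne g⟩ : {y : V // y ≠ 0})) (by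
      intro a b hab
      rw [QuotientGroup.leftRel_apply] at hab
      apply Subtype.ext
      show ρ a v = ρ b v
      have h1 := (hH _).mp hab
      have h2 : b = a * (a⁻¹ * b) := by group
      rw [h2, rho_mul_apply, h1])
  apply Nat.card_le_card_of_injective f
  intro x y hxy
  induction x using QuotientGroup.induction_on with
  | _ a =>
    induction y using QuotientGroup.induction_on with
    | _ b =>
      have h1 : ρ a v = ρ b v := congrArg Subtype.val hxy
      rw [QuotientGroup.eq, hH, rho_mul_apply, ← h1, rho_inv_apply]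

/-- A `2`-group acting faithfully on a group of order `9` has order at most `16`. -/
theorem card_le_sixteen {P : Type*} [Group P] [Finite P] (hP : IsPGroup 2 P) {V : Type*}
    [AddCommGroup V] [Finite V] (hV : Nat.card V = 9) (ρ : P →* AddMonoid.End V)
    (hinj : Function.Injective ρ) : Nat.card P ≤ 16 := by
  have hodd : Odd (Nat.card V) := by rw [hV]; decide
  have hnt : Nontrivial V := Finite.one_lt_card_iff_nontrivial.mp (by rw [hV]; norm_num)
  obtain ⟨v, hv⟩ := exists_ne (0 : V)
  let H : Subgroup P :=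
    { carrier := {g | ρ g v = v}
      mul_mem' := by
        intro a b ha hb
        show ρ (a * b) v = v
        rw [rho_mul_apply, show ρ b v = v from hb]; exact ha
      one_mem' := rho_one_apply ρ v
      inv_mem' := by
        intro a ha
        show ρ a⁻¹ v = v
        have h1 : ρ a⁻¹ (ρ a v) = v := rho_inv_apply ρ a v
        rwa [show ρ a v = v from ha] at h1 }
  have hH : ∀ g, g ∈ H ↔ ρ g v = v := fun g => Iff.rfl
  have h1 := card_le_stab_mul ρ v hv H hH
  rw [hV] at h1
  suffices hH2 : Nat.card H ≤ 2 by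
    calc Nat.card P ≤ Nat.card H * (9 - 1) := h1
      _ ≤ 2 * (9 - 1) := Nat.mul_le_mul_right _ hH2
      _ = 16 := by norm_num
  let L : AddSubgroup V := AddSubgroup.zmultiples v
  have hfix : ∀ h ∈ H, ∀ w ∈ L, ρ h w = w := by
    intro h hh w hw
    obtain ⟨k, rfl⟩ := AddSubgroup.mem_zmultiples_iff.mp hw
    rw [map_zsmul, (hH h).mp hh]
  by_cases hL : L = ⊤
  · have hbot : H = ⊥ := by
      rw [eq_bot_iff]
      intro h hh
      rw [mem_bot]
      apply rho_eq_one_of_forall ρ hinj
      intro w
      exact hfix h hh w (hL ▸ AddSubgroup.mem_top w)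
    rw [hbot, card_bot]
    norm_num
  · have hLcard : Nat.card L = 3 := by
      have hd : Nat.card L ∣ 9 := hV ▸ L.card_addSubgroup_dvd_card
      have h9 : Nat.card L ≠ 9 := by
        intro h
        exact hL ((AddSubgroup.card_eq_iff_eq_top L).mp (h.trans hV.symm))
      have h1' : Nat.card L ≠ 1 := by
        intro h
        have hb := (AddSubgroup.eq_bot_iff_card L).mpr h
        have hvL : v ∈ L := AddSubgroup.mem_zmultiples v
        rw [hb, AddSubgroup.mem_bot] at hvL
        exact hv hvL
      have hle : Nat.card L ≤ 9 := Nat.le_of_dvd (by norm_num) hd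
      interval_cases (Nat.card L) <;> simp_all
    have hQ : Nat.card (V ⧸ L) = 3 := by
      have h2 : Nat.card L * Nat.card (V ⧸ L) = Nat.card V := by
        rw [← AddSubgroup.index_eq_card]; exact L.card_mul_index
      rw [hLcard, hV] at h2
      omega
    let ρH : H →* AddMonoid.End V := ρ.comp H.subtype
    have hLinv : ∀ g : H, ∀ w ∈ L, ρH g w ∈ L := by
      intro g w hw
      have : ρH g w = w := hfix g g.2 w hw
      rw [this]; exact hw
    have hj : Function.Injective (quotHom ρH L hLinv) := by
      rw [injective_iff_map_eq_one]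
      intro k hk
      apply Subtype.ext
      apply rho_eq_one_of_forall ρ hinj
      apply stab_trivial hodd hP ρ L (k : P)
      · intro w hw
        exact hfix k k.2 w hw
      · intro w
        have h3 := congrArg (fun f : AddMonoid.End (V ⧸ L) => f (w : V ⧸ L)) hk
        have h4 : ((ρ (k : P) w : V) : V ⧸ L) = (w : V ⧸ L) := h3
        rw [QuotientAddGroup.eq] at h4
        have h5 : ρ (k : P) w - w = -(-(ρ (k : P) w) + w) := by abel
        rw [h5]
        exact L.neg_mem h4
    exact card_le_two_of_faithful_three (quotHom ρH L hLinv) hj hQ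

/-- A nonabelian `2`-group of order at most `8` has Frattini index at most `4`. -/
theorem fi_le_four_of_card_le_eight {P : Type*} [Group P] [Finite P] (hP : IsPGroup 2 P)
    (hcard : Nat.card P ≤ 8) (hnc : ∃ a b : P, a * b ≠ b * a) : (frattini P).index ≤ 4 := by
  have : Fact (Nat.Prime 2) := ⟨Nat.prime_two⟩
  obtain ⟨a, b, hab⟩ := hnc
  have hne : frattini P ≠ ⊥ := by
    intro h
    apply hab
    rw [← commutatorElement_eq_one_iff_mul_comm]
    have h1 : ⁅a, b⁆ ∈ commutator P := by
      rw [_root_.commutator_def]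
      exact Subgroup.commutator_mem_commutator (mem_top a) (mem_top b)
    have h2 := Cfsg.Agent.Helper2.commutator_le_frattini_of_isPGroup hP h1
    rwa [h, mem_bot] at h2
  have h1 : Nat.card (frattini P) ≠ 1 := fun h => hne ((eq_bot_iff_card _).mpr h)
  have h2 : 0 < Nat.card (frattini P) := Nat.card_pos
  have h3 := card_mul_index (frattini P)
  by_contra hcon
  push Not at hcon
  have h4 : 2 ≤ Nat.card (frattini P) := by omega
  have h5 := Nat.mul_le_mul h4 hcon
  omega

/-- The case of a cyclic self-centralizing normal subgroup. -/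
theorem beta_step {P : Type*} [Group P] [Finite P] (hP : IsPGroup 2 P) (A : Subgroup P)
    [hAn : A.Normal] (hAc : IsCyclic A) (hCA : centralizer (A : Set P) ≤ A) :
    (frattini P).index ≤ 8 ∧ A.index ≤ Nat.totient (Nat.card A) := by
  have : Fact (Nat.Prime 2) := ⟨Nat.prime_two⟩
  let f₀ : P →* MulAut A := MulAut.conjNormal
  have hker₀ : f₀.ker = A := by
    apply le_antisymm
    · intro g hg
      apply hCA
      rw [mem_centralizer_iff]
      intro a ha
      have h1 : f₀ g = 1 := hg
      have h2 := congrArg (fun φ : MulAut A => ((φ ⟨a, ha⟩ : A) : P)) h1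
      have h3 : g * a * g⁻¹ = a := h2
      calc a * g = (g * a * g⁻¹) * g := by rw [h3]
        _ = g * a := by group
    · intro g hg
      rw [MonoidHom.mem_ker]
      ext a
      show ((f₀ g a : A) : P) = a
      rw [MulAut.conjNormal_apply]
      have h1 : (⟨g, hg⟩ : A) * a = a * ⟨g, hg⟩ := mul_comm' _ _
      have h2 : g * (a : P) = a * g := congrArg Subtype.val h1
      rw [h2, mul_inv_cancel_right]
  constructor
  · let f : P →* (ZMod (Nat.card A))ˣ := (IsCyclic.mulAutMulEquiv A).toMonoidHom.comp f₀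
    have hker' : f.ker = f₀.ker := by
      ext g
      rw [MonoidHom.mem_ker, MonoidHom.mem_ker]
      show (IsCyclic.mulAutMulEquiv A) (f₀ g) = 1 ↔ _
      rw [MulEquiv.map_eq_one_iff]
    have hker : f.ker = A := hker'.trans hker₀
    obtain ⟨C, hC1, hC2, hC3⟩ := exists_cyclic_index_le_two (Nat.card A)
      (IsPGroup.iff_card.mp (hP.to_subgroup A))
    have hkc : IsCyclic f.ker := by rw [hker]; exact hAc
    exact fi_le_eight hP f C hC2 hC3 hkc
  · have h1 : A.index = f₀.ker.index := by rw [hker₀]
    rw [h1, index_ker, ← IsCyclic.card_mulAut A]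
    exact card_le_card_group _

/-- In the situation of `beta_step`, if `|P| ≤ 16` then the Frattini index is at most `4`. -/
theorem beta_special {P : Type*} [Group P] [Finite P] (hP : IsPGroup 2 P) (A : Subgroup P)
    (hAc : IsCyclic A) (hidx : A.index ≤ Nat.totient (Nat.card A))
    (hcard : Nat.card P ≤ 16) : (frattini P).index ≤ 4 := by
  have : Fact (Nat.Prime 2) := ⟨Nat.prime_two⟩
  have h2 : A.index ≤ 2 := by
    obtain ⟨k, hk⟩ := IsPGroup.iff_card.mp (hP.to_subgroup A)
    have h1 := card_mul_index A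
    rcases Nat.lt_or_ge k 3 with hk3 | hk3
    · rw [hk] at hidx
      interval_cases k
      · simp at hidx; omega
      · simp at hidx; omega
      · have : Nat.totient (2 ^ 2) = 2 := by decide
        rw [this] at hidx; exact hidx
    · have h8 : 2 ^ 3 ≤ Nat.card A := by rw [hk]; exact Nat.pow_le_pow_right (by norm_num) hk3
      by_contra hcon
      push Not at hcon
      have := Nat.mul_le_mul h8 hcon
      omega
  have h3 := fi_le_index_mul hP A
  have h4 : (frattini A).index ≤ 2 := fi_le_two_of_isCyclic (hP.to_subgroup A)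
  calc (frattini P).index ≤ A.index * (frattini A).index := h3
    _ ≤ 2 * 2 := Nat.mul_le_mul h2 h4
    _ = 4 := by norm_num

/-- A commutative finite `2`-group with at most one involution is cyclic. -/
theorem isCyclic_of_unique_invol {A : Type*} [Group A] [Finite A] (hA : IsPGroup 2 A)
    (hcomm : ∀ a b : A, a * b = b * a)
    (huniq : ∀ s t : A, s * s = 1 → s ≠ 1 → t * t = 1 → t ≠ 1 → s = t) : IsCyclic A := by
  have : Fact (Nat.Prime 2) := ⟨Nat.prime_two⟩
  by_cases hnt : Nontrivial A
  · obtain ⟨k, hk⟩ := IsPGroup.iff_card.mp hA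
    have hk0 : k ≠ 0 := by
      intro h0
      rw [h0, pow_zero] at hk
      have := Finite.one_lt_card_iff_nontrivial.mpr hnt
      omega
    have hdvd : 2 ∣ Nat.card A := by rw [hk]; exact dvd_pow_self 2 hk0
    obtain ⟨z, hz⟩ := exists_prime_orderOf_dvd_card' 2 hdvd
    have hz2 : z * z = 1 := by rw [← pow_two, ← hz]; exact pow_orderOf_eq_one z
    have hz1 : z ≠ 1 := by
      intro h; rw [h, orderOf_one] at hz; omega
    have hu : ∀ t : A, orderOf t = 2 → t = z := by
      intro t ht
      have ht2 : t * t = 1 := by rw [← pow_two, ← ht]; exact pow_orderOf_eq_one t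
      have ht1 : t ≠ 1 := by
        intro h; rw [h, orderOf_one] at ht; omega
      exact huniq t z ht2 ht1 hz2 hz1
    obtain ⟨x, -, hx⟩ := Cfsg.Agent.Helper53.exists_zpowers_eq_of_unique_invol hA z hz hu ⊤
      (fun a _ b _ => hcomm a b) (mem_top z)
    exact isCyclic_iff_exists_zpowers_eq_top.mpr ⟨x, hx.symm⟩
  · rw [not_nontrivial_iff_subsingleton] at hnt
    exact isCyclic_of_subsingleton

/-- The induced step: an index-two subgroup `M` preserving a decomposition `V = W₊ ⊕ W₋`. -/
theorem alpha_step {c r m : ℕ} (hGood : Good.{u, v} c r m)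
    {P : Type u} [Group P] [Finite P] {V : Type v} [AddCommGroup V] [Finite V]
    (ρ : P →* AddMonoid.End V) (hP : IsPGroup 2 P)
    (M : Subgroup P) (Wp Wm : AddSubgroup V) (hidx : M.index = 2)
    (hp : ∀ g ∈ M, ∀ w ∈ Wp, ρ g w ∈ Wp) (hm : ∀ g ∈ M, ∀ w ∈ Wm, ρ g w ∈ Wm)
    (hcp : Nat.card Wp = r ^ m) (hcm : Nat.card Wm = r ^ m)
    (hfaith : ∀ g : P, (∀ w ∈ Wp, ρ g w = w) → (∀ w ∈ Wm, ρ g w = w) → g = 1) :
    ∃ x y, TT c m x ∧ TT c m y ∧ (frattini P).index ≤ 2 * (x * y) ∧
      (r ^ m = 3 → Nat.card P ≤ 8) := by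
  let ρM : M →* AddMonoid.End V := ρ.comp M.subtype
  have hp' : ∀ g : M, ∀ w ∈ Wp, ρM g w ∈ Wp := fun g w hw => hp g g.2 w hw
  have hm' : ∀ g : M, ∀ w ∈ Wm, ρM g w ∈ Wm := fun g w hw => hm g g.2 w hw
  let K : Subgroup M := (resHom ρM Wp hp').ker
  have hj1 : Function.Injective (QuotientGroup.lift K (resHom ρM Wp hp') le_rfl) :=
    lift_ker_injective _
  have hj2 : Function.Injective ((resHom ρM Wm hm').comp K.subtype) := by
    rw [injective_iff_map_eq_one]
    intro k hk
    apply Subtype.ext
    apply Subtype.ext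
    apply hfaith
    · intro w hw
      have h3 : resHom ρM Wp hp' (k : M) = 1 := k.2
      have h4 := congrArg (fun f : AddMonoid.End Wp => ((f ⟨w, hw⟩ : Wp) : V)) h3
      exact h4
    · intro w hw
      have h4 := congrArg (fun f : AddMonoid.End Wm => ((f ⟨w, hw⟩ : Wm) : V)) hk
      exact h4
  have hPM : IsPGroup 2 M := hP.to_subgroup M
  have t1 := hGood (M ⧸ K) Wp (QuotientGroup.lift K (resHom ρM Wp hp') le_rfl)
    (hPM.to_quotient K) hj1 hcp
  have t2 := hGood K Wm ((resHom ρM Wm hm').comp K.subtype) (hPM.to_subgroup K) hj2 hcm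
  refine ⟨_, _, t2, t1, ?_, ?_⟩
  · have h1 := fi_le_index_mul hP M
    have h2 := fi_le_mul_quot hPM K
    rw [hidx] at h1
    exact le_trans h1 (Nat.mul_le_mul_left 2 h2)
  · intro h3
    have hK2 : Nat.card K ≤ 2 :=
      card_le_two_of_faithful_three _ hj2 (hcm.trans h3)
    have hQ2 : Nat.card (M ⧸ K) ≤ 2 :=
      card_le_two_of_faithful_three _ hj1 (hcp.trans h3)
    have h4 := card_mul_index K
    rw [index_eq_card] at h4
    have h5 := card_mul_index M
    rw [hidx] at h5
    have h6 := Nat.mul_le_mul hK2 hQ2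
    omega

end Cfsg.Agent.Helper70
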