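import Mathlib
import Cfsg.Agent.Helper70.TwoGenD

/-!
# The Frattini index of a `2`-group acting faithfully on a group of odd prime power order

`fi_le_of_faithful`: a finite `2`-group `P` acting faithfully on an abelian group `V` of order
`r ^ n` (`r` an odd prime, `n ≥ 1`) satisfies `[P : Φ(P)] ≤ |V| - 1`.
-/

set_option autoImplicit false

namespace Cfsg.Agent.Helper70

universe u v

open Subgroup

/-- Elements of `zpowers z` for an involution `z`. -/
theorem mem_zpowers_invol {P : Type*} [Group P] (z : P) (hz2 : z * z = 1) (x : P)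
    (hx : x ∈ zpowers z) : x = 1 ∨ x = z := by
  obtain ⟨k, rfl⟩ := mem_zpowers_iff.mp hx
  have h2 : z ^ (2 : ℤ) = 1 := by rw [zpow_two]; exact hz2
  obtain ⟨m, hm | hm⟩ := Int.even_or_odd' k
  · left
    rw [hm, zpow_mul, h2, one_zpow]
  · right
    rw [hm, zpow_add, zpow_mul, h2, one_zpow, one_mul, zpow_one]

/-- The irreducible step. -/
theorem good_irreducible {c r n : ℕ} (hc : 8 ≤ c) (hc16 : 16 ≤ c ∨ r = 3) (hr : r.Prime)
    (hr2 : r ≠ 2) (hn : 1 ≤ n)
    (IH : ∀ m, 1 ≤ m → m < n → Good.{u, v} c r m)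
    {P : Type u} [Group P] [Finite P] {V : Type v} [AddCommGroup V] [Finite V]
    (ρ : P →* AddMonoid.End V) (hP : IsPGroup 2 P) (hinj : Function.Injective ρ)
    (hcard : Nat.card V = r ^ n)
    (hirr : ∀ W : AddSubgroup V, (∀ g, ∀ w ∈ W, ρ g w ∈ W) → W = ⊥ ∨ W = ⊤) :
    TT c n (frattini P).index := by
  have : Fact (Nat.Prime 2) := ⟨Nat.prime_two⟩
  have hodd : Odd (Nat.card V) := by
    rw [hcard]; exact (hr.odd_of_ne_two hr2).pow
  obtain ⟨A, hAn, hAc, hCA⟩ := Cfsg.Agent.Helper53.exists_normal_abelian_self_centralizing hP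
  by_cases hII : ∃ e ∈ A, e * e = 1 ∧ e ≠ 1 ∧ ∃ g, e * g ≠ g * e
  · obtain ⟨e, heA, he2, he1, g₁, hg₁⟩ := hII
    have hntP : Nontrivial P := ⟨⟨e, 1, he1⟩⟩
    have hcn : Nontrivial (center P) := hP.center_nontrivial
    have hcP : IsPGroup 2 (center P) := hP.to_subgroup _
    obtain ⟨k, hk⟩ := IsPGroup.iff_card.mp hcP
    have hk0 : k ≠ 0 := by
      intro h0
      rw [h0, pow_zero] at hk
      have := Finite.one_lt_card_iff_nontrivial.mpr hcn
      omega
    have hdvd : 2 ∣ Nat.card (center P) := by rw [hk]; exact dvd_pow_self 2 hk0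
    obtain ⟨z', hz'⟩ := exists_prime_orderOf_dvd_card' 2 hdvd
    obtain ⟨z, hz_eq⟩ : ∃ z : P, z = (z' : P) := ⟨_, rfl⟩
    have hzc : ∀ g, g * z = z * g := by
      intro g; rw [hz_eq]; exact mem_center_iff.mp z'.2 g
    have hzo : orderOf z = 2 := by rw [hz_eq, orderOf_coe]; exact hz'
    have hz2 : z * z = 1 := by rw [← pow_two, ← hzo]; exact pow_orderOf_eq_one z
    have hz1 : z ≠ 1 := by
      intro h; rw [h, orderOf_one] at hzo; omega
    have hz : ∀ v, ρ z v = -v := central_invol_neg ρ hinj hirr z hzc hz2 hz1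
    have huniq : ∀ t : P, (∀ g, g * t = t * g) → t * t = 1 → t ≠ 1 → t = z := by
      intro t h1 h2 h3
      apply hinj
      ext v
      rw [central_invol_neg ρ hinj hirr t h1 h2 h3 v, hz v]
    have hZn : (zpowers z).Normal := by
      refine ⟨fun x hx g => ?_⟩
      obtain ⟨i, rfl⟩ := mem_zpowers_iff.mp hx
      have hc' : Commute g z := hzc g
      have : g * z ^ i * g⁻¹ = z ^ i := by
        rw [(hc'.zpow_right i).eq, mul_inv_cancel_right]
      rw [this]; exact zpow_mem_zpowers z i
    let Ω : Subgroup P :=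
      { carrier := {a | a ∈ A ∧ a * a = 1}
        mul_mem' := by
          rintro a b ⟨ha, ha2⟩ ⟨hb, hb2⟩
          refine ⟨A.mul_mem ha hb, ?_⟩
          calc a * b * (a * b) = a * (b * a) * b := by group
            _ = a * (a * b) * b := by rw [hAc b hb a ha]
            _ = (a * a) * (b * b) := by group
            _ = 1 := by rw [ha2, hb2, one_mul]
        one_mem' := ⟨A.one_mem, one_mul 1⟩
        inv_mem' := by
          rintro a ⟨ha, ha2⟩
          refine ⟨A.inv_mem ha, ?_⟩
          rw [← mul_inv_rev, ha2, inv_one] }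
    have hΩn : Ω.Normal := by
      refine ⟨fun a ha g => ?_⟩
      obtain ⟨ha1, ha2⟩ := ha
      refine ⟨hAn.conj_mem a ha1 g, ?_⟩
      calc g * a * g⁻¹ * (g * a * g⁻¹) = g * (a * a) * g⁻¹ := by group
        _ = 1 := by rw [ha2, mul_one, mul_inv_cancel]
    have hne : Ω.map (QuotientGroup.mk' (zpowers z)) ≠ ⊥ := by
      intro h
      have h1 : QuotientGroup.mk' (zpowers z) e ∈ Ω.map (QuotientGroup.mk' (zpowers z)) :=
        mem_map_of_mem _ ⟨heA, he2⟩
      rw [h, mem_bot, QuotientGroup.mk'_apply, QuotientGroup.eq_one_iff] at h1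
      rcases mem_zpowers_invol z hz2 e h1 with h2 | h2
      · exact he1 h2
      · apply hg₁; rw [h2]; exact (hzc g₁).symm
    have hmapn : (Ω.map (QuotientGroup.mk' (zpowers z))).Normal :=
      Subgroup.Normal.map hΩn _ (QuotientGroup.mk'_surjective _)
    obtain ⟨eb, heb, heb1, hebc⟩ := Cfsg.Agent.Helper53.exists_central_of_normalized (p := 2)
      (P := (⊤ : Subgroup (P ⧸ zpowers z))) (A := Ω.map (QuotientGroup.mk' (zpowers z)))
      ((hP.to_quotient _).to_subgroup ⊤) le_top (by rw [normalizer_eq_top]) hne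
    obtain ⟨e', he'Ω, rfl⟩ := mem_map.mp heb
    have he'Z : e' ∉ zpowers z := fun h => heb1 ((QuotientGroup.eq_one_iff e').mpr h)
    have he'2 : e' * e' = 1 := he'Ω.2
    have hez : ∀ g, e' * g = g * e' ∨ e' * g = g * e' * z := by
      intro g
      have h1 := hebc (QuotientGroup.mk' (zpowers z) g) (mem_top _)
      have h2 : ((g * e' : P) : P ⧸ zpowers z) = ((e' * g : P) : P ⧸ zpowers z) := by
        rw [QuotientGroup.mk_mul, QuotientGroup.mk_mul]; exact h1
      rw [QuotientGroup.eq] at h2
      rcases mem_zpowers_invol z hz2 _ h2 with h3 | h3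
      · left
        exact (inv_mul_eq_one.mp h3).symm
      · right
        rw [inv_mul_eq_iff_eq_mul] at h3
        exact h3
    have he'nc : ∃ g, e' * g ≠ g * e' := by
      by_contra hcon
      push Not at hcon
      have h1 : e' ≠ 1 := fun h => he'Z (h ▸ one_mem _)
      have h2 := huniq e' (fun g => (hcon g).symm) he'2 h1
      exact he'Z (h2 ▸ mem_zpowers z)
    obtain ⟨g₀, hg₀⟩ := he'nc
    obtain ⟨M, Wp, Wm, hidx, hp, hm, hcpm, hprod, hfaith, hnc⟩ :=
      alpha_struct hodd ρ hinj z hz hzc hz2 e' he'2 hez g₀ hg₀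
    obtain ⟨a, ha, hWa⟩ : ∃ a ≤ n, Nat.card Wp = r ^ a :=
      (Nat.dvd_prime_pow hr).mp (hcard ▸ Wp.card_addSubgroup_dvd_card)
    have hna : n = 2 * a := by
      rw [← hcpm, hWa, hcard, ← pow_add] at hprod
      have := Nat.pow_right_injective hr.two_le hprod
      omega
    have ha1 : 1 ≤ a := by omega
    obtain ⟨x, y, tx, ty, hle, hsp⟩ := alpha_step (IH a ha1 (by omega)) ρ hP M Wp Wm hidx hp hm
      hWa (hcpm ▸ hWa) hfaith
    rw [hna]
    apply tt_alpha hc ha1 tx ty hle
    rcases hc16 with h16 | h3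
    · left; exact h16
    · right
      intro ha1'
      have h8 : Nat.card P ≤ 8 := hsp (by rw [h3, ha1']; norm_num)
      exact fi_le_four_of_card_le_eight hP h8 hnc
  · push Not at hII
    have hAcyc : IsCyclic A := by
      apply isCyclic_of_unique_invol (hP.to_subgroup A)
      · intro a b
        exact Subtype.ext (hAc a a.2 b b.2)
      · intro s t hs hs1 ht ht1
        have hs2 : (s : P) * s = 1 := congrArg Subtype.val hs
        have ht2 : (t : P) * t = 1 := congrArg Subtype.val ht
        have hs1' : (s : P) ≠ 1 := fun h => hs1 (Subtype.ext h)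
        have ht1' : (t : P) ≠ 1 := fun h => ht1 (Subtype.ext h)
        apply Subtype.ext
        apply hinj
        ext v
        rw [central_invol_neg ρ hinj hirr (s : P) (fun g => (hII s s.2 hs2 hs1' g).symm) hs2 hs1' v,
          central_invol_neg ρ hinj hirr (t : P) (fun g => (hII t t.2 ht2 ht1' g).symm) ht2 ht1' v]
    by_cases hAtop : A = ⊤
    · apply tt_small hc
      have h1 := fi_le_index_mul hP A
      have h2 : (frattini A).index ≤ 2 := fi_le_two_of_isCyclic (hP.to_subgroup A)
      have h3 : A.index = 1 := by rw [hAtop, index_top]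
      rw [h3, one_mul] at h1
      exact le_trans h1 h2
    · have hn2 : 2 ≤ n := by
        by_contra hcon
        have hn1 : n = 1 := by omega
        apply hAtop
        rw [eq_top_iff]
        intro g _
        apply hCA
        rw [mem_centralizer_iff]
        intro h _
        exact comm_of_prime_card ρ hinj hr (hcard.trans (by rw [hn1, pow_one])) h g
      obtain ⟨h8, hidx⟩ := beta_step hP A hAcyc hCA
      apply tt_beta hc hn2 h8
      rcases hc16 with h16 | h3
      · left; exact h16
      · by_cases hn3 : 3 ≤ n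
        · right; left; exact hn3
        · right; right
          have hn2' : n = 2 := by omega
          have h9 : Nat.card V = 9 := by rw [hcard, h3, hn2']; norm_num
          exact beta_special hP A hAcyc hidx (card_le_sixteen hP h9 ρ hinj)

/-- The bound constant: `8` for `r = 3`, `16` otherwise. -/
def boundC (r : ℕ) : ℕ := if r = 3 then 8 else 16

theorem good_all (r : ℕ) (hr : r.Prime) (hr2 : r ≠ 2) :
    ∀ n, 1 ≤ n → Good.{u, v} (boundC r) r n := by
  have hc : 8 ≤ boundC r := by unfold boundC; split_ifs <;> norm_num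
  have hc16 : 16 ≤ boundC r ∨ r = 3 := by
    unfold boundC
    by_cases h : r = 3
    · right; exact h
    · left; rw [if_neg h]
  intro n
  induction n using Nat.strong_induction_on with
  | _ n IH =>
    intro hn P _ _ V _ _ ρ hP hinj hcard
    have IH' : ∀ m, 1 ≤ m → m < n → Good.{u, v} (boundC r) r m := fun m h1 h2 => IH m h2 h1
    by_cases hirr : ∀ W : AddSubgroup V, (∀ g, ∀ w ∈ W, ρ g w ∈ W) → W = ⊥ ∨ W = ⊤
    · exact good_irreducible hc hc16 hr hr2 hn IH' ρ hP hinj hcard hirr
    · push Not at hirr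
      obtain ⟨W, hW, hbot, htop⟩ := hirr
      exact good_reducible hc hr hr2 IH' ρ hP hinj hcard W hW hbot htop

/-- **Main bound.** A finite `2`-group acting faithfully on an abelian group of order `r ^ n`
(`r` an odd prime, `n ≥ 1`) has Frattini index at most `r ^ n - 1`. -/
theorem fi_le_of_faithful {r n : ℕ} (hr : r.Prime) (hr2 : r ≠ 2) (hn : 1 ≤ n)
    {P : Type u} [Group P] [Finite P] {V : Type v} [AddCommGroup V] [Finite V]
    (ρ : P →* AddMonoid.End V) (hP : IsPGroup 2 P) (hinj : Function.Injective ρ)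
    (hcard : Nat.card V = r ^ n) : (frattini P).index ≤ r ^ n - 1 := by
  have h := good_all.{u, v} r hr hr2 n hn P V ρ hP hinj hcard
  have hr3 : 3 ≤ r := by
    have := hr.two_le
    omega
  apply tt_final hn hr3 _ h
  unfold boundC
  split_ifs with h3
  · rw [h3]; norm_num
  · have h5 : 5 ≤ r := by
      by_contra hcon
      push Not at hcon
      have h4 : r = 4 := by omega
      rw [h4] at hr
      exact absurd hr (by decide)
    nlinarith

end Cfsg.Agent.Helper70
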