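import Mathlib
import Cfsg.Agent.Helper70.TwoGenE

/-!
# Multiplicative form of the Frattini index bound
-/

set_option autoImplicit false

namespace Cfsg.Agent.Helper70

universe u v

/-- A finite `2`-group acting faithfully (by automorphisms) on a commutative group of order
`r ^ n`, `r` an odd prime, `n ≥ 1`, has Frattini index at most `r ^ n - 1`. -/
theorem fi_le_of_faithful_mul {r n : ℕ} (hr : r.Prime) (hr2 : r ≠ 2) (hn : 1 ≤ n)
    {P : Type u} [Group P] [Finite P] {N : Type v} [CommGroup N] [Finite N]
    (ρ : P →* MulAut N) (hP : IsPGroup 2 P) (hinj : Function.Injective ρ)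
    (hcard : Nat.card N = r ^ n) : (frattini P).index ≤ r ^ n - 1 := by
  let ρ' : P →* AddMonoid.End (Additive N) :=
    { toFun := fun g => MonoidHom.toAdditive (ρ g).toMonoidHom
      map_one' := by rw [map_one]; rfl
      map_mul' := fun g h => by rw [map_mul]; rfl }
  have hinj' : Function.Injective ρ' := by
    intro g h hgh
    apply hinj
    ext x
    have h1 := congrArg (fun f : AddMonoid.End (Additive N) => (f (Additive.ofMul x)).toMul) hgh
    exact h1
  have hfin : Finite (Additive N) := inferInstanceAs (Finite N)
  have hcard' : Nat.card (Additive N) = r ^ n := hcard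
  exact fi_le_of_faithful hr hr2 hn ρ' hP hinj' hcard'

end Cfsg.Agent.Helper70
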